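import Cfsg.Agent.H11.SimDSpec

/-! Slot D6B of chapter D of tower SIM. -/

set_option autoImplicit false

namespace H20.SimD6B

open Subgroup Cfsg H98 Matrix H0.Sim H11.SimD

theorem mg_iSup {n : ℕ} {F : Type} [Field F] {ι : Sort*} (g : GL (Fin n) F)
    (f : ι → Submodule F (Fin n → F)) : mg g (⨆ i, f i) = ⨆ i, mg g (f i) :=
  Submodule.map_iSup _ _

theorem jobD_D6B : H11.SimD.JobD6B := by
  intro n F _ _ q Θ H Q E g W₁ W₂ X₁ X₂ c st hle r1 _ i1 i2 hI e1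
  have x2 : X₂ = W₂ := i2.2 e1
  have n2 : mg g W₂ ≠ W₂ := fun e => c.not_both e1 e
  have n1 : X₁ ≠ W₁ := fun e => n2 (i1.1 e)
  have hg : ∀ h ∈ H, mg h X₁ ≤ mg g W₂ := by
    intro h hh
    refine (st _ (hI h hh).1).resolve_right fun hl => n1 ?_
    rw [e1] at hl
    have e : W₁ = mg h X₁ := Submodule.eq_of_le_of_finrank_eq hl (by rw [finrank_mg, r1])
    have := congrArg (mg h⁻¹) e
    rw [mg_mg, inv_mul_cancel, mg_one, (c.sb1 (H.inv_mem hh)).mg_eq] at this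
    exact this.symm
  let Y : Submodule F (Fin n → F) := ⨆ h : H, mg (h : GL (Fin n) F) X₁
  have hY : ∀ k ∈ H, Sb k Y := by
    intro k hk
    refine sb_iff.2 ?_
    rw [mg_iSup]
    refine iSup_le fun h => ?_
    rw [mg_mg]
    exact le_iSup (fun h : H => mg (h : GL (Fin n) F) X₁) ⟨k * h, H.mul_mem hk h.2⟩
  have gY : Y ≤ mg g W₂ := iSup_le fun h => hg h h.2
  have wY : Y ≤ W₂ := iSup_le fun h => by
    rw [← (c.sb2 h.2).mg_eq]
    exact mg_mono _ (x2 ▸ hle)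
  have YX : X₁ ≤ Y := by
    have := le_iSup (fun h : H => mg (h : GL (Fin n) F) X₁) 1
    rwa [Subgroup.coe_one, mg_one] at this
  rcases c.irr Y hY with e | e | e | e
  · have hb : X₁ = ⊥ := le_bot_iff.1 (e ▸ YX)
    exact c.bs.n1 (Submodule.eq_of_le_of_finrank_eq bot_le (by rw [← r1, hb])).symm
  · exact n1 (Submodule.eq_of_le_of_finrank_eq (e ▸ YX) r1)
  · exact n2 (mg_eq_of_ge (e ▸ gY))
  · exact c.bs.n2 (top_le_iff.1 (e ▸ wY))

end H20.SimD6B
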