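import Cfsg.Agent.H11.SimDSpec

/-! Slot D6C of chapter D of tower SIM. -/

set_option autoImplicit false

namespace H20.SimD6C

open Subgroup Cfsg H98 Matrix H0.Sim H11.SimD

theorem jobD_D6C : H11.SimD.JobD6C := by
  intro n F _ _ q Θ H Q E g W₁ W₂ X₁ X₂ c st hle _ r2 i1 i2 hI e2
  have x1 : X₁ = W₁ := i1.2 e2
  have n1 : mg g W₁ ≠ W₁ := fun e => c.not_both e e2
  have n2 : X₂ ≠ W₂ := fun e => n1 (i2.1 e)
  have hg : ∀ h ∈ H, mg g W₁ ≤ mg h X₂ := by
    intro h hh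
    refine (st _ (hI h hh).2).resolve_left fun hl => n2 ?_
    rw [e2] at hl
    have e : mg h X₂ = W₂ := Submodule.eq_of_le_of_finrank_eq hl (by rw [finrank_mg, r2])
    have := congrArg (mg h⁻¹) e
    rwa [mg_mg, inv_mul_cancel, mg_one, (c.sb2 (H.inv_mem hh)).mg_eq] at this
  let Y : Submodule F (Fin n → F) := ⨅ h : H, mg (h : GL (Fin n) F) X₂
  have hY : ∀ k ∈ H, Sb k Y := by
    intro k hk
    refine sb_iff.2 (le_iInf fun h => ?_)
    have := mg_mono k (iInf_le (fun h : H => mg (h : GL (Fin n) F) X₂) (⟨k, hk⟩⁻¹ * h))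
    rwa [mg_mg, Subgroup.coe_mul, Subgroup.coe_inv, mul_inv_cancel_left] at this
  have gY : mg g W₁ ≤ Y := le_iInf fun h => hg h h.2
  have wY : W₁ ≤ Y := le_iInf fun h => by
    rw [← (c.sb1 h.2).mg_eq]
    exact mg_mono _ (x1 ▸ hle)
  have YX : Y ≤ X₂ := by
    have := iInf_le (fun h : H => mg (h : GL (Fin n) F) X₂) 1
    rwa [Subgroup.coe_one, mg_one] at this
  rcases c.irr Y hY with e | e | e | e
  · exact c.bs.n1 (le_bot_iff.1 (e ▸ wY))
  · exact n1 (mg_eq_of_le (e ▸ gY))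
  · exact n2 (Submodule.eq_of_le_of_finrank_eq (e ▸ YX) r2.symm).symm
  · have ht : X₂ = ⊤ := top_le_iff.1 (e ▸ YX)
    exact c.bs.n2 (Submodule.eq_of_le_of_finrank_eq le_top (by rw [← r2, ht]))

end H20.SimD6C
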