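/- C3 tower (row S5227): basic lemmas. -/
import Cfsg.Agent.H20.C3Spec

set_option autoImplicit false
set_option linter.unusedSectionVars false
set_option linter.unusedSimpArgs false
set_option linter.unusedVariables false
set_option linter.unnecessarySeqFocus false

open Subgroup H90.RF H90.U5

namespace H20.C3

/-! ### Inclusions -/

theorem Z_le_Z2 : sZ ≤ sZ2 := fun _ h => ⟨h.1, h.2.1, h.2.2.1, h.2.2.2.1, h.2.2.2.2.1, h.2.2.2.2.2.1, h.2.2.2.2.2.2.1⟩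
theorem Z2_le_W : sZ2 ≤ sW := fun _ h => ⟨h.1, h.2.1, h.2.2.1, h.2.2.2.1, h.2.2.2.2.1, h.2.2.2.2.2.1⟩
theorem Z2_le_W2 : sZ2 ≤ sW2 := fun _ h => ⟨h.1, h.2.1, h.2.2.1, h.2.2.2.1, h.2.2.2.2.1, h.2.2.2.2.2.2⟩
theorem W_le_Z3 : sW ≤ sZ3 := fun _ h => ⟨h.1, h.2.1, h.2.2.1, h.2.2.2.1, h.2.2.2.2.1⟩
theorem W2_le_Z3 : sW2 ≤ sZ3 := fun _ h => ⟨h.1, h.2.1, h.2.2.1, h.2.2.2.1, h.2.2.2.2.1⟩
theorem Z2_le_Z3 : sZ2 ≤ sZ3 := fun _ h => ⟨h.1, h.2.1, h.2.2.1, h.2.2.2.1, h.2.2.2.2.1⟩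
theorem Z3_le_A5 : sZ3 ≤ sA5 := fun _ h => ⟨h.1, h.2.1, h.2.2.1, h.2.2.2.1⟩
theorem A5_le_A : sA5 ≤ sA := fun _ h => ⟨h.1, h.2.1, h.2.2.1⟩
theorem A5_le_Z4 : sA5 ≤ sZ4 := fun _ h => ⟨h.1, h.2.1, h.2.2.2⟩
theorem Z3_le_Y : sZ3 ≤ sY := fun _ h => ⟨h.1, h.2.1, h.2.2.2.1, h.2.2.2.2⟩
theorem Y_le_Z4 : sY ≤ sZ4 := fun _ h => ⟨h.1, h.2.1, h.2.2.1⟩
theorem Z4_le_D : sZ4 ≤ sD := fun _ h => ⟨h.1, h.2.1⟩
theorem Z4_le_R : sZ4 ≤ sR := fun _ h => ⟨h.1, h.2.2⟩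
theorem A_le_D : sA ≤ sD := fun _ h => ⟨h.1, h.2.1⟩
theorem D_le_E1 : sD ≤ sE1 := fun _ h => h.1
theorem D_le_E2 : sD ≤ sE2 := fun _ h => h.2
theorem R_le_E1 : sR ≤ sE1 := fun _ h => h.1
theorem R_le_E3 : sR ≤ sE3 := fun _ h => h.2
theorem A_le_E1 : sA ≤ sE1 := fun _ h => h.1
theorem A_le_E2 : sA ≤ sE2 := fun _ h => h.2.1
theorem Z3_le_A : sZ3 ≤ sA := fun _ h => ⟨h.1, h.2.1, h.2.2.1⟩
theorem W_le_A : sW ≤ sA := fun _ h => ⟨h.1, h.2.1, h.2.2.1⟩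
theorem Z_le_A : sZ ≤ sA := fun _ h => ⟨h.1, h.2.1, h.2.2.1⟩
theorem Z2_le_A : sZ2 ≤ sA := fun _ h => ⟨h.1, h.2.1, h.2.2.1⟩
theorem W2_le_A : sW2 ≤ sA := fun _ h => ⟨h.1, h.2.1, h.2.2.1⟩
theorem Z3_le_Z4 : sZ3 ≤ sZ4 := fun _ h => ⟨h.1, h.2.1, h.2.2.2.1⟩
theorem Z4_le_E3 : sZ4 ≤ sE3 := fun _ h => h.2.2
theorem Y_le_E3 : sY ≤ sE3 := fun _ h => h.2.2.1
theorem A5_le_E3 : sA5 ≤ sE3 := fun _ h => h.2.2.2
theorem A5_le_R : sA5 ≤ sR := fun _ h => ⟨h.1, h.2.2.2⟩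
theorem Y_le_R : sY ≤ sR := fun _ h => ⟨h.1, h.2.2.1⟩
theorem Y_le_D : sY ≤ sD := fun _ h => ⟨h.1, h.2.1⟩
theorem Z4_le_E1 : sZ4 ≤ sE1 := fun _ h => h.1
theorem Z4_le_E2 : sZ4 ≤ sE2 := fun _ h => h.2.1
theorem W_le_R : sW ≤ sR := fun _ h => ⟨h.1, h.2.2.2.1⟩
theorem Z_le_W : sZ ≤ sW := fun _ h => ⟨h.1, h.2.1, h.2.2.1, h.2.2.2.1, h.2.2.2.2.1, h.2.2.2.2.2.1⟩
theorem Z_le_W2 : sZ ≤ sW2 := fun _ h => ⟨h.1, h.2.1, h.2.2.1, h.2.2.2.1, h.2.2.2.2.1, h.2.2.2.2.2.2.1⟩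
theorem Z_le_Z3 : sZ ≤ sZ3 := fun _ h => ⟨h.1, h.2.1, h.2.2.1, h.2.2.2.1, h.2.2.2.2.1⟩
theorem W_le_A5 : sW ≤ sA5 := fun _ h => ⟨h.1, h.2.1, h.2.2.1, h.2.2.2.1⟩
theorem W2_le_A5 : sW2 ≤ sA5 := fun _ h => ⟨h.1, h.2.1, h.2.2.1, h.2.2.2.1⟩
theorem W_le_Y : sW ≤ sY := fun _ h => ⟨h.1, h.2.1, h.2.2.2.1, h.2.2.2.2.1⟩
theorem A_le_E4 (r s : F3) : sA ≤ sE4 r s := fun _ h => by simp [mem_sE4, h.1, h.2.1, h.2.2]
theorem E4_le_P4 (r s : F3) : sE4 r s ≤ sP4 r := fun _ h => h.1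
theorem D_le_P4 (r : F3) : sD ≤ sP4 r := fun _ h => by simp [mem_sP4, h.1, h.2]
theorem W_le_E0 (l : F3) : sW ≤ sE0 l := fun _ h => by
  simp [mem_sE0, h.1, h.2.1, h.2.2.1, h.2.2.2.1, h.2.2.2.2.1, h.2.2.2.2.2]
theorem E0_le_R (l : F3) : sE0 l ≤ sR := fun _ h => ⟨h.1, h.2.1⟩
theorem xx_mem : xx ∈ sE4 1 0 := by simp [mem_sE4, xx, uu]

/-! ### Commutators: `cm_X_Y` has `s ∈ X`, `m ∈ Y` (`S` is the whole group) -/

theorem cm_S_S (s : Co) (m : Co) : cm s m ∈ sZ4 := by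
  simp [mem_sZ4, cm_d, cm_e, cm_f, cm_g, cm_h, cm_z]
theorem cm_S_Z4 (s : Co) {m : Co} (hm : m ∈ sZ4) : cm s m ∈ sZ3 := by
  simp [mem_sZ3, cm_d, cm_e, cm_f, cm_g, cm_h, cm_z, hm.1, hm.2.1, hm.2.2]
theorem cm_Z4_S {s : Co} (hs : s ∈ sZ4) (m : Co) : cm s m ∈ sZ3 := by
  simp [mem_sZ3, cm_d, cm_e, cm_f, cm_g, cm_h, cm_z, hs.1, hs.2.1, hs.2.2]
theorem cm_S_Z3 (s : Co) {m : Co} (hm : m ∈ sZ3) : cm s m ∈ sZ2 := by
  simp [mem_sZ2, cm_d, cm_e, cm_f, cm_g, cm_h, cm_z, hm.1, hm.2.1, hm.2.2.1, hm.2.2.2.1, hm.2.2.2.2]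
theorem cm_Z3_S {s : Co} (hs : s ∈ sZ3) (m : Co) : cm s m ∈ sZ2 := by
  simp [mem_sZ2, cm_d, cm_e, cm_f, cm_g, cm_h, cm_z, hs.1, hs.2.1, hs.2.2.1, hs.2.2.2.1, hs.2.2.2.2]
theorem cm_S_Z2 (s : Co) {m : Co} (hm : m ∈ sZ2) : cm s m ∈ sZ := by
  simp [mem_sZ, cm_d, cm_e, cm_f, cm_g, cm_h, cm_z, hm.1, hm.2.1, hm.2.2.1, hm.2.2.2.1, hm.2.2.2.2.1, hm.2.2.2.2.2.1, hm.2.2.2.2.2.2]
theorem cm_Z2_S {s : Co} (hs : s ∈ sZ2) (m : Co) : cm s m ∈ sZ := by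
  simp [mem_sZ, cm_d, cm_e, cm_f, cm_g, cm_h, cm_z, hs.1, hs.2.1, hs.2.2.1, hs.2.2.2.1, hs.2.2.2.2.1, hs.2.2.2.2.2.1, hs.2.2.2.2.2.2]
theorem cm_S_Z (s : Co) {m : Co} (hm : m ∈ sZ) : cm s m = 1 := by
  ext <;> simp [cm_d, cm_e, cm_f, cm_g, cm_h, cm_z, hm.1, hm.2.1, hm.2.2.1, hm.2.2.2.1, hm.2.2.2.2.1, hm.2.2.2.2.2.1, hm.2.2.2.2.2.2.1, hm.2.2.2.2.2.2.2]
theorem cm_Z_S {s : Co} (hs : s ∈ sZ) (m : Co) : cm s m = 1 := by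
  ext <;> simp [cm_d, cm_e, cm_f, cm_g, cm_h, cm_z, hs.1, hs.2.1, hs.2.2.1, hs.2.2.2.1, hs.2.2.2.2.1, hs.2.2.2.2.2.1, hs.2.2.2.2.2.2.1, hs.2.2.2.2.2.2.2]
theorem cm_S_A (s : Co) {m : Co} (hm : m ∈ sA) : cm s m ∈ sA5 := by
  simp [mem_sA5, cm_d, cm_e, cm_f, cm_g, cm_h, cm_z, hm.1, hm.2.1, hm.2.2]
theorem cm_A_S {s : Co} (hs : s ∈ sA) (m : Co) : cm s m ∈ sA5 := by
  simp [mem_sA5, cm_d, cm_e, cm_f, cm_g, cm_h, cm_z, hs.1, hs.2.1, hs.2.2]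
theorem cm_A_A {s : Co} (hs : s ∈ sA) {m : Co} (hm : m ∈ sA) : cm s m = 1 := by
  ext <;> simp [cm_d, cm_e, cm_f, cm_g, cm_h, cm_z, hs.1, hs.2.1, hs.2.2, hm.1, hm.2.1, hm.2.2]
theorem cm_E1_E1 {s : Co} (hs : s ∈ sE1) {m : Co} (hm : m ∈ sE1) : cm s m ∈ sA5 := by
  simp [mem_sA5, cm_d, cm_e, cm_f, cm_g, cm_h, cm_z, (mem_sE1.1 hs), (mem_sE1.1 hm)]
theorem cm_E1_A5 {s : Co} (hs : s ∈ sE1) {m : Co} (hm : m ∈ sA5) : cm s m ∈ sW := by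
  simp [mem_sW, cm_d, cm_e, cm_f, cm_g, cm_h, cm_z, (mem_sE1.1 hs), hm.1, hm.2.1, hm.2.2.1, hm.2.2.2]
theorem cm_A5_E1 {s : Co} (hs : s ∈ sA5) {m : Co} (hm : m ∈ sE1) : cm s m ∈ sW := by
  simp [mem_sW, cm_d, cm_e, cm_f, cm_g, cm_h, cm_z, hs.1, hs.2.1, hs.2.2.1, hs.2.2.2, (mem_sE1.1 hm)]
theorem cm_E1_W {s : Co} (hs : s ∈ sE1) {m : Co} (hm : m ∈ sW) : cm s m = 1 := by
  ext <;> simp [cm_d, cm_e, cm_f, cm_g, cm_h, cm_z, (mem_sE1.1 hs), hm.1, hm.2.1, hm.2.2.1, hm.2.2.2.1, hm.2.2.2.2.1, hm.2.2.2.2.2]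
theorem cm_W_E1 {s : Co} (hs : s ∈ sW) {m : Co} (hm : m ∈ sE1) : cm s m = 1 := by
  ext <;> simp [cm_d, cm_e, cm_f, cm_g, cm_h, cm_z, hs.1, hs.2.1, hs.2.2.1, hs.2.2.2.1, hs.2.2.2.2.1, hs.2.2.2.2.2, (mem_sE1.1 hm)]
theorem cm_E2_E2 {s : Co} (hs : s ∈ sE2) {m : Co} (hm : m ∈ sE2) : cm s m ∈ sW2 := by
  simp [mem_sW2, cm_d, cm_e, cm_f, cm_g, cm_h, cm_z, (mem_sE2.1 hs), (mem_sE2.1 hm)]
theorem cm_E2_W2 {s : Co} (hs : s ∈ sE2) {m : Co} (hm : m ∈ sW2) : cm s m ∈ sZ := by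
  simp [mem_sZ, cm_d, cm_e, cm_f, cm_g, cm_h, cm_z, (mem_sE2.1 hs), hm.1, hm.2.1, hm.2.2.1, hm.2.2.2.1, hm.2.2.2.2.1, hm.2.2.2.2.2]
theorem cm_W2_E2 {s : Co} (hs : s ∈ sW2) {m : Co} (hm : m ∈ sE2) : cm s m ∈ sZ := by
  simp [mem_sZ, cm_d, cm_e, cm_f, cm_g, cm_h, cm_z, hs.1, hs.2.1, hs.2.2.1, hs.2.2.2.1, hs.2.2.2.2.1, hs.2.2.2.2.2, (mem_sE2.1 hm)]
theorem cm_E3_E3 {s : Co} (hs : s ∈ sE3) {m : Co} (hm : m ∈ sE3) : cm s m ∈ sY := by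
  simp [mem_sY, cm_d, cm_e, cm_f, cm_g, cm_h, cm_z, (mem_sE3.1 hs), (mem_sE3.1 hm)]
theorem cm_E3_Y {s : Co} (hs : s ∈ sE3) {m : Co} (hm : m ∈ sY) : cm s m ∈ sZ2 := by
  simp [mem_sZ2, cm_d, cm_e, cm_f, cm_g, cm_h, cm_z, (mem_sE3.1 hs), hm.1, hm.2.1, hm.2.2.1, hm.2.2.2]
theorem cm_Y_E3 {s : Co} (hs : s ∈ sY) {m : Co} (hm : m ∈ sE3) : cm s m ∈ sZ2 := by
  simp [mem_sZ2, cm_d, cm_e, cm_f, cm_g, cm_h, cm_z, hs.1, hs.2.1, hs.2.2.1, hs.2.2.2, (mem_sE3.1 hm)]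
theorem cm_R_R {s : Co} (hs : s ∈ sR) {m : Co} (hm : m ∈ sR) : cm s m ∈ sW := by
  simp [mem_sW, cm_d, cm_e, cm_f, cm_g, cm_h, cm_z, hs.1, hs.2, hm.1, hm.2]
theorem cm_D_Z3 {s : Co} (hs : s ∈ sD) {m : Co} (hm : m ∈ sZ3) : cm s m ∈ sZ := by
  simp [mem_sZ, cm_d, cm_e, cm_f, cm_g, cm_h, cm_z, hs.1, hs.2, hm.1, hm.2.1, hm.2.2.1, hm.2.2.2.1, hm.2.2.2.2]
theorem cm_Z3_D {s : Co} (hs : s ∈ sZ3) {m : Co} (hm : m ∈ sD) : cm s m ∈ sZ := by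
  simp [mem_sZ, cm_d, cm_e, cm_f, cm_g, cm_h, cm_z, hs.1, hs.2.1, hs.2.2.1, hs.2.2.2.1, hs.2.2.2.2, hm.1, hm.2]
theorem cm_D_A5 {s : Co} (hs : s ∈ sD) {m : Co} (hm : m ∈ sA5) : cm s m ∈ sZ2 := by
  simp [mem_sZ2, cm_d, cm_e, cm_f, cm_g, cm_h, cm_z, hs.1, hs.2, hm.1, hm.2.1, hm.2.2.1, hm.2.2.2]
theorem cm_A5_D {s : Co} (hs : s ∈ sA5) {m : Co} (hm : m ∈ sD) : cm s m ∈ sZ2 := by
  simp [mem_sZ2, cm_d, cm_e, cm_f, cm_g, cm_h, cm_z, hs.1, hs.2.1, hs.2.2.1, hs.2.2.2, hm.1, hm.2]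
theorem cm_E1_Y {s : Co} (hs : s ∈ sE1) {m : Co} (hm : m ∈ sY) : cm s m ∈ sW2 := by
  simp [mem_sW2, cm_d, cm_e, cm_f, cm_g, cm_h, cm_z, (mem_sE1.1 hs), hm.1, hm.2.1, hm.2.2.1, hm.2.2.2]
theorem cm_E3_Z4 {s : Co} (hs : s ∈ sE3) {m : Co} (hm : m ∈ sZ4) : cm s m ∈ sZ3 := by
  simp [mem_sZ3, cm_d, cm_e, cm_f, cm_g, cm_h, cm_z, (mem_sE3.1 hs), hm.1, hm.2.1, hm.2.2]
theorem cm_D_D {s : Co} (hs : s ∈ sD) {m : Co} (hm : m ∈ sD) : cm s m ∈ sW2 := by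
  simp [mem_sW2, cm_d, cm_e, cm_f, cm_g, cm_h, cm_z, hs.1, hs.2, hm.1, hm.2]
theorem cm_E2_D {s : Co} (hs : s ∈ sE2) {m : Co} (hm : m ∈ sD) : cm s m ∈ sW2 := by
  simp [mem_sW2, cm_d, cm_e, cm_f, cm_g, cm_h, cm_z, (mem_sE2.1 hs), hm.1, hm.2]

instance nZ : sZ.Normal := normal_of_cm fun s m h => by rw [cm_S_Z s h]; exact one_mem _
instance nZ2 : sZ2.Normal := normal_of_cm fun s m h => Z_le_Z2 (cm_S_Z2 s h)
instance nW : sW.Normal := normal_of_cm fun s m h => Z2_le_W (cm_S_Z3 s (W_le_Z3 h))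
instance nW2 : sW2.Normal := normal_of_cm fun s m h => Z2_le_W2 (cm_S_Z3 s (W2_le_Z3 h))
instance nZ3 : sZ3.Normal := normal_of_cm fun s m h => Z2_le_Z3 (cm_S_Z3 s h)
instance nA5 : sA5.Normal := normal_of_cm fun s m h => cm_S_A s (A5_le_A h)
instance nA : sA.Normal := normal_of_cm fun s m h => A5_le_A (cm_S_A s h)
instance nZ4 : sZ4.Normal := normal_of_cm fun s m h => cm_S_S s m
instance nD : sD.Normal := normal_of_cm fun s m h => Z4_le_D (cm_S_S s m)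
instance nR : sR.Normal := normal_of_cm fun s m h => Z4_le_R (cm_S_S s m)
instance nE1 : sE1.Normal := normal_of_cm fun s m h => Z4_le_E1 (cm_S_S s m)
instance nE2 : sE2.Normal := normal_of_cm fun s m h => Z4_le_E2 (cm_S_S s m)
instance nE3 : sE3.Normal := normal_of_cm fun s m h => Z4_le_E3 (cm_S_S s m)
instance nY : sY.Normal := normal_of_cm fun s m h => Z3_le_Y (cm_S_Z4 s (Y_le_Z4 h))
instance nP4 (r : F3) : (sP4 r).Normal := normal_of_cm fun s m h => D_le_P4 r (Z4_le_D (cm_S_S s m))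
instance nz0 (j : ℕ) : (z0 j).Normal := by unfold z0; split <;> infer_instance
instance nzA (j : ℕ) : (zA j).Normal := by unfold zA; split <;> infer_instance

theorem z0_mono (i : ℕ) : z0 i ≤ z0 (i + 1) := by
  rcases i with _ | _ | _ | _ | _ | _ | _ | _ | _ | i
  exacts [bot_le, Z_le_Z2, Z2_le_W, W_le_Z3, Z3_le_A5, A5_le_Z4, Z4_le_D, D_le_E1, le_top, le_rfl]

/-- `S` acts trivially on the factors of `z0` -/
theorem z0_cm : ∀ i < 9, ∀ u ∈ z0 (i + 1), ∀ s, cm s u ∈ z0 i := by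
  intro i hi u hu s
  interval_cases i
  exacts [cm_S_Z s hu, cm_S_Z2 s hu, cm_S_Z3 s (W_le_Z3 hu), Z2_le_W (cm_S_Z3 s hu), cm_S_Z4 s (A5_le_Z4 hu),
    Z3_le_A5 (cm_S_Z4 s hu), cm_S_S s u, Z4_le_D (cm_S_S s u), Z4_le_E1 (cm_S_S s u)]

theorem zA_mono (i : ℕ) : zA i ≤ zA (i + 1) := by
  rcases i with _ | _ | _ | _ | i
  exacts [bot_le, Z_le_Z2, Z2_le_Z3, Z3_le_Z4, le_rfl]

/-! ### Cubes and conjugates -/

theorem cube_eq (u : Co) : u ^ 3 = ⟨0, 0, 0, 0, 0, u.a * u.b * u.c, -(u.b ^ 2 * u.c),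
    -(u.b * u.d * u.c) - u.a * u.b ^ 2 * u.c, -(u.d ^ 2 * u.c) + u.a * u.d * u.e - u.a * u.b * u.f +
      u.a * u.b * u.d * u.c - u.a ^ 2 * u.g + u.a ^ 2 * u.b * u.e + u.a ^ 2 * u.b ^ 2 * u.c⟩ := by
  rw [pow_succ, pow_succ, pow_one]
  ext <;> simp <;> grind

theorem cube_A {u : Co} (h : u ∈ sA) : u ^ 3 = 1 := by
  rw [cube_eq]; ext <;> simp [h.1, h.2.1, h.2.2]

theorem cube_mem_Z3 (u : Co) : u ^ 3 ∈ sZ3 := by rw [cube_eq]; exact ⟨rfl, rfl, rfl, rfl, rfl⟩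

theorem cj_eq (s u : Co) : cj s u = u * cm s u := conj_eq_cm s u
@[simp] theorem cj_a (s u : Co) : (s * u * s⁻¹).a = u.a := by simp
@[simp] theorem cj_b (s u : Co) : (s * u * s⁻¹).b = u.b := by simp
@[simp] theorem cj_c (s u : Co) : (s * u * s⁻¹).c = u.c := by simp
theorem cj_d (s u : Co) : (s * u * s⁻¹).d = u.d + s.a * u.b - u.a * s.b := by simp; ring
theorem cj_e (s u : Co) : (s * u * s⁻¹).e = u.e + s.b * u.c - u.b * s.c := by simp; ring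

/-- conjugation on `A` is the linear action of `uu s.a s.b s.d` -/
theorem cj_A (s : Co) {u : Co} (h : u ∈ sA) : s * u * s⁻¹ =
    vv u.c (s.b * u.c + u.e) (s.d * u.c + s.a * u.e + u.f) (s.b ^ 2 * u.c + 2 * s.b * u.e + u.g)
      (s.b * s.d * u.c + (s.a * s.b + s.d) * u.e + s.b * u.f + s.a * u.g + u.h)
      (s.d ^ 2 * u.c + 2 * s.a * s.d * u.e + 2 * s.d * u.f + s.a ^ 2 * u.g + 2 * s.a * u.h + u.z) := by
  ext <;> simp [vv, h.1, h.2.1, h.2.2] <;> ring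

theorem mul_A {u w : Co} (h : u ∈ sA) : u * w = ⟨w.a, w.b, w.d, u.c + w.c, u.e + w.e, u.f + w.f, u.g + w.g,
    u.h + w.h, u.z + w.z⟩ := by
  ext <;> simp [h.1, h.2.1, h.2.2]

theorem inv_A {u : Co} (h : u ∈ sA) : u⁻¹ = vv (-u.c) (-u.e) (-u.f) (-u.g) (-u.h) (-u.z) := by
  ext <;> simp [vv, h.1, h.2.1, h.2.2]

theorem comm_A {u w : Co} (hu : u ∈ sA) (hw : w ∈ sA) : u * w = w * u := cm_eq_one.1 (cm_A_A hu hw)

theorem vv_mem (c e f g h z : F3) : vv c e f g h z ∈ sA := ⟨rfl, rfl, rfl⟩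

theorem eq_vv {u : Co} (h : u ∈ sA) : u = vv u.c u.e u.f u.g u.h u.z := by
  ext <;> simp [vv, h.1, h.2.1, h.2.2]

theorem eq_vv_uu (u : Co) : u = vv u.c u.e u.f u.g u.h u.z * uu u.a u.b u.d := by
  ext <;> simp [vv, uu]

/-- `C(A) = A` -/
theorem mem_A_of_cen {s : Co} (h : ∀ u ∈ sA, cm s u = 1) : s ∈ sA := by
  have h1 := h (xc 1) ⟨rfl, rfl, rfl⟩
  have h2 := h (xe 1) ⟨rfl, rfl, rfl⟩
  exact ⟨by simpa [cm_f, xe] using congrArg Co.f h2, by simpa [cm_e, xc] using congrArg Co.e h1,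
    by simpa [cm_f, xc] using congrArg Co.f h1⟩

/-- two elements that act alike on `A` are congruent modulo `A` -/
theorem eq_of_cj_A {s t : Co} (h : ∀ u ∈ sA, s * u * s⁻¹ = t * u * t⁻¹) : s.a = t.a ∧ s.b = t.b ∧ s.d = t.d := by
  have h1 := h (xc 1) ⟨rfl, rfl, rfl⟩
  have h2 := h (xe 1) ⟨rfl, rfl, rfl⟩
  rw [cj_A _ ⟨rfl, rfl, rfl⟩, cj_A _ ⟨rfl, rfl, rfl⟩] at h1 h2
  exact ⟨by simpa [vv, xe] using congrArg Co.f h2, by simpa [vv, xc] using congrArg Co.e h1,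
    by simpa [vv, xc] using congrArg Co.f h1⟩

theorem cj_A_congr {s t : Co} (ha : s.a = t.a) (hb : s.b = t.b) (hd : s.d = t.d) {u : Co} (h : u ∈ sA) :
    s * u * s⁻¹ = t * u * t⁻¹ := by rw [cj_A s h, cj_A t h, ha, hb, hd]

/-! ### Powers and generators -/

theorem pow_a (u : Co) (n : ℕ) : (u ^ n).a = n * u.a := by
  induction n with
  | zero => simp
  | succ n ih => rw [pow_succ, Co.mul_a, ih]; push_cast; ring
theorem pow_b (u : Co) (n : ℕ) : (u ^ n).b = n * u.b := by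
  induction n with
  | zero => simp
  | succ n ih => rw [pow_succ, Co.mul_b, ih]; push_cast; ring
theorem pow_c (u : Co) (n : ℕ) : (u ^ n).c = n * u.c := by
  induction n with
  | zero => simp
  | succ n ih => rw [pow_succ, Co.mul_c, ih]; push_cast; ring

theorem xa_add (s t : F3) : xa s * xa t = xa (s + t) := by ext <;> simp [xa]
theorem xa_inv (t : F3) : (xa t)⁻¹ = xa (-t) := by ext <;> simp [xa]
theorem xa_zero : xa 0 = 1 := rfl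
theorem xb_add (s t : F3) : xb s * xb t = xb (s + t) := by ext <;> simp [xb]
theorem xb_inv (t : F3) : (xb t)⁻¹ = xb (-t) := by ext <;> simp [xb]
theorem xb_zero : xb 0 = 1 := rfl
theorem xd_add (s t : F3) : xd s * xd t = xd (s + t) := by ext <;> simp [xd]
theorem xd_inv (t : F3) : (xd t)⁻¹ = xd (-t) := by ext <;> simp [xd]
theorem xd_zero : xd 0 = 1 := rfl
theorem xc_add (s t : F3) : xc s * xc t = xc (s + t) := by ext <;> simp [xc]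
theorem xc_inv (t : F3) : (xc t)⁻¹ = xc (-t) := by ext <;> simp [xc]
theorem xc_zero : xc 0 = 1 := rfl
theorem xe_add (s t : F3) : xe s * xe t = xe (s + t) := by ext <;> simp [xe]
theorem xe_inv (t : F3) : (xe t)⁻¹ = xe (-t) := by ext <;> simp [xe]
theorem xe_zero : xe 0 = 1 := rfl
theorem xf_add (s t : F3) : xf s * xf t = xf (s + t) := by ext <;> simp [xf]
theorem xf_inv (t : F3) : (xf t)⁻¹ = xf (-t) := by ext <;> simp [xf]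
theorem xf_zero : xf 0 = 1 := rfl
theorem xg_add (s t : F3) : xg s * xg t = xg (s + t) := by ext <;> simp [xg]
theorem xg_inv (t : F3) : (xg t)⁻¹ = xg (-t) := by ext <;> simp [xg]
theorem xg_zero : xg 0 = 1 := rfl
theorem xh_add (s t : F3) : xh s * xh t = xh (s + t) := by ext <;> simp [xh]
theorem xh_inv (t : F3) : (xh t)⁻¹ = xh (-t) := by ext <;> simp [xh]
theorem xh_zero : xh 0 = 1 := rfl
theorem xz_add (s t : F3) : xz s * xz t = xz (s + t) := by ext <;> simp [xz]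
theorem xz_inv (t : F3) : (xz t)⁻¹ = xz (-t) := by ext <;> simp [xz]
theorem xz_zero : xz 0 = 1 := rfl

theorem eq_prod (u : Co) : u = xc u.c * xe u.e * xf u.f * xg u.g * xh u.h * xz u.z *
    (xd (u.d - u.a * u.b) * xa u.a * xb u.b) := by
  ext <;> simp [xa, xb, xc, xd, xe, xf, xg, xh, xz]

/-- a subgroup that contains `x 1` contains the whole root subgroup -/
theorem root_mem {X : Subgroup Co} {x : F3 → Co} (h0 : x 0 = 1) (hi : ∀ t, (x t)⁻¹ = x (-t)) (h : x 1 ∈ X)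
    (t : F3) : x t ∈ X := by
  rcases tri t with rfl | rfl | rfl
  exacts [h0 ▸ one_mem _, h, hi 1 ▸ inv_mem h]

theorem cm_mem {X : Subgroup Co} {s m : Co} (hs : s ∈ X) (hm : m ∈ X) : cm s m ∈ X :=
  mul_mem (inv_mem hm) (mul_mem (mul_mem hs hm) (inv_mem hs))

theorem cm_ab : cm (xa 1) (xb 1) = xd 1 := by decide
theorem cm_bc : cm (xb 1) (xc 1) = xe 1 * xg 1 := by decide
theorem cm_dc : cm (xd 1) (xc 1) = xf 1 * xz 1 := by decide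
theorem cm_ae : cm (xa 1) (xe 1) = xf 1 := by decide
theorem cm_be : cm (xb 1) (xe 1) = xg (-1) := by decide
theorem cm_de : cm (xd 1) (xe 1) = xh 1 := by decide
theorem cm_bf : cm (xb 1) (xf 1) = xh 1 := by decide
theorem cm_df : cm (xd 1) (xf 1) = xz (-1) := by decide
theorem cm_ag : cm (xa 1) (xg 1) = xh 1 * xz 1 := by decide
theorem cm_ah : cm (xa 1) (xh 1) = xz (-1) := by decide

theorem mem_of_roots {X : Subgroup Co} {u : Co} (ha : u.a = 0 ∨ xa 1 ∈ X) (hb : u.b = 0 ∨ xb 1 ∈ X)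
    (hd : u.d - u.a * u.b = 0 ∨ xd 1 ∈ X) (hc : u.c = 0 ∨ xc 1 ∈ X) (he : u.e = 0 ∨ xe 1 ∈ X)
    (hf : u.f = 0 ∨ xf 1 ∈ X) (hg : u.g = 0 ∨ xg 1 ∈ X) (hh : u.h = 0 ∨ xh 1 ∈ X) (hz : u.z = 0 ∨ xz 1 ∈ X) :
    u ∈ X := by
  have k : ∀ {x : F3 → Co} {t : F3}, x 0 = 1 → (∀ t, (x t)⁻¹ = x (-t)) → (t = 0 ∨ x 1 ∈ X) → x t ∈ X :=
    fun h0 hi h => h.elim (fun e => by rw [e, h0]; exact one_mem _) fun h => root_mem h0 hi h _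
  rw [eq_prod u]
  exact mul_mem (mul_mem (mul_mem (mul_mem (mul_mem (mul_mem (k xc_zero xc_inv hc) (k xe_zero xe_inv he))
    (k xf_zero xf_inv hf)) (k xg_zero xg_inv hg)) (k xh_zero xh_inv hh)) (k xz_zero xz_inv hz))
    (mul_mem (mul_mem (k xd_zero xd_inv hd) (k xa_zero xa_inv ha)) (k xb_zero xb_inv hb))

theorem A_le_of {X : Subgroup Co} (hc : xc 1 ∈ X) (he : xe 1 ∈ X) (hf : xf 1 ∈ X) (hg : xg 1 ∈ X)
    (hh : xh 1 ∈ X) (hz : xz 1 ∈ X) : sA ≤ X := fun u h =>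
  mem_of_roots (.inl h.1) (.inl h.2.1) (.inl (by simp [h.1, h.2.2])) (.inr hc) (.inr he) (.inr hf) (.inr hg)
    (.inr hh) (.inr hz)

theorem E1_le_of {X : Subgroup Co} (hb : xb 1 ∈ X) (hd : xd 1 ∈ X) (hc : xc 1 ∈ X) : sE1 ≤ X := by
  have h1 := cm_bc ▸ cm_mem hb hc
  have h2 := cm_dc ▸ cm_mem hd hc
  have hg : xg 1 ∈ X := by
    have := inv_mem (cm_mem hb h1); rwa [show (cm (xb 1) (xe 1 * xg 1))⁻¹ = xg 1 by decide] at this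
  have hz : xz 1 ∈ X := by
    have := inv_mem (cm_mem hd h2); rwa [show (cm (xd 1) (xf 1 * xz 1))⁻¹ = xz 1 by decide] at this
  have he := (X.mul_mem_cancel_right hg).1 h1
  have hf := (X.mul_mem_cancel_right hz).1 h2
  exact fun u h => mem_of_roots (.inl h) (.inr hb) (.inr hd) (.inr hc) (.inr he) (.inr hf) (.inr hg)
    (.inr (cm_de ▸ cm_mem hd he)) (.inr hz)

theorem top_le_of {X : Subgroup Co} (ha : xa 1 ∈ X) (hb : xb 1 ∈ X) (hc : xc 1 ∈ X) : ⊤ ≤ X := fun u _ => by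
  have h := E1_le_of hb (cm_ab ▸ cm_mem ha hb) hc
  exact mem_of_roots (.inr ha) (.inr hb) (.inr (h rfl)) (.inr hc) (.inr (h rfl)) (.inr (h rfl)) (.inr (h rfl))
    (.inr (h rfl)) (.inr (h rfl))

theorem E2_le_of {X : Subgroup Co} (ha : xa 1 ∈ X) (hd : xd 1 ∈ X) (hc : xc 1 ∈ X) (he : xe 1 ∈ X)
    (hg : xg 1 ∈ X) : sE2 ≤ X := fun u h => by
  have hh := cm_de ▸ cm_mem hd he
  exact mem_of_roots (.inr ha) (.inl h) (.inr hd) (.inr hc) (.inr he) (.inr (cm_ae ▸ cm_mem ha he)) (.inr hg)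
    (.inr hh) (.inr (X.inv_mem_iff.1 (xz_inv 1 ▸ cm_ah ▸ cm_mem ha hh)))

theorem E3_le_of {X : Subgroup Co} (ha : xa 1 ∈ X) (hb : xb 1 ∈ X) (he : xe 1 ∈ X) : sE3 ≤ X := fun u h => by
  have hd := cm_ab ▸ cm_mem ha hb
  have hh := cm_de ▸ cm_mem hd he
  exact mem_of_roots (.inr ha) (.inr hb) (.inr hd) (.inl h) (.inr he) (.inr (cm_ae ▸ cm_mem ha he))
    (.inr (X.inv_mem_iff.1 (xg_inv 1 ▸ cm_be ▸ cm_mem hb he))) (.inr hh)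
    (.inr (X.inv_mem_iff.1 (xz_inv 1 ▸ cm_ah ▸ cm_mem ha hh)))

/-- the subgroup on which two automorphisms agree -/
def eqS {X : Subgroup Co} {β γ : Co → Co} (h : Au X β) (k : Au X γ) : Subgroup Co where
  carrier := {u | u ∈ X ∧ β u = γ u}
  one_mem' := ⟨one_mem _, h.one.trans k.one.symm⟩
  mul_mem' := fun {u w} hu hw => ⟨mul_mem hu.1 hw.1, by rw [h.mul u hu.1 w hw.1, k.mul u hu.1 w hw.1, hu.2, hw.2]⟩
  inv_mem' := fun {u} hu => ⟨inv_mem hu.1, by rw [h.inv hu.1, k.inv hu.1, hu.2]⟩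

section Ext
variable {β γ : Co → Co}

theorem ext_top (h : Au ⊤ β) (k : Au ⊤ γ) (ha : β (xa 1) = γ (xa 1)) (hb : β (xb 1) = γ (xb 1))
    (hc : β (xc 1) = γ (xc 1)) (u : Co) : β u = γ u :=
  (top_le_of (X := eqS h k) ⟨trivial, ha⟩ ⟨trivial, hb⟩ ⟨trivial, hc⟩ (mem_top u)).2

theorem ext_E1 (h : Au sE1 β) (k : Au sE1 γ) (hb : β (xb 1) = γ (xb 1)) (hd : β (xd 1) = γ (xd 1))
    (hc : β (xc 1) = γ (xc 1)) : ∀ u ∈ sE1, β u = γ u := fun _ hu =>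
  (E1_le_of (X := eqS h k) ⟨rfl, hb⟩ ⟨rfl, hd⟩ ⟨rfl, hc⟩ hu).2

theorem ext_E2 (h : Au sE2 β) (k : Au sE2 γ) (ha : β (xa 1) = γ (xa 1)) (hd : β (xd 1) = γ (xd 1))
    (hc : β (xc 1) = γ (xc 1)) (he : β (xe 1) = γ (xe 1)) (hg : β (xg 1) = γ (xg 1)) :
    ∀ u ∈ sE2, β u = γ u := fun _ hu =>
  (E2_le_of (X := eqS h k) ⟨rfl, ha⟩ ⟨rfl, hd⟩ ⟨rfl, hc⟩ ⟨rfl, he⟩ ⟨rfl, hg⟩ hu).2

theorem ext_E3 (h : Au sE3 β) (k : Au sE3 γ) (ha : β (xa 1) = γ (xa 1)) (hb : β (xb 1) = γ (xb 1))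
    (he : β (xe 1) = γ (xe 1)) : ∀ u ∈ sE3, β u = γ u := fun _ hu =>
  (E3_le_of (X := eqS h k) ⟨rfl, ha⟩ ⟨rfl, hb⟩ ⟨rfl, he⟩ hu).2

theorem ext_sA (h : Au sA β) (k : Au sA γ) (hc : β (xc 1) = γ (xc 1)) (he : β (xe 1) = γ (xe 1))
    (hf : β (xf 1) = γ (xf 1)) (hg : β (xg 1) = γ (xg 1)) (hh : β (xh 1) = γ (xh 1))
    (hz : β (xz 1) = γ (xz 1)) : ∀ u ∈ sA, β u = γ u := fun _ hu =>
  (A_le_of (X := eqS h k) ⟨vv_mem .., hc⟩ ⟨vv_mem .., he⟩ ⟨vv_mem .., hf⟩ ⟨vv_mem .., hg⟩ ⟨vv_mem .., hh⟩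
    ⟨vv_mem .., hz⟩ hu).2

end Ext

/-- a subgroup of index three is maximal -/
theorem eq_of_coord {X E : Subgroup Co} (φ : Co → F3) (hφ : ∀ u w, φ (u * w) = φ u + φ w)
    (hX : ∀ u, u ∈ X ↔ φ u = 0) (le : X ≤ E) (ne : E ≠ ⊤) : E = X := by
  refine le_antisymm (fun t ht => by_contra fun h => ne (eq_top_iff.2 fun u _ => ?_)) le
  have h1 : φ 1 = 0 := (hX 1).1 (one_mem _)
  have hi : φ t⁻¹ = -φ t := by have := hφ t t⁻¹; rw [mul_inv_cancel, h1] at this; linear_combination -this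
  rw [hX] at h
  rcases (show φ u = 0 ∨ φ u + φ t = 0 ∨ φ u - φ t = 0 by
    revert h; generalize φ u = x; generalize φ t = y; revert x y; decide) with k | k | k
  · exact le ((hX u).2 k)
  · exact (E.mul_mem_cancel_right ht).1 (le ((hX _).2 (by rw [hφ, k])))
  · exact (E.mul_mem_cancel_right (inv_mem ht)).1 (le ((hX _).2 (by rw [hφ, hi, ← sub_eq_add_neg, k])))

theorem eq_E1 {E : Subgroup Co} (le : sE1 ≤ E) (ne : E ≠ ⊤) : E = sE1 :=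
  eq_of_coord Co.a Co.mul_a (fun _ => mem_sE1) le ne
theorem eq_E2 {E : Subgroup Co} (le : sE2 ≤ E) (ne : E ≠ ⊤) : E = sE2 :=
  eq_of_coord Co.b Co.mul_b (fun _ => mem_sE2) le ne
theorem eq_E3 {E : Subgroup Co} (le : sE3 ≤ E) (ne : E ≠ ⊤) : E = sE3 :=
  eq_of_coord Co.c Co.mul_c (fun _ => mem_sE3) le ne

/-! ### The diagonal automorphisms -/

theorem sd_zero (δ : DD) (u : Co) :
    ((sd δ u).a = 0 ↔ u.a = 0) ∧ ((sd δ u).b = 0 ↔ u.b = 0) ∧ ((sd δ u).d = 0 ↔ u.d = 0) ∧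
    ((sd δ u).c = 0 ↔ u.c = 0) ∧ ((sd δ u).e = 0 ↔ u.e = 0) ∧ ((sd δ u).f = 0 ↔ u.f = 0) ∧
    ((sd δ u).g = 0 ↔ u.g = 0) ∧ ((sd δ u).h = 0 ↔ u.h = 0) := by
  simp [sd]

theorem pr_sd (δ : DD) :
    ∀ X ∈ [sZ, sZ2, sW, sW2, sZ3, sA5, sA, sZ4, sD, sR, sE1, sE2, sE3, sY], Pr (sd δ) X := by
  simp only [List.forall_mem_cons, List.not_mem_nil, false_imp_iff, implies_true, and_true, Pr, mem_sZ,
    mem_sZ2, mem_sW, mem_sW2, mem_sZ3, mem_sA5, mem_sA, mem_sZ4, mem_sD, mem_sR, mem_sE1, mem_sE2, mem_sE3,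
    mem_sY, sd_zero, imp_self, and_self]

theorem pr_sd_z0 (δ : DD) (i : ℕ) : Pr (sd δ) (z0 i) := by
  have h := pr_sd δ
  rcases i with _ | _ | _ | _ | _ | _ | _ | _ | _ | i
  · exact pr_bot (au_sd δ)
  · exact h sZ (by simp)
  · exact h sZ2 (by simp)
  · exact h sW (by simp)
  · exact h sZ3 (by simp)
  · exact h sA5 (by simp)
  · exact h sZ4 (by simp)
  · exact h sD (by simp)
  · exact h sE1 (by simp)
  · exact fun _ _ => trivial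

/-- the leading coordinates of a map congruent to a diagonal automorphism -/
theorem Cg_sd {θ : Co → Co} {δ : DD} (h : Cg z0 9 θ (sd δ)) :
    (∀ u, (θ u).a = δ.1 * u.a) ∧ (∀ u ∈ sE1, (θ u).b = δ.2.1 * u.b) ∧ (∀ u ∈ sD, (θ u).c = δ.2.2 * u.c) ∧
    (∀ u ∈ sZ4, (θ u).d = δ.1 * δ.2.1 * u.d) ∧ (∀ u ∈ sA5, (θ u).e = δ.2.1 * δ.2.2 * u.e) ∧
    (∀ u ∈ sZ3, (θ u).f = δ.1 * δ.2.1 * δ.2.2 * u.f) ∧ ∀ u ∈ sZ, (θ u).z = δ.2.2 * u.z := by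
  refine ⟨fun u => ?_, fun u hu => ?_, fun u hu => ?_, fun u hu => ?_, fun u hu => ?_, fun u hu => ?_,
    fun u hu => ?_⟩
  · have : _ = (0 : F3) := h 8 (by omega) u trivial
    simp [sd] at this
    linear_combination this
  · have := (h 7 (by omega) u hu).2
    simp [sd] at this
    linear_combination this
  · have := (h 6 (by omega) u hu).2.2
    simp [sd] at this
    linear_combination this
  · have := (h 5 (by omega) u hu).2.2.1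
    simp [sd, hu.1, hu.2.1] at this
    linear_combination this
  · have := (h 4 (by omega) u hu).2.2.2.2
    simp [sd, hu.1, hu.2.1, hu.2.2.1, hu.2.2.2] at this
    linear_combination this
  · have := (h 3 (by omega) u hu).2.2.2.2.2
    simp [sd, hu.1, hu.2.1, hu.2.2.1, hu.2.2.2.1, hu.2.2.2.2] at this
    linear_combination this
  · have := congrArg Co.z (mem_bot.1 (h 0 (by omega) u hu))
    obtain ⟨h1, h2, h3, h4, h5, h6, h7, h8⟩ := hu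
    simp [sd, h1, h2, h3, h4, h5, h6, h7, h8] at this
    linear_combination this

theorem DD_ext {δ δ' : DD} (h1 : (δ.1 : F3) = δ'.1) (h2 : (δ.2.1 : F3) = δ'.2.1) (h3 : (δ.2.2 : F3) = δ'.2.2) :
    δ = δ' := Prod.ext (Units.ext h1) (Prod.ext (Units.ext h2) (Units.ext h3))

theorem rho_sd (k : F3) (δ : DD) (u : Co) : rho k (sd δ u) = sd δ (rho k u) := by
  ext <;> simp [rho, sd]; ring

/-! ### Induced maps -/

section In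
variable {X X' : Subgroup Co} {Y : Subgroup (Equiv.Perm Co)} {f g : Co → Co}

theorem au_cj (X : Subgroup Co) [X.Normal] (s : Co) : Au X (cj s) :=
  au_conj (by rw [normalizer_eq_top]; trivial)

theorem In.of_mem {y : Equiv.Perm Co} (h : y ∈ Y) : In X Y y := ⟨y, h, fun _ _ => rfl⟩

theorem In.congr (h : In X Y f) (e : ∀ u ∈ X, f u = g u) : In X Y g :=
  h.imp fun _ k => ⟨k.1, fun u hu => (k.2 u hu).trans (e u hu)⟩

theorem In.mono (h : In X Y f) (le : X' ≤ X) : In X' Y f := h.imp fun _ k => ⟨k.1, fun u hu => k.2 u (le hu)⟩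

theorem In.comp (h : In X Y f) (k : In X Y g) (p : Pr g X) : In X Y fun u => f (g u) := by
  obtain ⟨y, hy, e⟩ := h
  obtain ⟨y', hy', e'⟩ := k
  exact ⟨y * y', mul_mem hy hy', fun u hu => by rw [Equiv.Perm.mul_apply, e' u hu, e _ (p u hu)]⟩

theorem In.au (l : Lg X Y) (h : In X Y f) : Au X f := h.elim fun y k => (l.au y k.1).congr k.2

theorem In.inv (h : In X Y f) (p : Pr g X) (e : ∀ u ∈ X, f (g u) = u) : In X Y g := by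
  obtain ⟨y, hy, e'⟩ := h
  exact ⟨y⁻¹, inv_mem hy, fun u hu => by rw [Equiv.Perm.inv_eq_iff_eq, e' _ (p u hu), e u hu]⟩

/-- an element of another automizer that is induced by `Y` lies in `Y` -/
theorem In.mem {Y' : Subgroup (Equiv.Perm Co)} (l : Lg X Y) (l' : Lg X Y') {α : Equiv.Perm Co} (hα : α ∈ Y')
    (h : In X Y α) : α ∈ Y := h.elim fun _ k => lg_mem l' l hα k.1 fun u hu => (k.2 u hu).symm

end In

/-- two involutions whose product has odd order are conjugate by a power of the product -/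
theorem inv_conj {G : Type*} [Group G] {t t' : G} (h : t * t = 1) (h' : t' * t' = 1) {n : ℕ} (hn : Odd n)
    (e : (t * t') ^ n = 1) : ∃ k : ℕ, (t * t') ^ k * t' * ((t * t') ^ k)⁻¹ = t := by
  obtain ⟨m, rfl⟩ := hn
  have i : t⁻¹ = t := inv_eq_of_mul_eq_one_right h
  have i' : t'⁻¹ = t' := inv_eq_of_mul_eq_one_right h'
  have c : t' * (t * t')⁻¹ = t * t' * t' := by rw [mul_inv_rev, i, i', ← mul_assoc, h', mul_assoc, h']; simp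
  have k : ∀ j : ℕ, t' * ((t * t') ^ j)⁻¹ = (t * t') ^ j * t' := fun j => by
    induction j with
    | zero => simp
    | succ j ih => rw [pow_succ, mul_inv_rev, ← mul_assoc, c, mul_assoc (t * t'), ih, ← mul_assoc, ← pow_succ',
        pow_succ]
  refine ⟨m + 1, ?_⟩
  rw [mul_assoc, k, ← mul_assoc, ← pow_add, show m + 1 + (m + 1) = 2 * m + 1 + 1 by ring, pow_succ, e, one_mul,
    mul_assoc, h', mul_one]

end H20.C3
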