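/- C3 tower (row S5227): general lemmas on automizers. -/
import Cfsg.Agent.H20.C3Kit
import Cfsg.Agent.H9.Meta2
import Cfsg.Agent.H9.ClassTwo

set_option autoImplicit false
set_option linter.unusedSectionVars false
set_option linter.unusedSimpArgs false
set_option linter.unusedVariables false

open Subgroup H92 Cfsg Cfsg.FusionSystem H90.RF H90.U5

namespace H20.C3

section Gen
variable {P : Type*} [Group P] [Finite P] {p : ℕ} [Fact p.Prime] {F : FusionSystem (⊤ : Subgroup P)}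
  {X M : Subgroup P} {α : Equiv.Perm P}

/-- An element of the automizer of a fully normalized subgroup `X` that is trivial on the factors of
`X ≥ M ≥ [X, X]` is induced by an element of the normalizer. -/
theorem inn_fr (hP : IsPGroup p P) (hF : F.IsSaturated p) (fn : F.IsFullyNormalized X) (hM : M ≤ X)
    (nM : ∀ s, (∀ c ∈ X, s * c * s⁻¹ ∈ X) → ∀ c ∈ M, s * c * s⁻¹ ∈ M) (hα : α ∈ aY F X)
    (h1 : ∀ c ∈ X, c⁻¹ * α c ∈ M) (h2 : ∀ c ∈ M, c⁻¹ * α c ∈ ⁅X, X⁆) (h3 : ⁅X, X⁆ ≤ M) :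
    ∃ s, (∀ c ∈ X, s * c * s⁻¹ ∈ X) ∧ ∀ c ∈ X, α c = s * c * s⁻¹ := by
  obtain ⟨α, hα, rfl⟩ := hα
  let A : Subgroup (MulAut X) :=
    { carrier := {β | β ∈ F.autGroup X ∧ Pr (af β) M}
      one_mem' := ⟨one_mem _, fun c hc => by simpa using hc⟩
      mul_mem' := fun {a b} ha hb => ⟨mul_mem ha.1 hb.1, fun c hc => by
        rw [af_mul_apply]; exact ha.2 _ (hb.2 c hc)⟩
      inv_mem' := fun {a} ha => ⟨inv_mem ha.1, fun c hc => (au_af a).mem_of hM ha.2
        (af_mem _ (hM hc)) (by rwa [af_af_inv])⟩ }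
  let z : ℕ → Subgroup P := fun i => match i with | 0 => ⁅X, X⁆ | 1 => M | _ => X
  have sy := sylIn_of_fn (hP.to_subgroup ⊤) hF fn
  have hX : IsPGroup p X := hP.to_subgroup X
  obtain ⟨s, -, e⟩ := mem_autInducedBy.1 ((sy.mono (C := A) (fun a ha => ⟨sy.le ha, fun c hc => by
    obtain ⟨s, -, e⟩ := mem_autInducedBy.1 ha
    rw [e c (hM hc)]
    exact nM s (fun c hc => e c hc ▸ af_mem a hc) c hc⟩) fun _ h => h.1).pCoreOf_le
    (mem_pCoreOf_of_chain' A z 2 (fun a ha i hi x hx hx' => by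
      interval_cases i
      exacts [Pr.commutator (au_af a) le_rfl le_rfl (au_af a).mem (au_af a).mem x hx', ha.2 x hx', af_mem a hx])
      (fun a _ co h => H9.aut_eq_one_of_chain_frattini hX co (M := M.subgroupOf X)
        (fun y => by
          have := h 1 (by omega) y y.2 y.2
          change _ ∈ M at this
          simpa [mem_subgroupOf, af_coe] using this) fun y hy =>
          H9.commutator_le_frattini hX (by
            have := h 0 (by omega) y y.2 hy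
            change _ ∈ ⁅X, X⁆ at this
            rw [← map_subtype_commutator] at this
            obtain ⟨w, hw, e⟩ := this
            rwa [show y⁻¹ * a y = w from Subtype.ext (by simpa [af_coe] using e.symm)]))
      (β := α) ⟨hα, fun c hc => by simpa using mul_mem hc (h3 (h2 c hc))⟩ fun i hi x hx hx' => by
        interval_cases i
        exacts [h2 x hx', h1 x hx]))
  exact ⟨s, fun c hc => e c hc ▸ af_mem α hc, e⟩

/-- conjugation by an element of the normalizer -/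
theorem conj_aY' (F : FusionSystem (⊤ : Subgroup P)) {s : P} (h : ∀ c ∈ X, s * c * s⁻¹ ∈ X) :
    ∃ y ∈ aY F X, ∀ c ∈ X, y c = s * c * s⁻¹ :=
  exists_aY (mor_conj F le_top (mem_top s)) h

/-- restriction to an invariant subgroup -/
theorem res_aY' {Y : Subgroup P} (le : Y ≤ X) (hα : α ∈ aY F X) (h : Pr α Y) :
    ∃ β ∈ aY F Y, ∀ c ∈ Y, β c = α c :=
  exists_aY ((mor_aY hα).mono le) h

end Gen

variable {F : FusionSystem (⊤ : Subgroup Co)} {X : Subgroup Co} {α : Equiv.Perm Co}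

/-- an automorphism of `A` that normalizes the action of `X` extends to `X` -/
theorem ext_A (hF : F.IsSaturated 3) (le : sA ≤ X) (hα : α ∈ aY F sA) (h : Nm α X) : In sA (aY F X) α := by
  obtain ⟨α, hα, rfl⟩ := hα
  have hP := pgroup_Co.to_subgroup ⊤
  obtain ⟨g, hg, e⟩ := exists_ext_aut hP hF (fc_of_fn hP hF (fn_X F)) hα
  have m : Mor F X g := hg.mono fun s hs => mem_Nx.2 ⟨⟨trivial, by
    rw [normalizer_eq_top]; trivial⟩, (h s hs).imp fun t ht => ⟨trivial, ht.2⟩⟩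
  obtain ⟨y, hy, k⟩ := exists_aY m fun s hs => by
    obtain ⟨t, ht, e'⟩ := h s hs
    obtain ⟨h1, h2, h3⟩ := eq_of_cj_A (s := g s) (t := t) fun u hu => by
      obtain ⟨w, hw, rfl⟩ := (au_af α).sur u hu
      rw [← e' w hw, ← e _ (nA.conj_mem w hw s), ← e w hw,
        m.mulOn.map_mul (mul_mem hs (le hw)) (inv_mem hs), m.mulOn.map_mul hs (le hw), m.mulOn.map_inv hs]
    exact (X.mul_mem_cancel_left (inv_mem ht)).1 (le ⟨by simp [h1], by simp [h2], by simp [h1, h2, h3]⟩)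
  exact ⟨y, hy, fun c hc => by rw [k c (le hc), e c hc]⟩

theorem A5_le_comm : sA5 ≤ ⁅sE1, sE1⁆ := fun u h => by
  have k : ∀ {s m : Co}, s.a = 0 → m.a = 0 → cm s m ∈ ⁅sE1, sE1⁆ := fun hs hm => cm_mem_commutator hs hm
  have hg := (inv_mem_iff.1 (xg_inv 1 ▸ cm_be ▸ k rfl rfl) : xg 1 ∈ ⁅sE1, sE1⁆)
  have hz := (inv_mem_iff.1 (xz_inv 1 ▸ cm_df ▸ k rfl rfl) : xz 1 ∈ ⁅sE1, sE1⁆)
  exact mem_of_roots (.inl h.1) (.inl h.2.1) (.inl (by simp [h.1, h.2.2.1])) (.inl h.2.2.2)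
    (.inr ((mul_mem_cancel_right hg).1 (cm_bc ▸ k rfl rfl)))
    (.inr ((mul_mem_cancel_right hz).1 (cm_dc ▸ k rfl rfl))) (.inr hg) (.inr (cm_de ▸ k rfl rfl)) (.inr hz)

theorem W2_le_comm : sW2 ≤ ⁅sE2, sE2⁆ := fun u h => by
  have k : ∀ {s m : Co}, s.b = 0 → m.b = 0 → cm s m ∈ ⁅sE2, sE2⁆ := fun hs hm => cm_mem_commutator hs hm
  exact mem_of_roots (.inl h.1) (.inl h.2.1) (.inl (by simp [h.1, h.2.2.1])) (.inl h.2.2.2.1)
    (.inl h.2.2.2.2.1) (.inr (cm_ae ▸ k rfl rfl)) (.inl h.2.2.2.2.2) (.inr (cm_de ▸ k rfl rfl))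
    (.inr (inv_mem_iff.1 (xz_inv 1 ▸ cm_df ▸ k rfl rfl)))

theorem Y_le_comm : sY ≤ ⁅sE3, sE3⁆ := fun u h => by
  have k : ∀ {s m : Co}, s.c = 0 → m.c = 0 → cm s m ∈ ⁅sE3, sE3⁆ := fun hs hm => cm_mem_commutator hs hm
  exact mem_of_roots (.inl h.1) (.inl h.2.1) (.inr (cm_ab ▸ k rfl rfl)) (.inl h.2.2.1)
    (.inl h.2.2.2) (.inr (cm_ae ▸ k rfl rfl)) (.inr (inv_mem_iff.1 (xg_inv 1 ▸ cm_be ▸ k rfl rfl)))
    (.inr (cm_de ▸ k rfl rfl)) (.inr (inv_mem_iff.1 (xz_inv 1 ▸ cm_df ▸ k rfl rfl)))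

theorem comm_E1 : ⁅sE1, sE1⁆ = sA5 := le_antisymm (commutator_le_of_cm fun _ hs _ hm => cm_E1_E1 hs hm) A5_le_comm
theorem comm_E2 : ⁅sE2, sE2⁆ = sW2 := le_antisymm (commutator_le_of_cm fun _ hs _ hm => cm_E2_E2 hs hm) W2_le_comm
theorem comm_E3 : ⁅sE3, sE3⁆ = sY := le_antisymm (commutator_le_of_cm fun _ hs _ hm => cm_E3_E3 hs hm) Y_le_comm

/-- an automorphism of an overgroup `X` of `A` that preserves `A` normalizes the action of `X` -/
theorem nm_of_au {β : Co → Co} (a : Au X β) (le : sA ≤ X) {Y : Subgroup Co} (hY : Y ≤ X) (p : Pr β Y) :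
    Nm β Y := fun s hs => ⟨β s, p s hs, fun u hu => a.conj (hY hs) (le hu)⟩

theorem Nm.congr {β γ : Co → Co} (h : Nm β X) (e : ∀ u ∈ sA, β u = γ u) : Nm γ X := fun s hs =>
  (h s hs).imp fun t ht => ⟨ht.1, fun u hu => by rw [← e _ (nA.conj_mem u hu s), ← e u hu, ht.2 u hu]⟩

end H20.C3
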