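/- C3 tower (row S5227): the assembly, first part. -/
import Cfsg.Agent.H20.C3Gen

set_option autoImplicit false
set_option linter.unusedSectionVars false
set_option linter.unusedSimpArgs false
set_option linter.unusedVariables false
set_option linter.unnecessarySeqFocus false

open Subgroup H92 Cfsg H90.RF Matrix
open H90.U5 (Bq lg_aY lg_mem jobD jobQ pr_bot)

namespace H20.C3

theorem uM_mul (a b d a' b' d' : F3) : uM a b d * uM a' b' d' = uM (a + a') (b + b') (d + d' + a * b') := by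
  ext i j
  fin_cases i <;> fin_cases j <;> simp [uM, Matrix.mul_apply, Fin.sum_univ_succ] <;> ring

theorem uM_zero : uM 0 0 0 = 1 := by
  ext i j
  fin_cases i <;> fin_cases j <;> simp [uM]

theorem l6 (hL5 : JobL5) (hM : Mv1) (hD : JobDu) (hH : JobHp) (hC : JobCt) : L6 := by
  have hz : All6 fun _ _ ρ _ H => Hz ρ H := fun X _ _ ρ j H h g hg => by
    obtain ⟨ρ', h', k⟩ := hD X ρ j H h
    exact hH hL5 X ρ' _ H h' g (k g hg)
  intro X _ _ ρ j H h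
  obtain ⟨ρ', h', -⟩ := hD X ρ j H h
  obtain ⟨g, b, d, hb, e⟩ := hM X ρ' _ H h' (hz X ρ' _ H h')
  have iv : ∀ a d, (j a 0 d)⁻¹ = j (-a) 0 (-d) := fun a d => inv_eq_of_mul_eq_one_right (h.inj (by
    rw [map_mul, h.rj, h.rj, uM_mul, map_one]; simp [uM_zero]))
  refine hC X ρ j H h (hz X ρ j H h) (hM X ρ j H h (hz X ρ j H h)) ⟨g, -b, d, neg_ne_zero.2 hb, ?_⟩
  have := congrArg (·⁻¹) e
  simp only [mul_zero, zero_mul, zero_sub, conj_inv, iv, neg_neg, neg_zero] at this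
  exact this

variable {Y0 Y1 Y2 Y3 YA Y0' Y1' Y2' Y3' YA' : Subgroup (Equiv.Perm Co)} {k : F3}

theorem Tri.ce (t : Tri Y0 Y1 Y2 Y3 YA) : Ce YA :=
  ⟨t.lA, fun s => (t.inn s).elim fun y hy => (t.resA y hy.1).congr fun u _ => hy.2 u trivial, t.pelA⟩

/-- `Y₀` contains the diagonal automorphism -/
abbrev HT (Y0 : Subgroup (Equiv.Perm Co)) (δ : DD) : Prop := In ⊤ Y0 (sd δ)

theorem HT.mul {δ δ' : DD} (h : HT Y0 δ) (h' : HT Y0 δ') : HT Y0 (δ * δ') :=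
  (In.comp h h' fun _ _ => trivial).congr fun u _ => sd_sd δ δ' u

theorem HT.one : HT Y0 1 := ⟨1, one_mem _, fun u _ => (sd_one u).symm⟩

theorem HT.of_T0 (h1 : HT Y0 t1) (h2 : HT Y0 t2) {δ : DD} (h : δ.2.2 = 1) : HT Y0 δ := by
  rcases (show δ = 1 ∨ δ = t1 ∨ δ = t2 ∨ δ = t1 * t2 by revert δ; decide) with rfl | rfl | rfl | rfl
  exacts [HT.one, h1, h2, h1.mul h2]

theorem cg_mul {y y' : Equiv.Perm Co} {δ δ' : DD} (e : ∀ u, y u = sd δ u) (h : Cg z0 9 y' (sd δ')) :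
    Cg z0 9 (y * y' : Equiv.Perm Co) (sd (δ * δ')) :=
  (h.comp_left (au_sd δ) (pr_sd_z0 δ) (fun _ _ => le_top) (fun _ _ => trivial) fun _ _ => trivial).congr
    (X := ⊤) (fun _ _ => le_top) (fun c _ => (e _).symm) fun c _ => sd_sd δ δ' c

/-- an element congruent to a diagonal automorphism in `Y₀` differs from it by an inner automorphism -/
theorem Tri.std (t : Tri Y0 Y1 Y2 Y3 YA) {y : Equiv.Perm Co} (hy : y ∈ Y0) {δ : DD} (h : Cg z0 9 y (sd δ))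
    (hδ : HT Y0 δ) : ∃ s, ∀ u, y u = sd δ (cj s u) := by
  obtain ⟨y0, h0, e⟩ := hδ
  obtain ⟨s, hs⟩ := t.rad0 _ (mul_mem h0 hy) ((cg_mul (fun u => e u trivial) h).congr (X := ⊤)
    (fun _ _ => le_top) (fun _ _ => rfl) fun c _ => by rw [DD_sq, sd_one]; rfl)
  exact ⟨s, fun u => by rw [cj, ← hs, Equiv.Perm.mul_apply, e _ trivial, sd_sd_self]⟩

theorem Tri.ht3 (aS : AS) (st : JobSt) (t : Tri Y0 Y1 Y2 Y3 YA) (h1 : HT Y0 t1) (h2 : HT Y0 t2)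
    {y : Equiv.Perm Co} (hy : y ∈ Y0) {δ : DD} (h : Cg z0 9 y (sd δ)) (hδ : δ.2.2 ≠ 1) : HT Y0 t3 := by
  obtain ⟨y0, h0, e⟩ := HT.of_T0 h1 h2 (δ := δ * t3) (by clear h; revert δ; decide)
  have := cg_mul (fun u => e u trivial) h
  rw [show δ * t3 * δ = t3 by clear this e h hδ; revert δ; decide] at this
  exact st aS _ _ _ _ _ t h1 h2 _ (mul_mem h0 hy) this

theorem det0 (aS : AS) (st : JobSt) (t : Tri Y0 Y1 Y2 Y3 YA) (t' : Tri Y0' Y1' Y2' Y3' YA') (h1 : HT Y0 t1)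
    (h2 : HT Y0 t2) (h1' : HT Y0' t1) (h2' : HT Y0' t2) (h3 : HT Y0 t3 → HT Y0' t3) : Y0 ≤ Y0' := by
  intro y hy
  obtain ⟨-, -, -, -, δ, hδ⟩ := aS y (t.l0.au y hy)
  have k : HT Y0 δ ∧ HT Y0' δ := by
    by_cases h : δ.2.2 = 1
    · exact ⟨HT.of_T0 h1 h2 h, HT.of_T0 h1' h2' h⟩
    have e : δ = δ * t3 * t3 := by rw [mul_assoc, DD_sq, mul_one]
    have q : (δ * t3).2.2 = 1 := by clear e hδ; revert δ; decide
    have := t.ht3 aS st h1 h2 hy hδ h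
    exact ⟨e ▸ (HT.of_T0 h1 h2 q).mul this, e ▸ (HT.of_T0 h1' h2' q).mul (h3 this)⟩
  obtain ⟨s, hs⟩ := t.std hy hδ k.1
  exact In.mem t'.l0 t.l0 hy ((In.comp k.2 (t'.inn s) fun _ _ => trivial).congr fun u _ => (hs u).symm)

/-- the Bruhat decomposition -/
theorem det_gen {X U : Subgroup Co} [X.Normal] [U.Normal] {Y Y' : Subgroup (Equiv.Perm Co)} {ν : Co → Co}
    (l : Lg X Y) (l' : Lg X Y') (UX : U ≤ X) (inn : ∀ s, In X Y (cj s)) (ext : ∀ α ∈ Y, Pr α U → α ∈ Y')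
    (n : In X Y ν) (n' : In X Y' ν) {α : Equiv.Perm Co} (hα : α ∈ Y)
    (h : Pr α U ∨ ∃ s, ∀ u ∈ U, ν (cj s (α u)) ∈ U) : α ∈ Y' := by
  rcases h with h | ⟨s, h⟩
  · exact ext α hα h
  obtain ⟨m, hm, e⟩ := n
  obtain ⟨γ, hγ, f⟩ := inn s
  have h1 := ext γ hγ fun c hc => by rw [f c (UX hc)]; exact ‹U.Normal›.conj_mem c hc s
  have h2 := In.mem l' l hm (n'.congr fun u hu => (e u hu).symm)
  have h3 := ext _ (mul_mem hm (mul_mem hγ hα)) fun c hc => by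
    have q := (l.au α hα).mem c (UX hc)
    rw [Equiv.Perm.mul_apply, Equiv.Perm.mul_apply, f _ q, e (cj s (α c)) (‹X.Normal›.conj_mem _ q s)]
    exact h c hc
  exact (Y'.mul_mem_cancel_left h1).1 ((Y'.mul_mem_cancel_left h2).1 h3)

theorem In.trans {X : Subgroup Co} {Y Y' : Subgroup (Equiv.Perm Co)} {f : Co → Co} (h : In X Y f)
    (k : ∀ y ∈ Y, In X Y' y) : In X Y' f := h.elim fun y hy => (k y hy.1).congr hy.2

theorem det1 (a : A1) (t : Tri Y0 Y1 Y2 Y3 YA) (t' : Tri Y0' Y1' Y2' Y3' YA') (le : Y0 ≤ Y0')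
    (n : In sE1 Y1 (Co.nu1 k)) (n' : In sE1 Y1' (Co.nu1 k)) : Y1 ≤ Y1' := fun α hα => by
  refine det_gen t.l1 t'.l1 D_le_E1 (fun s => ((t.inn s).mono le_top).trans t.res1) (fun β hβ p =>
    In.mem t'.l1 t.l1 hβ ((t.ext1 β hβ p).trans fun y hy => t'.res1 y (le hy))) n n' hα ?_
  obtain ⟨-, -, -, -, m, n, r, s, μ, h, -⟩ := a α (t.l1.au α hα)
  by_cases hn : n = 0
  · exact .inl fun u hu => ⟨(t.l1.au α hα).mem u hu.1, by simp [(h u hu.1).1, hn, hu.2]⟩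
  refine .inr ⟨xa (-s * n), fun u hu => ⟨rfl, ?_⟩⟩
  have := mem_sE1.1 ((t.l1.au α hα).mem u hu.1)
  simp only [Co.nu1, cj, cj_d, h u hu.1, hu.2, xa, this]
  linear_combination s * u.d * sq_one hn

theorem det2 (a : A2) (t : Tri Y0 Y1 Y2 Y3 YA) (t' : Tri Y0' Y1' Y2' Y3' YA') (le : Y0 ≤ Y0')
    (n : In sE2 Y2 Co.nu2) (n' : In sE2 Y2' Co.nu2) : Y2 ≤ Y2' := fun α hα => by
  refine det_gen t.l2 t'.l2 D_le_E2 (fun s => ((t.inn s).mono le_top).trans t.res2) (fun β hβ p =>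
    In.mem t'.l2 t.l2 hβ ((t.ext2 β hβ p).trans fun y hy => t'.res2 y (le hy))) n n' hα ?_
  obtain ⟨-, -, -, -, ⟨m, n, r, s, h⟩, -⟩ := a α (t.l2.au α hα)
  by_cases hn : n = 0
  · exact .inl fun u hu => ⟨by simp [(h u hu.2).1, hn, hu.1], (t.l2.au α hα).mem u hu.2⟩
  refine .inr ⟨xb (s * n), fun u hu => ⟨?_, rfl⟩⟩
  have := mem_sE2.1 ((t.l2.au α hα).mem u hu.2)
  simp only [Co.nu2, cj, cj_d, h u hu.2, hu.1, xb, this]
  linear_combination -s * u.d * sq_one hn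

theorem det3 (a : A3) (t : Tri Y0 Y1 Y2 Y3 YA) (t' : Tri Y0' Y1' Y2' Y3' YA') (le : Y0 ≤ Y0')
    (n : In sE3 Y3 Co.nu3) (n' : In sE3 Y3' Co.nu3) : Y3 ≤ Y3' := fun α hα => by
  refine det_gen t.l3 t'.l3 Z4_le_E3 (fun s => ((t.inn s).mono le_top).trans t.res3) (fun β hβ p =>
    In.mem t'.l3 t.l3 hβ ((t.ext3 β hβ p).trans fun y hy => t'.res3 y (le hy))) n n' hα ?_
  obtain ⟨pR, -, -, -, -, -, m, n, r, s, μ, h, -⟩ := a α (t.l3.au α hα)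
  by_cases hn : n = 0
  · exact .inl fun u hu => ⟨(pR u (Z4_le_R hu)).1, by simp [(h u (Z4_le_R hu)).1, hn, hu.2.1],
      (pR u (Z4_le_R hu)).2⟩
  refine .inr ⟨xc (s * n), fun u hu => ⟨?_, ?_, rfl⟩⟩
  · simpa [Co.nu3, cj] using (pR u (Z4_le_R hu)).1
  · simp only [Co.nu3, cj, cj_e, h u (Z4_le_R hu), hu.2.1, xc]
    linear_combination -s * u.e * sq_one hn

theorem wt3 (aS : AS) (a : A3) (t : Tri Y0 Y1 Y2 Y3 YA) (g : G3 Y3) : ∃ y ∈ Y0, Cg z0 9 y (sd t1) := by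
  obtain ⟨n, hn, h, ha⟩ := g
  have an := t.l3.au n hn
  have pR := (a n an).1
  have k : ∀ u ∈ sR, ((n * n) u).b = -u.b ∧ ((n * n) u).e = -u.e := fun u hu => by
    rw [Equiv.Perm.mul_apply, (h _ (pR u hu)).1, (h _ (pR u hu)).2, (h u hu).1, (h u hu).2]
    exact ⟨rfl, rfl⟩
  obtain ⟨y, hy, e⟩ := t.ext3 _ (mul_mem hn hn) fun u hu =>
    have := pR _ (pR u (Z4_le_R hu))
    ⟨this.1, by rw [(k u (Z4_le_R hu)).1, hu.2.1, neg_zero], this.2⟩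
  obtain ⟨-, -, -, -, δ, hδ⟩ := aS y (t.l0.au y hy)
  obtain ⟨c1, c2, -, -, c5, -⟩ := Cg_sd hδ
  have e1 := c1 (xa 1)
  have e2 := c2 (xb 1) rfl
  have e5 := c5 (xe 1) ⟨rfl, rfl, rfl, rfl⟩
  rw [e _ rfl, Equiv.Perm.mul_apply, ha _ (an.mem _ rfl), ha _ rfl] at e1
  rw [e _ rfl, (k _ ⟨rfl, rfl⟩).1] at e2
  rw [e _ rfl, (k _ ⟨rfl, rfl⟩).2] at e5
  simp only [xa, xb, xe, mul_one] at e1 e2 e5
  exact ⟨y, hy, (show δ = t1 by clear hδ c1 c2 c5; revert δ; decide) ▸ hδ⟩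

theorem wt2 (aS : AS) (t : Tri Y0 Y1 Y2 Y3 YA) (g : G2 Y2) : ∃ y ∈ Y0, Cg z0 9 y (sd t2) := by
  obtain ⟨n, hn, h, hz⟩ := g
  have an := t.l2.au n hn
  have k : ∀ u ∈ sE2, ((n * n) u).a = -u.a ∧ ((n * n) u).d = -u.d := fun u hu => by
    rw [Equiv.Perm.mul_apply, (h _ (an.mem u hu)).1, (h _ (an.mem u hu)).2, (h u hu).1, (h u hu).2]
    exact ⟨rfl, rfl⟩
  obtain ⟨y, hy, e⟩ := t.ext2 _ (mul_mem hn hn) fun u hu =>
    ⟨by rw [(k u hu.2).1, hu.1, neg_zero], an.mem _ (an.mem u hu.2)⟩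
  obtain ⟨-, -, -, -, δ, hδ⟩ := aS y (t.l0.au y hy)
  obtain ⟨c1, -, -, c4, -, -, c7⟩ := Cg_sd hδ
  have e1 := c1 (xa 1)
  have e4 := c4 (xd 1) ⟨rfl, rfl, rfl⟩
  have e7 := c7 (xz 1) ⟨rfl, rfl, rfl, rfl, rfl, rfl, rfl, rfl⟩
  rw [e _ rfl, (k _ rfl).1] at e1
  rw [e _ rfl, (k _ rfl).2] at e4
  rw [e _ rfl, Equiv.Perm.mul_apply, hz, hz] at e7
  simp only [xa, xd, xz, mul_one] at e1 e4 e7
  exact ⟨y, hy, (show δ = t2 by clear hδ c1 c4 c7; revert δ; decide) ▸ hδ⟩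

/-- minus one on `A` gives `t₃` -/
theorem wtA (aS : AS) (st : JobSt) (t : Tri Y0 Y1 Y2 Y3 YA) (h1 : HT Y0 t1) (h2 : HT Y0 t2)
    (h : In sA YA fun u => u⁻¹) : HT Y0 t3 := by
  obtain ⟨α, hα, e⟩ := h
  obtain ⟨y, hy, e'⟩ := t.eAD α hα fun s hs => ⟨s, hs, fun u hu => by
    rw [e _ (nA.conj_mem u hu s), e u hu]; group⟩
  obtain ⟨-, -, -, -, δ, hδ⟩ := aS y (t.l0.au y hy)
  refine t.ht3 aS st h1 h2 hy hδ fun q => ?_
  have := (Cg_sd hδ).2.2.1 (xc 1) ⟨rfl, rfl⟩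
  rw [e' (xc 1) (vv_mem ..), e (xc 1) (vv_mem ..), q] at this
  revert this; decide

/-- an automorphism that normalizes the action of `X` on `A` preserves `X` -/
theorem pr_of_nm {y : Co → Co} (a : Au ⊤ y) (p : Pr y sA) {X : Subgroup Co} (le : sA ≤ X) (h : Nm y X) :
    Pr y X := fun s hs => by
  obtain ⟨t, ht, e⟩ := h s hs
  obtain ⟨h1, h2, h3⟩ := eq_of_cj_A (s := y s) (t := t) fun u hu => by
    obtain ⟨w, hw, rfl⟩ := a.sur_of le_top p u hu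
    rw [← e w hw, a.conj trivial trivial]
  exact (X.mul_mem_cancel_left (inv_mem ht)).1 (le ⟨by simp [h1], by simp [h2], by simp [h1, h2, h3]⟩)

theorem Nm.comp {α β : Co → Co} {X : Subgroup Co} (h : Nm α X) (k : Nm β X) (p : Pr β sA) :
    Nm (fun u => α (β u)) X := fun s hs => by
  obtain ⟨t, ht, e⟩ := k s hs
  obtain ⟨r, hr, e'⟩ := h t ht
  exact ⟨r, hr, fun u hu => by beta_reduce; rw [e u hu, e' _ (p u hu)]⟩

theorem nm_cj {X : Subgroup Co} {g : Co} (h : ∀ s ∈ X, g * s * g⁻¹ ∈ X) : Nm (cj g) X := fun s hs =>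
  ⟨_, h s hs, fun u _ => by simp only [cj]; group⟩

theorem nm_of_cx {n : Co → Co} (p : Pr n sA) (h : ∀ u ∈ sA, n (xx * u * xx⁻¹) = xx * n u * xx⁻¹) :
    Nm n (sE4 1 0) := fun s hs => ⟨s, hs, fun u hu => by
  obtain ⟨h1, h2⟩ := hs
  rcases tri s.a with q | q | q
  · rw [cj_A_congr (t := 1) q (by simp [h1, q]) (by simp [h2, q]) hu,
      cj_A_congr (t := 1) q (by simp [h1, q]) (by simp [h2, q]) (p u hu)]
    simp
  · rw [cj_A_congr (t := xx) q (by simp [h1, q, xx, uu]) (by simp [h2, q, xx, uu]) hu,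
      cj_A_congr (t := xx) q (by simp [h1, q, xx, uu]) (by simp [h2, q, xx, uu]) (p u hu), h u hu]
  · have k : ∀ w ∈ sA, s * w * s⁻¹ = xx * (xx * w * xx⁻¹) * xx⁻¹ := fun w hw =>
      (cj_A_congr (t := xx * xx) (by rw [q]; decide) (by rw [h1, q]; decide) (by rw [h2, q]; decide) hw).trans
        (by group)
    rw [k u hu, k _ (p u hu), h _ (nA.conj_mem u hu xx), h u hu]⟩

theorem xd_E4 (i : F3) : ∀ s ∈ sE4 1 0, xd i * s * (xd i)⁻¹ ∈ sE4 1 0 := fun s hs =>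
  ⟨by simpa using hs.1, by rw [cj_d, cj_a, hs.2]; simp [xd]⟩

/-- the restrictions to `A` of the automorphisms of `E₄` -/
theorem det4A (a : A4) (t : Tri Y0 Y1 Y2 Y3 YA) (t' : Tri Y0' Y1' Y2' Y3' YA') (le : Y0 ≤ Y0') (b : B4 YA)
    {n : Equiv.Perm Co} (hn : n ∈ YA) (q : Q4 n) (n' : In sA YA' n) {α : Equiv.Perm Co} (hα : α ∈ YA)
    (h : Nm α (sE4 1 0)) : α ∈ YA' := by
  have k : ∀ β ∈ YA, Nm β (sE4 1 0) → Pr β sA5 → β ∈ YA' := fun β hβ h p =>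
    In.mem t'.lA t.lA hβ ((t.eAD β hβ (b β hβ h p)).trans fun y hy => t'.resA y (le hy))
  have aα := t.lA.au α hα
  obtain ⟨m, r, m', s, e⟩ := a α aα h
  have a5 : ∀ {u}, u ∈ sA → u.c = 0 → u ∈ sA5 := fun hu hc => ⟨hu.1, hu.2.1, hu.2.2, hc⟩
  by_cases hr : r = 0
  · exact k α hα h fun u hu => a5 (aα.mem u (A5_le_A hu)) (by simp [(e u (A5_le_A hu)).1, hr, hu.2.2.2])
  obtain ⟨γ, hγ, f⟩ := t.ce.inn (xd (-s * r))
  have aγ := t.lA.au γ hγ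
  have an := t.lA.au n hn
  have nγ : Nm γ (sE4 1 0) := (nm_cj (xd_E4 _)).congr fun u hu => (f u hu).symm
  have h1 := k γ hγ nγ fun c hc => by rw [f c (A5_le_A hc)]; exact nA5.conj_mem c hc _
  have h2 := In.mem t'.lA t.lA hn n'
  have h3 := k _ (mul_mem hn (mul_mem hγ hα))
    ((nm_of_cx an.mem q.cx).comp (nγ.comp h aα.mem) fun u hu => aγ.mem _ (aα.mem u hu)) fun c hc => by
      have hc' := A5_le_A hc
      have w := aα.mem c hc'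
      refine a5 (an.mem _ (aγ.mem _ w)) ?_
      rw [Equiv.Perm.mul_apply, Equiv.Perm.mul_apply, (q.bar _ (aγ.mem _ w)).1, f _ w, cj, cj_A _ w]
      obtain ⟨e1, e2⟩ := e c hc'
      rw [hc.2.2.2] at e1 e2
      simp only [lam, vv, xd] at e1 e2 ⊢
      linear_combination e2 - s * r * e1 - s * (c.g - c.e + c.f) * sq_one hr
  exact (YA'.mul_mem_cancel_left h1).1 ((YA'.mul_mem_cancel_left h2).1 h3)

end H20.C3
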