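/- C3 tower (row S5227): the assembly, second part. -/
import Cfsg.Agent.H20.C3AsmA

set_option autoImplicit false
set_option linter.unusedSectionVars false
set_option linter.unusedSimpArgs false
set_option linter.unusedVariables false
set_option linter.unnecessarySeqFocus false

open Subgroup H92 Cfsg H90.RF
open H90.U5 (Bq lg_aY lg_mem jobD jobQ pr_bot exists_cj aut_le' not_ess moves hall_gen coprime_of_pow)

universe u

namespace H20.C3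

/-- all the slots -/
structure Jobs : Prop where
  L0a : JobL0a
  L0b : JobL0b
  L0c : JobL0c
  L1a : JobL1a
  L1b : JobL1b
  L2 : JobL2
  L5 : JobL5
  PG : JobPG
  NW : JobNW
  L6a : JobL6a
  Du : JobDu
  Hp : JobHp
  Ct : JobCt
  NA : JobNA
  N0 : JobN0
  A12 : JobA12
  A3S : JobA3S
  Tri : JobTri
  G : JobG
  N1 : JobN1
  N2 : JobN2
  N3 : JobN3
  St : JobSt
  A4 : JobA4
  K4 : JobK4
  D4 : JobD4
  Q8 : JobQ8
  Cand : JobCand
  Cert : JobCert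
  M0 : JobM0
  M0d : JobM0d
  M1 : JobM1
  Syl : JobSyl

variable {F E : FusionSystem (⊤ : Subgroup Co)} {k : F3}

theorem hP : IsPGroup 3 (⊤ : Subgroup Co) := pgroup_Co.to_subgroup _

namespace Jobs
variable (J : Jobs)
include J

theorem ach : Ach := J.A12.1
theorem a1 : A1 := J.A12.2.1
theorem a2 : A2 := J.A12.2.2.1
theorem a3 : A3 := (J.A3S J.ach).1
theorem aS : AS := (J.A3S J.ach).2

theorem tri (h : F.IsSaturated 3) : C3.Tri (aY F ⊤) (aY F sE1) (aY F sE2) (aY F sE3) (aY F sA) :=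
  J.Tri J.ach J.aS J.a1 J.a2 J.a3 J.A12.2.2.2 F h

theorem ess (hF : F.IsSaturated 3) {X : Subgroup Co} (hX : F.IsEssential 3 X) :
    X = sE1 ∨ X = sE2 ∨ X = sE3 ∨ ∃ r s, r ≠ 0 ∧ X = sE4 r s := by
  have nA := J.NA (l6 J.L5 (J.L6a J.PG J.NW) J.Du J.Hp J.Ct) F hF
  obtain ⟨i, hi, M, h⟩ := jobD jobQ 3 Co pgroup_Co F hF X hX zA 4 rfl zA_mono
    (fun i hi c hc => by
      interval_cases i
      · exact ⟨cube_A (Z_le_A hc), fun s => cm_S_Z s hc⟩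
      · exact ⟨by rw [cube_A (Z2_le_A hc)]; exact one_mem _, fun s => cm_S_Z2 s hc⟩
      · exact ⟨by rw [cube_A (Z3_le_A hc)]; exact one_mem _, fun s => cm_S_Z3 s hc⟩
      · exact ⟨cube_mem_Z3 c, fun s => cm_S_Z4 s hc⟩)
    fun s h => by
      have h1 := cm_eq_one.2 (h (xe 1) ⟨rfl, rfl, rfl⟩)
      have h2 := cm_eq_one.2 (h (xd 1) ⟨rfl, rfl, rfl⟩)
      exact ⟨by simpa [cm_f, xe] using congrArg Co.f h1,
        by simpa [cm_g, xe, two] using congrArg Co.g h1, by simpa [cm_f, xd] using congrArg Co.f h2⟩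
  interval_cases i
  · by_cases hA : M ≤ sA
    · rcases J.L0a X M h hA with e | e | e
      exacts [.inl e, absurd (e ▸ hX) nA, .inr (.inr (.inr e))]
    · obtain ⟨l, e⟩ := J.L0c X M h (J.L0b X M h) hA
      exact absurd (e ▸ hX) (J.N0 J.L5 F hF l)
  · obtain ⟨h1, h2⟩ := J.L1a J.ach X M h
    rcases h1 (J.L1b X M h h2) with e | e
    exacts [.inr (.inl e), absurd (e ▸ hX) nA]
  · exact .inr (.inr (.inl (J.L2.1 X M h)))
  · exact .inr (.inl (J.L2.2 X M h))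

theorem b4 (hF : F.IsSaturated 3) (h : F.IsEssential 3 (sE4 1 0)) : B4 (aY F sA) :=
  J.A4.2.2 _ (J.tri hF).ce (J.K4 J.ach F hF h)

theorem m4 (hF : F.IsSaturated 3) (h : F.IsEssential 3 (sE4 1 0)) : M4 (aY F sA) := by
  by_contra m
  have t := J.tri hF
  refine not_ess hP hF (fun α hα => ?_) h
  have a := (lg_aY _).au α hα
  obtain ⟨⟨β, hβ, e⟩, n⟩ := (J.D4 J.ach J.A4.2.1 F hF).1 α hα
  have n' : Nm β (sE4 1 0) := n.congr fun u hu => (e u hu).symm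
  obtain ⟨y, hy, e'⟩ := t.eAD β hβ (J.b4 hF h β hβ n' (by_contra fun q => m ⟨β, hβ, n', q⟩))
  have ay := t.l0.au y hy
  have p : Pr y (sE4 1 0) := pr_of_nm ay (J.aS y ay).2.1 (A_le_E4 1 0) (n'.congr fun u hu => (e' u hu).symm)
  have a' : Au (sE4 1 0) (y⁻¹ : Equiv.Perm Co) := (t.l0.au _ (inv_mem hy)).restrict le_top fun c hc =>
    ay.mem_of le_top p trivial (by simpa using hc)
  obtain ⟨s, -, hs⟩ := J.A4.2.1 _ (a'.comp a) fun u hu => by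
    rw [Equiv.Perm.inv_eq_iff_eq, e' u hu, e u hu]
  obtain ⟨y', hy', f⟩ := t.inn s
  exact ⟨y * y', mul_mem hy hy', fun c hc => by
    rw [Equiv.Perm.mul_apply, f c trivial, cj, ← hs c hc]; simp⟩

theorem q4 (hF : F.IsSaturated 3) (h : F.IsEssential 3 (sE4 1 0)) :
    ∃ n ∈ aY F sA, Q4 n ∧ ∃ j, ∀ u ∈ sA, n u = nC 0 j u := by
  have t := J.tri hF
  obtain ⟨n, hn, q⟩ := J.Q8 J.A4.1 _ t.ce (J.K4 J.ach F hF h) (J.m4 hF h)
  obtain ⟨i, j, e⟩ := J.Cand n (t.lA.au n hn) q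
  obtain rfl := (J.Cert _ t.ce).1 i j ⟨n, hn, e⟩
  exact ⟨n, hn, q, j, e⟩

theorem mv4 (hF : F.IsSaturated 3) (h : F.IsEssential 3 (sE4 1 0)) :
    (∃ α ∈ aY F sE1, ¬ Pr α sD) ∧ ∃ α ∈ aY F sE2, ¬ Pr α sD := by
  have t := J.tri hF
  obtain ⟨n, hn, -, j, e⟩ := J.q4 hF h
  obtain ⟨⟨α, hα, n1, m1⟩, β, hβ, n2, m2⟩ := (J.Cert _ t.ce).2.1 j ⟨n, hn, e⟩
  obtain ⟨α', hα', e1⟩ := t.eA1 α hα n1
  obtain ⟨β', hβ', e2⟩ := t.eA2 β hβ n2
  exact ⟨⟨α', hα', fun p => m1 ((nm_of_au (t.l1.au _ hα') A_le_E1 D_le_E1 p).congr e1)⟩,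
    β', hβ', fun p => m2 ((nm_of_au (t.l2.au _ hβ') A_le_E2 D_le_E2 p).congr e2)⟩

end Jobs

/-- the automorphism that carries `sE4 1 0` to `sE4 r s` -/
theorem exists_th {r : F3} (hr : r ≠ 0) (s : F3) : ∃ (δ : DD) (g : Co), δ.2.2 = 1 ∧
    ∀ u, cj g (sd δ u) ∈ sE4 r s ↔ u ∈ sE4 1 0 := by
  refine ⟨(1, Units.mk0 r hr, 1), xa (s * r), rfl, fun u => ?_⟩
  simp only [mem_sE4, cj, cj_a, cj_b, cj_d, sd, xa, Units.val_one, Units.val_mk0]
  generalize u.a = a; generalize u.b = b; generalize u.d = d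
  revert r s a b d; decide

theorem img_eq {θ : MulAut Co} {X X' : Subgroup Co} (h : ∀ u, θ u ∈ X' ↔ u ∈ X) : img X' θ.symm = X :=
  le_antisymm (img_le_iff.2 fun u hu => (h _).1 (by simpa using hu)) fun u hu => by
    simpa using mem_img_of_mem θ.symm ((h u).2 hu)

theorem moves' {θ : MulAut Co} {X : Subgroup Co} {Y : Subgroup (Equiv.Perm Co)} (p : Pr θ X)
    (h : ∃ α ∈ cjY θ Y, ¬ Pr α X) : ∃ α ∈ Y, ¬ Pr α X := by
  obtain ⟨α, hα, h⟩ := h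
  obtain ⟨y, hy, e⟩ := mem_cjY.1 hα
  exact ⟨y, hy, fun q => h fun c hc => (au_aut θ).mem_of le_top p trivial (e c ▸ q _ (p c hc))⟩

variable (F) in
/-- a saturated system in which the three automizers move the flag -/
structure Mv : Prop where
  sat : F.IsSaturated 3
  m1 : ∃ α ∈ aY F sE1, ¬ Pr α sD
  m2 : ∃ α ∈ aY F sE2, ¬ Pr α sD
  m3 : ∃ α ∈ aY F sE3, ¬ Pr α sZ4

theorem mv (J : Jobs) (hF : F.IsSaturated 3) (hc : F.core = ⊥) : Mv F := by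
  have t := J.tri hF
  have nrm : ∀ X : Subgroup Co, xz 1 ∈ X → (∀ θ, Au ⊤ θ → Pr θ X) →
      ¬ ∀ P, F.IsEssential 3 P → X ≤ P ∧ ∀ β, Au P β → Pr β X := fun X hz h0 h => by
    have : F.IsNormal X := isNormal_of_essential hP hF fun P q => by
      rcases q with rfl | q
      · exact ⟨le_top, fun α _ => h0 _ (au_af α)⟩
      · exact ⟨(h P q).1, fun α _ => (h P q).2 _ (au_af α)⟩
    have : xz 1 ∈ F.core := (le_sSup this : X ≤ F.core) hz
    rw [hc, mem_bot] at this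
    revert this; decide
  have ne : ∀ {X U : Subgroup Co}, (∀ α ∈ aY F X, Pr α U → In X (aY F ⊤) α) → (¬ ∃ α ∈ aY F X, ¬ Pr α U) →
      ¬ F.IsEssential 3 X := fun e m => not_ess hP hF fun α hα =>
    (e α hα (by_contra fun q => m ⟨α, hα, q⟩)).imp fun y hy => ⟨hy.1, fun c hc => (hy.2 c hc).symm⟩
  have m3 : ∃ α ∈ aY F sE3, ¬ Pr α sZ4 := by_contra fun m =>
    nrm sA (vv_mem ..) (fun θ a => (J.aS θ a).2.1) fun P q => by
      have : sA ≤ P := by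
        rcases J.ess hF q with rfl | rfl | rfl | ⟨r, s, -, rfl⟩
        exacts [A_le_E1, A_le_E2, absurd q (ne t.ext3 m), A_le_E4 r s]
      exact ⟨this, J.ach P this⟩
  by_cases h4 : ∃ r s, r ≠ 0 ∧ F.IsEssential 3 (sE4 r s)
  · obtain ⟨r, s, hr, h⟩ := h4
    obtain ⟨δ, g, -, e⟩ := exists_th hr s
    obtain ⟨F', tr, e'⟩ := exists_cj F (MulAut.conj g * sdH δ)
    obtain ⟨a1, -, a2, -⟩ := J.aS _ (au_aut (MulAut.conj g * sdH δ))
    have := tr.symm.isEssential h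
    rw [img_eq (θ := MulAut.conj g * sdH δ) e] at this
    obtain ⟨m1, m2⟩ := J.mv4 (tr.symm.isSaturated hF) this
    exact ⟨hF, moves' (a1 7) (e' sE1 (a1 8) ▸ m1), moves' (a1 7) (e' sE2 a2 ▸ m2), m3⟩
  refine ⟨hF, by_contra fun m => nrm sZ ⟨rfl, rfl, rfl, rfl, rfl, rfl, rfl, rfl⟩ (fun θ a => (J.aS θ a).1 1)
    fun P q => ?_, by_contra fun m => nrm sW ⟨rfl, rfl, rfl, rfl, rfl, rfl⟩ (fun θ a => (J.aS θ a).1 3)
    fun P q => ?_, m3⟩
  · rcases J.ess hF q with rfl | rfl | rfl | ⟨r, s, hr, rfl⟩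
    exacts [absurd q (ne t.ext1 m), ⟨Z_le_A.trans A_le_E2, fun β a => (J.a2 β a).2.2.1⟩,
      ⟨(Z_le_W.trans W_le_R).trans R_le_E3, fun β a => (J.a3 β a).2.2.2.2.1⟩, absurd ⟨r, s, hr, q⟩ h4]
  · rcases J.ess hF q with rfl | rfl | rfl | ⟨r, s, hr, rfl⟩
    exacts [⟨W_le_A.trans A_le_E1, fun β a => (J.a1 β a).2.2.1⟩, absurd q (ne t.ext2 m),
      ⟨W_le_R.trans R_le_E3, fun β a => (J.a3 β a).2.2.1⟩, absurd ⟨r, s, hr, q⟩ h4]

theorem Mv.cj (a : AS) (h : Mv F) (θ : MulAut Co) :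
    ∃ F', Mv F' ∧ (F'.IsRealizable 3 → F.IsRealizable 3) ∧ aY F' ⊤ = cjY θ (aY F ⊤) ∧
      aY F' sE2 = cjY θ (aY F sE2) := by
  obtain ⟨F', tr, e⟩ := exists_cj F θ
  obtain ⟨a1, -, a2, a3, -⟩ := a θ (au_aut θ)
  exact ⟨F', ⟨tr.symm.isSaturated h.sat, e sE1 (a1 8) ▸ moves (a1 7) h.m1, e _ a2 ▸ moves (a1 7) h.m2,
    e _ a3 ▸ moves (a1 6) h.m3⟩, tr.isRealizable', e _ fun _ _ => trivial, e _ a2⟩

theorem stepH (J : Jobs) (h : Mv F) : ∃ F', Mv F' ∧ (F'.IsRealizable 3 → F.IsRealizable 3) ∧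
    HT (aY F' ⊤) t1 ∧ HT (aY F' ⊤) t2 := by
  have t := J.tri h.sat
  obtain ⟨-, g2, g3⟩ := J.G J.a1 J.a2 J.a3 _ _ _ _ _ t
  obtain ⟨Γ, hΓ, q⟩ := hall_gen pgroup_Co z0 9 rfl rfl sdH
    (fun θ => ⟨(J.aS θ (au_aut θ)).1, (J.aS θ (au_aut θ)).2.2.2.2⟩) (fun δ q => by
      obtain ⟨c1, c2, c3, -⟩ := Cg_sd (θ := id) q.symm
      exact DD_ext (by simpa [xa] using (c1 (xa 1)).symm) (by simpa [xb] using (c2 (xb 1) rfl).symm)
        (by simpa [xc] using (c3 (xc 1) ⟨rfl, rfl⟩).symm)) z0_cm t.l0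
    (fun s => (t.inn s).imp fun y hy => ⟨hy.1, fun u => hy.2 u trivial⟩) t.rad0
  obtain ⟨θ, hθ⟩ := q (coprime_of_pow fun δ _ e => by
    rwa [pow_succ, sq, DD_sq, one_mul] at e)
  obtain ⟨F', m, r, e, -⟩ := h.cj J.aS θ
  have k : ∀ δ ∈ Γ, HT (aY F' ⊤) δ := fun δ hδ =>
    ⟨(sdH δ).toEquiv, e ▸ (hθ _).2 ⟨1, δ, hδ, fun u => by simp⟩, fun _ _ => rfl⟩
  exact ⟨F', m, r, k _ ((hΓ _).2 (wt3 J.aS J.a3 t (g3 h.m3))), k _ ((hΓ _).2 (wt2 J.aS t (g2 h.m2)))⟩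

variable (k F) in
/-- the standard form -/
structure Std : Prop where
  sat : F.IsSaturated 3
  t1 : HT (aY F ⊤) t1
  t2 : HT (aY F ⊤) t2
  n1 : In sE1 (aY F sE1) (Co.nu1 k)
  n2 : In sE2 (aY F sE2) Co.nu2
  n3 : In sE3 (aY F sE3) Co.nu3

theorem stepN (J : Jobs) (h : Mv F) (h1 : HT (aY F ⊤) t1) (h2 : HT (aY F ⊤) t2) :
    ∃ F' k, Std F' k ∧ (F'.IsRealizable 3 → F.IsRealizable 3) := by
  have t := J.tri h.sat
  obtain ⟨l, n, hn, e⟩ := J.N2 J.a2 _ _ _ _ _ t h1 h2 ((J.G J.a1 J.a2 J.a3 _ _ _ _ _ t).2.1 h.m2)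
  obtain ⟨F', m, r, e0, e2⟩ := h.cj J.aS (rhoA l)
  have inj : ∀ {u w}, rho l u = rho l w → u = w := fun q => (rhoA l).injective q
  have k : ∀ δ, HT (aY F ⊤) δ → HT (aY F' ⊤) δ := fun δ ⟨y, hy, q⟩ => by
    obtain ⟨y', hy', q'⟩ := exists_cjY (rhoA l) hy
    exact ⟨y', e0 ▸ hy', fun u _ => inj (by rw [rho_sd, ← q _ trivial]; exact (q' u).symm)⟩
  have t' := J.tri m.sat
  obtain ⟨g1, -, g3⟩ := J.G J.a1 J.a2 J.a3 _ _ _ _ _ t'
  obtain ⟨k', n1⟩ := J.N1 J.a1 _ _ _ _ _ t' (k _ h1) (k _ h2) (g1 m.m1)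
  obtain ⟨y', hy', q'⟩ := exists_cjY (rhoA l) hn
  exact ⟨F', k', ⟨m.sat, k _ h1, k _ h2, n1, ⟨y', e2 ▸ hy', fun u hu => inj (by
    have := e (rho l u) hu
    beta_reduce at this
    rw [rho_rho, neg_add_cancel, rho_zero] at this
    exact (q' u).symm.trans this)⟩, J.N3 J.a3 _ _ _ _ _ t' (k _ h1) (k _ h2) (g3 m.m3)⟩, r⟩

theorem Std.cert (J : Jobs) (h : Std F k) : k ≠ 2 ∧ (∀ j, In sA (aY F sA) (nC 0 j) → j = 1 ∧ k = 1) ∧
    (k = 1 → In sA (aY F sA) (nC 0 1) ∧ In sA (aY F sA) fun u => u⁻¹) := by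
  have t := J.tri h.sat
  obtain ⟨α, hα, e1⟩ := h.n1
  obtain ⟨β, hβ, e2⟩ := h.n2
  exact (J.Cert _ t.ce).2.2 k ((t.r1A α hα).congr fun u hu => e1 u (A_le_E1 hu))
    ((t.r2A β hβ).congr fun u hu => e2 u (A_le_E2 hu))

theorem tr_self {θ : MulAut Co} (h : Mor F ⊤ θ) : H94.Tr θ θ.symm F F := by
  have h' : Mor F ⊤ θ.symm := by
    have := h.inv_of (g := θ.symm) fun x _ => θ.symm_apply_apply x
    rwa [h.img_eq_of_maps fun _ _ => trivial] at this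
  refine ⟨⟨fun _ _ => trivial, fun _ _ => trivial, fun x _ => θ.symm_apply_apply x,
    fun x _ => θ.apply_symm_apply x, h.mulOn⟩, fun P f q => ?_, fun P f q => ?_⟩
  · exact ((h'.mono le_top).comp q fun y hy => by
      obtain ⟨x, hx, rfl⟩ := (h.mem_img' le_top).1 hy
      simpa using hx).comp h fun _ _ => trivial
  · exact ((h.mono le_top).comp q fun y hy => by
      obtain ⟨x, hx, rfl⟩ := (h'.mem_img' le_top).1 hy
      simpa using hx).comp h' fun _ _ => trivial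

theorem Std.le (J : Jobs) (h : Std F k) (h' : Std E k) (h3 : HT (aY F ⊤) t3 → HT (aY E ⊤) t3) : F ≤ E := by
  have t := J.tri h.sat
  have t' := J.tri h'.sat
  have l0 := det0 J.aS J.St t t' h.t1 h.t2 h'.t1 h'.t2 h3
  refine le_of_essential hP h.sat fun P q => aut_le' ?_
  rcases q with rfl | q
  · exact l0
  rcases J.ess h.sat q with rfl | rfl | rfl | ⟨r, s, hr, rfl⟩
  · exact det1 J.a1 t t' l0 h.n1 h'.n1
  · exact det2 J.a2 t t' l0 h.n2 h'.n2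
  · exact det3 J.a3 t t' l0 h.n3 h'.n3
  obtain ⟨δ, g, hδ, e⟩ := exists_th hr s
  obtain ⟨y, hy, f⟩ := In.comp (t.inn g) (HT.of_T0 h.t1 h.t2 hδ) fun _ _ => trivial
  let θ : MulAut Co := MulAut.conj g * sdH δ
  have tF := tr_self (θ := θ) ((mor_aY hy).congr f)
  have tE := tr_self (θ := θ) ((mor_aY (l0 hy)).congr f)
  have i1 : img (sE4 r s) θ.symm = sE4 1 0 := img_eq e
  have q' := tF.symm.isEssential q
  rw [i1] at q'
  obtain ⟨n, hn, q4, j, en⟩ := J.q4 h.sat q'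
  obtain ⟨rfl, rfl⟩ := (h.cert J).2.1 j ⟨n, hn, en⟩
  have n' := ((h'.cert J).2.2 rfl).1.congr fun u hu => (en u hu).symm
  have l4 : aY F (sE4 1 0) ≤ aY E (sE4 1 0) := fun α hα => by
    obtain ⟨⟨β, hβ, eβ⟩, nm⟩ := (J.D4 J.ach J.A4.2.1 F h.sat).1 α hα
    exact In.mem (lg_aY _) (lg_aY _) hα ((J.D4 J.ach J.A4.2.1 E h'.sat).2 α ((lg_aY _).au α hα)
      ⟨β, det4A J.A4.1 t t' l0 (J.b4 h.sat q') hn q4 n' hβ (nm.congr fun u hu => (eβ u hu).symm), eβ⟩)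
  intro α hα
  have a := (lg_aY _).au α hα
  have m1 := tF.bwd _ _ (mor_aY hα)
  rw [i1] at m1
  obtain ⟨β, hβ, eβ⟩ := exists_aY m1 fun u hu => (e _).1 (by
    change θ (θ.symm _) ∈ _
    rw [θ.apply_symm_apply]; exact a.mem _ ((e u).2 hu))
  have m2 := tE.fwd _ _ ((mor_aY (l4 hβ)).congr eβ)
  refine In.mem (lg_aY _) (lg_aY _) hα (exists_aY ((m2.mono fun u hu => ?_).congr fun u _ => by simp) a.mem)
  simpa using mem_img_of_mem θ ((e (θ.symm u)).1 (by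
    change θ (θ.symm _) ∈ _
    rwa [θ.apply_symm_apply]))

section Real
variable {G : Type} [Group G] [Finite G] {ι : Co →* G}

theorem real_mem (r : Rl k ι) (hE : E.IsRealizedBy (ι.comp (⊤ : Subgroup Co).subtype))
    {X : Subgroup Co} {f : Co → Co} (pf : Pr f X) (g : G) (h : ∀ c ∈ X, g * ι c * g⁻¹ = ι (f c)) :
    In X (aY E X) f :=
  exists_aY ((real_iff hE r.inj).2 ⟨g, fun c hc => (h c hc).symm⟩) pf

theorem real_of (J : Jobs) (h : Std F k) (r : Rl k ι)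
    (h3 : ∀ E : FusionSystem (⊤ : Subgroup Co), E.IsRealizedBy (ι.comp (⊤ : Subgroup Co).subtype) → Std E k →
      (HT (aY F ⊤) t3 ↔ HT (aY E ⊤) t3)) : F.IsRealizable 3 := by
  obtain ⟨S, hS⟩ := r.syl
  have hS' : (S : Subgroup G) = (ι.comp (⊤ : Subgroup Co).subtype).range := by
    rw [hS]
    exact le_antisymm (fun _ ⟨c, e⟩ => ⟨⟨c, trivial⟩, e⟩) fun _ ⟨c, e⟩ => ⟨_, e⟩
  obtain ⟨E, hE, re⟩ := H9.exists_pull (r.inj.comp (subtype_injective _)) S hS'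
  have h' : Std E k := ⟨hE, r.t1.elim fun g q => real_mem r re (fun _ _ => trivial) g fun c _ => q c,
    r.t2.elim fun g q => real_mem r re (fun _ _ => trivial) g fun c _ => q c,
    r.n1.elim fun g => real_mem r re (au_nu1 k).mem g, r.n2.elim fun g => real_mem r re au_nu2.mem g,
    r.n3.elim fun g => real_mem r re au_nu3.mem g⟩
  have l1 := h.le J h' (h3 E re h').1
  have l2 := h'.le J h (h3 E re h').2
  exact H9.isRealizable_of ⟨re.1, fun P h φ k => (Iff.intro (l1 P ·) (l2 P ·)).trans (re.2 P h φ k)⟩ S hS'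

end Real

theorem stepD (J : Jobs) (h : Std F k) : F.IsRealizable 3 := by
  rcases tri k with rfl | rfl | rfl
  · by_cases h3 : HT (aY F ⊤) t3
    · obtain ⟨G, _, _, ι, r, g, q⟩ := J.M0d
      exact real_of J h r fun E re _ =>
        iff_of_true h3 (real_mem r re (fun _ _ => trivial) g fun c _ => q c)
    · obtain ⟨G, _, _, ι, r, q⟩ := J.M0
      refine real_of J h r fun E re _ => iff_of_false h3 fun ⟨y, hy, e⟩ => ?_
      obtain ⟨g, hg⟩ := (real_iff re r.inj).1 (mor_aY hy)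
      refine q g ?_
      rw [← hg _ trivial, e _ trivial, ← map_inv]
      congr 1
  · obtain ⟨G, _, _, ι, r⟩ := J.M1
    have k : ∀ {E : FusionSystem (⊤ : Subgroup Co)}, Std E 1 → HT (aY E ⊤) t3 := fun h =>
      wtA J.aS J.St (J.tri h.sat) h.t1 h.t2 ((h.cert J).2.2 rfl).2
    exact real_of J h r fun E _ h' => iff_of_true (k h) (k h')
  · exact absurd rfl (h.cert J).1

theorem core (J : Jobs) (hF : F.IsSaturated 3) (hc : F.core = ⊥) : F.IsRealizable 3 := by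
  obtain ⟨F1, m, r1, h1, h2⟩ := stepH J (mv J hF hc)
  obtain ⟨F2, k, s, r2⟩ := stepN J m h1 h2
  exact r1 (r2 (stepD J s))

theorem main (J : Jobs) {Ω : Type u} [Group Ω] {S : Subgroup Ω} (F : FusionSystem S) (hF : F.IsSaturated 3)
    (T : Sylow 3 Cfsg.Spor.Co1) (e : S ≃* (T : Subgroup Cfsg.Spor.Co1)) (hc : F.core = ⊥) :
    F.IsRealizable 3 := by
  obtain ⟨e'⟩ := J.Syl T
  let ψ : S →* Co := (e.trans e').toMonoidHom
  obtain ⟨b, hi⟩ := H94.exists_pIso (mulOn_ext1 ψ) fun x hx y hy h => by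
    rw [ext1_of_mem ψ hx, ext1_of_mem ψ hy] at h
    exact congrArg Subtype.val ((e.trans e').injective h)
  rw [← range_eq_img ψ fun x => (ext1_coe ψ x).symm, MonoidHom.range_eq_top.2 (e.trans e').surjective] at hi
  obtain ⟨E, tr⟩ := hi.exists_tr F
  exact tr.symm.isRealizable' (core J (tr.isSaturated hF) (tr.core_eq_bot hc))

end H20.C3
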