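import Cfsg.Agent.H83.DP1WC
import Cfsg.Agent.H12.ExtTransfer

/-! # S3275, slot DP1-WT: weak closure of `E` contradicts transfer -/

set_option autoImplicit false
set_option linter.unusedSectionVars false

namespace H20.DPWT

open Subgroup Cfsg H98 H48.DP H83.DP1WC

universe u

variable {G : Type u} [Group G] [Finite G]

theorem res_top_of_idx (h : ∀ N : Subgroup G, N.index ≠ 2) : res 2 (⊤ : Subgroup G) = ⊤ := by
  have : Fact (Nat.Prime 2) := ⟨Nat.prime_two⟩
  have hn : (res 2 (⊤ : Subgroup G)).Normal := normal_of_top_le_normalizer (self_le_normalizer_res ⊤)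
  have hp : IsPGroup 2 (G ⧸ res 2 (⊤ : Subgroup G)) := isPGroup_quotient_iff_res_le.2 res_top.ge
  obtain ⟨k, hk⟩ := IsPGroup.iff_card.1 hp
  rcases k with _ | k
  · exact index_eq_one.1 hk
  obtain ⟨M, hM⟩ := Sylow.exists_subgroup_card_pow_prime (G := G ⧸ res 2 (⊤ : Subgroup G)) 2
    (n := k) (hk ▸ pow_dvd_pow 2 (Nat.le_succ k))
  refine absurd ?_ (h (M.comap (QuotientGroup.mk' _)))
  rw [index_comap_of_surjective _ (QuotientGroup.mk'_surjective _)]
  have := M.card_mul_index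
  rw [hM, hk, pow_succ] at this
  exact Nat.eq_of_mul_eq_mul_left (by positivity) this

variable {L : Subgroup G} {a b s x y r t : G} (h : UQ1 L a b s x y r t)
include h

theorem Y4 {c : G} (hc : c ∈ Ys a b r) : c ^ 4 = 1 := by
  induction hc using closure_induction with
  | mem x hx =>
    rcases hx with rfl | rfl | rfl
    exacts [h.a4, h.b4, h.r4]
  | one => exact one_pow 4
  | mul c d hc hd e1 e2 =>
    rw [Commute.mul_pow (show Commute c d from abY h hd c hc), e1, e2, mul_one]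
  | inv c _ e => rw [inv_pow, e, inv_one]

theorem pY : IsPGroup 2 (Ys a b r) :=
  isPGroup_iff_forall.2 fun _ hc => ⟨2, Y4 h hc⟩

theorem pQ : IsPGroup 2 (Qs a b t) :=
  isPGroup_of_forall_pow_mem (pY h) fun q hq =>
    ⟨1, by rw [pow_one, sq]; exact ker h (mul_mem hq hq) (v_sq h hq)⟩

theorem pT : IsPGroup 2 (Ts a b s t) :=
  isPGroup_of_forall_pow_mem (pQ h) fun w hw => ⟨1, by
    rw [pow_one, sq]
    rcases mem_T h hw with k | k
    exacts [mul_mem k k, out_mul h k k]⟩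

theorem YT : Ys a b r ≤ Ts a b s t := by
  refine le_trans ?_ le_sup_left
  rw [← h.cE]
  exact le_inf (centralizer_le_normalizer _) (centralizer_le (SetLike.coe_subset_coe.2
    (closure_mono fun _ hx => .inr hx)))

theorem inv_x {c : G} (hc : c ∈ zpowers x) : s * c * s⁻¹ = c⁻¹ := by
  obtain ⟨n, rfl⟩ := hc
  change s * x ^ n * s⁻¹ = (x ^ n)⁻¹
  rw [← conj_zpow, h.sx, inv_zpow]

theorem mem_xs {w : G} (hw : w ∈ closure ({x, s} : Set G)) :
    ∃ c ∈ zpowers x, w = c ∨ w = c * s := by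
  have si : s⁻¹ = s := inv_eq_of_mul_eq_one_right h.s2
  have sw : ∀ c ∈ zpowers x, s * c = c⁻¹ * s := fun c hc =>
    mul_inv_eq_iff_eq_mul.1 (inv_x h hc)
  induction hw using closure_induction with
  | mem v hv =>
    rcases hv with rfl | rfl
    · exact ⟨_, mem_zpowers _, .inl rfl⟩
    · exact ⟨1, one_mem _, .inr (one_mul _).symm⟩
  | one => exact ⟨1, one_mem _, .inl rfl⟩
  | mul u v _ _ e1 e2 =>
    obtain ⟨c, hc, e1⟩ := e1
    obtain ⟨d, hd, e2⟩ := e2
    rcases e1 with e1 | e1 <;> rcases e2 with e2 | e2 <;> rw [e1, e2]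
    · exact ⟨_, mul_mem hc hd, .inl rfl⟩
    · exact ⟨_, mul_mem hc hd, .inr (mul_assoc _ _ _).symm⟩
    · exact ⟨_, mul_mem hc (inv_mem hd), .inr (by rw [mul_assoc, sw d hd, mul_assoc])⟩
    · exact ⟨_, mul_mem hc (inv_mem hd), .inl (by
        rw [mul_assoc, ← mul_assoc s, sw d hd, mul_assoc, h.s2, mul_one])⟩
  | inv u _ e =>
    obtain ⟨c, hc, e⟩ := e
    rcases e with e | e <;> rw [e]
    · exact ⟨_, inv_mem hc, .inl rfl⟩
    · exact ⟨c, hc, .inr (by rw [mul_inv_rev, si, sw _ (inv_mem hc), inv_inv])⟩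

theorem norm_T (wc : WC a b s r t) {g : G} (hg : g ∈ No (Ts a b s t)) : g ∈ Ts a b s t := by
  have hE : g ∈ No (Es a b t) := cj_eq_self_iff.1 (wc g (cj_le_of_le (YT h) hg))
  obtain ⟨w, hw, hq⟩ := (h.nE g hE).2
  have hq' : g * w⁻¹ ∈ Ts a b s t := (le_sup_left : Qs a b t ≤ _) hq
  have sT : s ∈ Ts a b s t := (le_sup_right : zpowers s ≤ _) (mem_zpowers s)
  have wN : w ∈ No (Ts a b s t) := by
    simpa using (No _).mul_mem ((No _).inv_mem (le_normalizer hq')) hg
  have key : ∀ c ∈ zpowers x, c ∈ No (Ts a b s t) → c = 1 := fun c hc hN => by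
    have c3 : c ^ 3 = 1 := by
      obtain ⟨n, rfl⟩ := hc
      change (x ^ n) ^ 3 = 1
      rw [← zpow_natCast, ← zpow_mul, mul_comm, zpow_mul, zpow_natCast, h.x3, one_zpow]
    have m : c * c ∈ Ts a b s t := by
      have := mul_mem (conj_mem_of_mem_normalizer hN sT) (inv_mem sT)
      rwa [mul_assoc, mul_assoc, ← mul_assoc s, inv_x h (inv_mem hc), inv_inv] at this
    obtain ⟨k, hk⟩ := isPGroup_iff_forall.1 (pT h) _ m
    rw [← sq, ← pow_mul] at hk
    exact orderOf_eq_one_iff.1 (Nat.eq_one_of_dvd_coprimes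
      (show Nat.Coprime 3 (2 * 2 ^ k) by rw [← pow_succ']; exact Nat.Coprime.pow_right _ (by decide))
      (orderOf_dvd_of_pow_eq_one c3) (orderOf_dvd_of_pow_eq_one hk))
  have wT : w ∈ Ts a b s t := by
    obtain ⟨c, hc, e | e⟩ := mem_xs h hw
    · rw [e, key c hc (e ▸ wN)]; exact one_mem _
    · have : c ∈ No (Ts a b s t) := by
        have := (No _).mul_mem wN ((No _).inv_mem (le_normalizer sT))
        rwa [e, mul_inv_cancel_right] at this
      rw [e, key c hc this, one_mul]; exact sT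
  simpa using mul_mem hq' wT

omit h in
theorem jobWT : JobWT.{u} := by
  intro G _ _ L a b s x y r t h wc
  have : Fact (Nat.Prime 2) := ⟨Nat.prime_two⟩
  have h1 := h.toUQ1
  have syl : IsSyl 2 (Ts a b s t) ⊤ := isSyl_of_isSyl_normalizer
    (isSyl_self (pT h1) |> fun k => by
      rwa [show ⊤ ⊓ normalizer (Ts a b s t : Set G) = Ts a b s t from
        le_antisymm (fun g hg => norm_T h1 wc hg.2) (le_inf le_top le_normalizer)])
  obtain ⟨D, d1, d2, d3⟩ := h.der.2
  refine H12.not_mem_res_of_extremal syl d1 (tt h1) (YT h1 (tY h1)) d3 (tY h1) (pY h1)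
    (fun c hc => abY h1 (tY h1) c hc) (fun g hg => d2 (h.nE g (cj_eq_self_iff.1 (wc g hg))).1) ?_
  rw [res_top_of_idx h.idx]
  exact mem_top t

end H20.DPWT
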