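/- Tower DP3, slot Ab: the abelian case of a good triple. -/
import Cfsg.Agent.H48.DP3Kit

set_option autoImplicit false

namespace H20.DP3

open Subgroup Cfsg H98 H97 H48.DP
open scoped commutatorElement

universe u

variable {G : Type*} [Group G]

theorem eq_of_mem_zp {z c : G} (hz : z * z = 1) (h : c ∈ zpowers z) (h1 : c ≠ 1) : c = z := by
  obtain ⟨k, rfl⟩ := mem_zpowers_iff.1 h
  have h2 : z ^ (2 : ℤ) = 1 := by rw [zpow_two, hz]
  rcases Int.even_or_odd' k with ⟨j, rfl | rfl⟩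
  · exact absurd (by rw [zpow_mul, h2, one_zpow]) h1
  · rw [zpow_add, zpow_mul, h2, one_zpow, one_mul, zpow_one]

theorem idx_le_two {z a : G} (hz : z * z = 1) {X : Subgroup G}
    (h : ∀ q ∈ X, ⁅q, a⁆ ∈ zpowers z) : (C1 a).relIndex X ≤ 2 := by
  by_cases hX : X ≤ C1 a
  · rw [relIndex_eq_one.2 hX]; omega
  obtain ⟨s, hs, hs'⟩ := SetLike.not_le_iff_exists.1 hX
  have key : ∀ q ∈ X, q ∉ C1 a → q * a * q⁻¹ = z * a := fun q hq hq' => by
    rw [← eq_of_mem_zp hz (h q hq) fun e => hq' (mem_C1.2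
      (commutatorElement_eq_one_iff_mul_comm.1 e).symm), commutatorElement_def]
    group
  refine (relIndex_eq_two_iff_exists_notMem_and.2 ⟨s, hs, hs', fun b hb => ?_⟩).le
  by_cases h1 : b ∈ C1 a
  · exact .inr h1
  · refine .inl (mem_C1.2 ?_)
    have e := (key _ (X.inv_mem hb) fun h' => h1 ((C1 a).inv_mem_iff.1 h')).trans (key s hs hs').symm
    calc a * (b * s) = b * (b⁻¹ * a * b⁻¹⁻¹) * s := by group
      _ = b * s * a := by rw [e]; group

theorem jobAb : JobAb.{u} := by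
  intro G _ _ T P₁ P₂ P₃ L D U z v h hF hU
  have hDQ : D ≤ O2 L := h.DQ.trans inf_le_left
  have hDU : D ≤ U := h.eqU ▸ le_ncl L D
  have hz : z ∈ D := (h.memD z).2 (.inr (.inl rfl))
  have nQ : L ≤ No (O2 L) := self_le_normalizer_pCoreOf L
  have nQ3 : P₃ ≤ No (O2 P₃) := self_le_normalizer_pCoreOf P₃
  obtain ⟨S, S', i1, i2, i3, ⟨g, hg, hp⟩, i5, i6, -⟩ :=
    crit2 L P₃ (fun g => cj g D ≤ O2 L ⊓ O2 P₃) (by
      by_contra hn
      push Not at hn
      have := h.bot (ncl (L ⊔ P₃) D)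
        (isPGroup_ncl (isPGroup_pCoreOf L) fun g hg => (hn g hg).trans inf_le_left)
        (le_sup_left.trans (le_normalizer_ncl _ _)) (le_sup_right.trans (le_normalizer_ncl _ _))
      exact h.zne (mem_bot.1 (ncl_eq_bot_iff.1 this ▸ hz)))
  have cL : ∀ g' ∈ S', ∀ s ∈ L, cj (s * g') D ≤ O2 L := fun g' hg' s hs => by
    rw [← cj_cj]; exact cj_le_of_le ((i3 g' hg').trans inf_le_left) (nQ hs)
  have c3 : ∀ g' ∈ S', ∀ s ∈ P₃, cj (s * g') D ≤ O2 P₃ := fun g' hg' s hs => by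
    rw [← cj_cj]; exact cj_le_of_le ((i3 g' hg').trans inf_le_right) (nQ3 hs)
  have hT : ∀ k ∈ S, cj k D ≤ T := fun k hk => by
    rcases i5 k hk with rfl | ⟨s, g', hs | hs, hg', rfl⟩
    · rw [cj_one]; exact hDQ.trans h.lt.o2_le
    · exact (cL g' hg' s hs).trans h.lt.o2_le
    · exact (c3 g' hg' s hs).trans h.s3.o2_le
  have g1 : g ≠ 1 := by
    rintro rfl
    exact hp (by rw [cj_one]; exact h.DQ)
  obtain ⟨l, k, hl, hk, e⟩ := (i5 _ (i1 g hg)).resolve_left (inv_ne_one.2 g1)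
  have eg : g = k⁻¹ * l⁻¹ := by rw [← mul_inv_rev, ← e, inv_inv]
  have hl : l ∈ L := hl.resolve_right fun hl => hp (by
    rw [eg, ← cj_cj, cj_eq_self (h.nD (inv_mem hl))]; exact i3 _ (i2 k hk))
  obtain ⟨s, g', hs, hg', e'⟩ := (i5 g hg).resolve_left g1
  rcases hs with hs | hs
  · have h1 : cj g D ≤ O2 L := e' ▸ cL g' hg' s hs
    have h2 : ¬ cj g D ≤ Ce D := fun h' =>
      hp (le_inf h1 (h.cD ▸ le_inf (hT g hg) h'))
    obtain ⟨d', hd', h3⟩ := SetLike.not_le_iff_exists.1 h2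
    rw [mem_Ce] at h3
    push Not at h3
    obtain ⟨d, hd, h3⟩ := h3
    have h4 : ⁅d', d⁆ = z := eq_of_mem_zp h.zz (h.com _ (h1 hd') _ (hDU hd))
      fun e => h3 (commutatorElement_eq_one_iff_mul_comm.1 e).symm
    have h5 : g⁻¹ * d * g ∈ O2 L := by
      have := (e ▸ cL k hk l hl : cj g⁻¹ D ≤ O2 L) (conj_mem_cj hd)
      rwa [inv_inv] at this
    have h6 : ⁅g⁻¹ * d * g, g⁻¹ * d' * g⁆ = g⁻¹ * z⁻¹ * g := by
      rw [← h4, commutatorElement_def, commutatorElement_def]; group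
    have h7 := eq_of_mem_zp h.zz (h.com _ h5 _ (hDU (mem_cj.1 hd'))) (by
      rw [h6]
      intro e
      refine h.zne ?_
      rw [← inv_eq_one]
      calc z⁻¹ = g * (g⁻¹ * z⁻¹ * g) * g⁻¹ := by group
        _ = 1 := by rw [e]; group)
    rw [h6, inv_eq_of_mul_eq_one_left h.zz] at h7
    have h8 : g ∈ C1 z := mem_C1.2 (by
      calc z * g = g * (g⁻¹ * z * g) := by group
        _ = g * z := by rw [h7])
    exact h3 (mem_Ce.1 (hU (cj_le_of_le hDU (h.nU h8) hd')) d (hDU hd))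
  · have h1 : cj g D ≤ O2 P₃ := e' ▸ c3 g' hg' s hs
    obtain ⟨a, ha, ha'⟩ := SetLike.not_le_iff_exists.1 fun h' => hp (le_inf h' h1)
    have hA : cj k U ≤ T := by
      rw [cj_le_iff, h.eqU, ncl_le_iff]
      intro l' hl'
      rw [← cj_le_iff, cj_cj]
      exact hT _ (i6 k hk l' (.inl hl'))
    have h2 : (O2 L).relIndex (cj k U) ≤ 4 := by
      have := h.lt.idx_le_four hA fun b hb => by
        refine (i3 k hk).trans inf_le_left (mem_cj.2 ?_)
        refine (zpowers_le (G := G)).2 hz ?_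
        convert h.sqU _ (mem_cj.1 hb) using 1
        group
      omega
    have h3 : k * a * k⁻¹ ∈ U := by
      refine h.eqU ▸ cj_le_ncl (inv_mem hl) (mem_cj.2 ?_)
      convert mem_cj.1 ha using 1
      rw [eg]; group
    have h4 : (C1 (k * a * k⁻¹)).relIndex (O2 L ⊓ cj k U) ≤ 2 :=
      idx_le_two h.zz fun q hq => h.com q hq.1 _ h3
    have h5 : (C1 (k * a * k⁻¹) ⊓ O2 L).relIndex (cj k U) ≤ 8 := by
      rw [← relIndex_inf_mul_relIndex]
      exact Nat.mul_le_mul h4 h2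
    have h6 := (hF (zpowers a) ((zpowers_le (G := G)).2 (hT g hg ha))).1
      fun h' => ha' (h' (mem_zpowers a))
    rw [← relIndex_cj k] at h6
    have h7 : (cj k (stab (zpowers a) (zpowers z))).relIndex (cj k U) ≤
        (C1 (k * a * k⁻¹) ⊓ O2 L).relIndex (cj k U) := by
      rw [← inf_relIndex_right (C1 _ ⊓ _)]
      refine relIndex_le_of_le_left (fun b hb => mem_cj.2 (mem_stab.2 ⟨?_, fun c hc => ?_⟩))
        (relIndex_ne_zero' _ _)
      · refine centralizer_le_normalizer _ (mem_Ce.2 fun c hc => ?_)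
        obtain ⟨n, rfl⟩ := mem_zpowers_iff.1 hc
        exact Commute.zpow_left (mem_C1.1 (h.cz (pCoreOf_le L (h.UQ (mem_cj.1 hb.2))))) n
      · obtain ⟨n, rfl⟩ := mem_zpowers_iff.1 hc
        have h8 : Commute a (k⁻¹ * b * k) := by
          have := mem_C1.1 hb.1.1
          calc a * (k⁻¹ * b * k) = k⁻¹ * (k * a * k⁻¹ * b) * k := by group
            _ = k⁻¹ * b * k * a := by rw [this]; group
        rw [(h8.zpow_left n).commutator_eq]
        exact one_mem _
    omega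

end H20.DP3
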