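/- Tower E8G (S5919), slots E10, Q3, M13, L13. -/
import Cfsg.Agent.H40.E8GSpec
import Cfsg.Agent.H56.X4
import Cfsg.Agent.H56.E8LA
import Cfsg.Agent.H62.E8Form

set_option autoImplicit false

namespace H20.E8G

open Cfsg.Lie H63 H64 H65 H46 H14.E8 Matrix Module H40.E8F H40.E8G H56.X
open scoped MatrixGroups

universe u

theorem two_group (n : ℕ) : IsPGroup 2 (Multiplicative (Fin n → ZMod 2)) :=
  IsPGroup.of_card (n := n) (by simp [Nat.card_eq_fintype_card])

theorem sq_one {n : ℕ} (a : Multiplicative (Fin n → ZMod 2)) : a * a = 1 :=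
  Multiplicative.toAdd.injective (funext fun i => CharTwo.add_self_eq_zero (a.toAdd i))

theorem inv_eq {k V : Type} {Γ : Type} [Group Γ] [Field k] [AddCommGroup V] [Module k V]
    (ρ : Representation k Γ V) : ρ.invariants = Fx ρ Set.univ := by
  ext v
  simp only [mem_Fx, Representation.mem_invariants, Set.mem_univ, true_imp_iff]

theorem sum_const' {X : Type} (S : Finset X) {n : ℕ} (hn : S.card = n + 1) (t : X → ℤ)
    (h : ∀ v ∈ S, ∀ w ∈ S, t v = t w) : ∃ v ∈ S, ∑ w ∈ S, t w = (n + 1) * t v := by
  obtain ⟨v, hv⟩ := Finset.card_pos.1 (show 0 < S.card by omega)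
  exact ⟨v, hv, by
    rw [Finset.sum_congr rfl fun w hw => h w hw v hv, Finset.sum_const, hn, nsmul_eq_mul]
    push_cast; rfl⟩

theorem jobE10 : JobE10 := by
  intro φ hφ c h35 hc
  have h := sum_tau_eq two_ne (two_group 6) (ad.comp φ)
  rw [inv_eq] at h
  set t : Multiplicative (Fin 6 → ZMod 2) → ℤ := fun g => tau (ad.comp φ g) with ht
  have t1 : t 1 = 248 := by simp only [ht]; rw [map_one, tau_one two_ne, finrank_ad]; rfl
  have t2 : ∀ v, v ≠ 1 → t v = 24 ∨ t v = -8 := fun v hv => tau2 (φ v) (by
    rw [orderOf_injective φ hφ]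
    exact orderOf_eq_prime (by rw [sq, sq_one]) hv)
  have tc : ∀ v w, v ≠ 1 → w ≠ 1 → c v = c w → t v = t w := fun v w hv hw e => by
    obtain ⟨g, hg⟩ := isConj_iff.1 (hc v w hv hw e)
    simp only [ht, MonoidHom.comp_apply]
    rw [← hg, map_mul, map_mul, tau_conj _ _ _ (by rw [← map_mul, mul_inv_cancel, map_one])]
  have cK : Fintype.card (Multiplicative (Fin 6 → ZMod 2)) = 64 := by simp
  have e1 := Finset.add_sum_erase Finset.univ t (Finset.mem_univ 1)
  have e2 := Finset.sum_filter_add_sum_filter_not (Finset.univ.erase 1) (fun v => c v = true) t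
  have c2 := Finset.card_filter_add_card_filter_not (s := Finset.univ.erase 1) (fun v => c v = true)
  have c1 : ((Finset.univ.erase 1).filter fun v => c v = true).card = 34 + 1 := by
    refine Eq.trans ?_ h35
    congr 1; ext v; simp
  rw [c1, Finset.card_erase_of_mem (Finset.mem_univ _), Finset.card_univ, cK] at c2
  obtain ⟨v, hv, a⟩ := sum_const' _ c1 t fun v hv w hw => by
    simp only [Finset.mem_filter, Finset.mem_erase] at hv hw
    exact tc v w hv.1.1 hw.1.1 (hv.2.trans hw.2.symm)
  obtain ⟨w, hw, b⟩ := sum_const' ((Finset.univ.erase 1).filter fun v => ¬ c v = true) (n := 27)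
    (by omega) t fun v hv w hw => by
      simp only [Finset.mem_filter, Finset.mem_erase, Bool.not_eq_true] at hv hw
      exact tc v w hv.1.1 hw.1.1 (hv.2.trans hw.2.symm)
  have a' := t2 v (Finset.mem_erase.1 (Finset.mem_filter.1 hv).1).1
  have b' := t2 w (Finset.mem_erase.1 (Finset.mem_filter.1 hw).1).1
  rw [cK, ← e1, ← e2, a, b, t1] at h
  change finrank K3 (Fx (⇑(ad.comp φ)) Set.univ) = 10
  omega

theorem finrank_comap {k V : Type} [Field k] [AddCommGroup V] [Module k V] (M N : Submodule k V) :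
    finrank k (N.comap M.subtype) = finrank k ↥(M ⊓ N) := by
  rw [← Submodule.finrank_map_subtype_eq M, Submodule.map_comap_subtype]

theorem jobQ3 : JobQ3 := by
  intro k V _ _ _ _ M χ h2 hM st eq
  let ρ : Representation k _ M := Representation.subrepresentation χ M fun a v hv => st a v hv
  have h := sum_tau_eq h2 (two_group 3) ρ
  have f1 : ∀ a, finrank k (fx (ρ a)) = finrank k ↥(M ⊓ fx (χ a)) := fun a => by
    rw [← finrank_comap, show fx (ρ a) = (fx (χ a)).comap M.subtype from Submodule.ext fun v => by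
      rw [mem_fx, Submodule.mem_comap, mem_fx, Subtype.ext_iff]
      rfl]
  have f2 : finrank k ρ.invariants = finrank k ↥(M ⊓ Fx χ Set.univ) := by
    rw [← finrank_comap, show ρ.invariants = (Fx χ Set.univ).comap M.subtype from
      Submodule.ext fun v => by
        simp only [Representation.mem_invariants, Submodule.mem_comap, mem_Fx, Set.mem_univ,
          true_imp_iff, Subtype.ext_iff]
        rfl]
  have f3 : ∀ a, (10 : ℤ) + tau (ρ a) = 2 * finrank k ↥(M ⊓ fx (χ a)) := fun a => by
    rw [← f1, ← tau_invol h2 (by rw [← map_mul, sq_one, map_one]), hM]; rfl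
  have cK : Fintype.card (Multiplicative (Fin 3 → ZMod 2)) = 8 := by simp
  obtain ⟨v, -, a⟩ := sum_const' (Finset.univ.erase 1) (n := 6)
    (by rw [Finset.card_erase_of_mem (Finset.mem_univ _), Finset.card_univ, cK])
    (fun a => tau (ρ a)) fun v hv w hw => by
      have := f3 v
      have := f3 w
      have := eq v w (Finset.mem_erase.1 hv).1 (Finset.mem_erase.1 hw).1
      omega
  rw [← Finset.add_sum_erase _ _ (Finset.mem_univ 1), a, map_one, tau_one h2, hM, cK, f2] at h
  have := f3 v
  have := hM ▸ Submodule.finrank_mono (inf_le_left : M ⊓ fx (χ v) ≤ M)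
  omega

theorem jobM13 (lin : JobLin) (hk' : JobHk) (ind : JobInd) : JobM13 := by
  intro k V _ _ _ _ _ ρ β hρ nd inv f0
  have h3 : (3 : k) = 0 := CharP.cast_eq_zero k 3
  have u13 : ρ eu ^ 13 = 1 := by rw [← map_pow, show eu ^ 13 = 1 by decide +kernel, map_one]
  have zz : ρ ez * ρ ez = 1 := by rw [← map_mul, show ez * ez = -1 by decide +kernel, hρ]
  have zu : ρ ez * ρ eu * (ρ ez * ρ eu) = 1 := by
    rw [← map_mul, ← map_mul, show ez * eu * (ez * eu) = -1 by decide +kernel, hρ]
  have uzu : ρ eu * ρ ez * ρ eu = ρ ez := by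
    rw [← map_mul, ← map_mul, show eu * ez * eu = ez by decide +kernel]
  have b := (lin k V).2.1 _ _ u13 zz zu
  have i := ind k V ρ hρ
  have H := hk' k V ρ hρ
  set W := fx (ρ eu) ⊓ fx (ρ ez) with hW
  let s : End k W := (hk ρ).restrict fun v hv => (H v hv).2.1
  let t : End k W := (ρ et).restrict fun v hv => (H v hv).1
  have la := H56.E8LA.jobLA k W (β.domRestrict₁₂ W W) 1 1 t s (fun v hv => Subtype.ext (nd v fun x => by
      let y := (∑ i ∈ Finset.range 13, ρ eu ^ i) x
      have yu : ρ eu y = y := by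
        have := LinearMap.congr_fun (mul_geom_sum (ρ eu) 13) x
        rw [u13, sub_self, End.mul_apply, LinearMap.sub_apply, LinearMap.zero_apply, sub_eq_zero] at this
        exact this
      have vu : ∀ i, (ρ eu ^ i) v = v := fun i => by
        rw [End.pow_apply]; exact Function.iterate_fixed (mem_fx.1 v.2.1) i
      have by' : β v y = β v x := by
        simp only [y, LinearMap.sum_apply, map_sum]
        rw [Finset.sum_congr rfl fun i _ => (show β v ((ρ eu ^ i) x) = β v x by
          nth_rewrite 1 [← vu i]; rw [← map_pow, inv]), Finset.sum_const, Finset.card_range,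
          nsmul_eq_mul]
        push_cast
        linear_combination 4 * β v x * h3
      have m : y + ρ ez y ∈ W := ⟨mem_fx.2 (by
        have := LinearMap.congr_fun uzu y
        rw [End.mul_apply, End.mul_apply, yu] at this
        rw [map_add, yu, this]), mem_fx.2 (by
        rw [map_add, show ρ ez (ρ ez y) = y from LinearMap.congr_fun zz y, add_comm])⟩
      have e : β v (y + ρ ez y) = 0 := hv ⟨_, m⟩
      have e' : β v (ρ ez y) = β v y := by
        nth_rewrite 1 [← mem_fx.1 v.2.2]; rw [inv]
      rw [map_add, e', by'] at e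
      linear_combination β v x * h3 - e))
    (by
      simp only [List.mem_cons, List.not_mem_nil, or_false]
      rintro f (rfl | rfl | rfl | rfl) v w
      exacts [rfl, rfl, inv et v w, (H v v.2).2.2.2.2.2 β inv w w.2])
    (mul_one _) (mul_one _) (LinearMap.ext fun v => Subtype.ext (H v v.2).2.2.1)
    (LinearMap.ext fun v => Subtype.ext (by
      change ρ et (ρ et (ρ et v)) = v
      rw [← End.mul_apply, ← End.mul_apply, ← map_mul, ← map_mul,
        show et * et * et = 1 by decide +kernel, map_one]; rfl))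
    rfl (by rw [mul_one, one_mul]) (by rw [mul_one, one_mul, one_mul]) (by rw [mul_one, one_mul])
    (LinearMap.ext fun v => Subtype.ext (H v v.2).2.2.2.1)
  have e1 : fx (1 : End k W) = ⊤ := eq_top_iff.2 fun v _ => mem_fx.2 rfl
  have e2 : fx s = (fx (hk ρ)).comap W.subtype := by
    ext v
    rw [mem_fx, Submodule.mem_comap, mem_fx, Subtype.ext_iff]
    rfl
  have e3 : fx s ⊓ fx t = ⊥ := eq_bot_iff.2 fun v hv => (Submodule.mem_bot _).2 (Subtype.ext
    (f0 v ((H v v.2).2.2.2.2.1 (congrArg Subtype.val (mem_fx.1 hv.2))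
      (congrArg Subtype.val (mem_fx.1 hv.1)))))
  rw [e1, inf_idem, top_inf_eq, e3, finrank_bot, finrank_top, e2, finrank_comap] at la
  omega

theorem exists_pi {F : Type u} [Field F] [Fintype F] (hF : Fintype.card F = 13) :
    ∃ ψ : S13 →* PSL(2, F), Function.Surjective ψ ∧ ψ (-1) = 1 ∧
      ∀ g, ψ g = 1 → ∀ h, h * g = g * h := by
  have : Fact (Nat.Prime 13) := ⟨by norm_num⟩
  let e : ZMod 13 ≃+* F := ZMod.ringEquivOfPrime F (by norm_num) hF
  have h1 (g : SL(2, F)) : SpecialLinearGroup.map (e : ZMod 13 →+* F)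
      (SpecialLinearGroup.map (e.symm : F →+* ZMod 13) g) = g := by
    ext i j; simp
  have h2 (g : S13) : SpecialLinearGroup.map (e.symm : F →+* ZMod 13)
      (SpecialLinearGroup.map (e : ZMod 13 →+* F) g) = g := by
    ext i j; simp
  refine ⟨(QuotientGroup.mk' _).comp (SpecialLinearGroup.map (e : ZMod 13 →+* F)),
    (QuotientGroup.mk'_surjective _).comp fun g => ⟨_, h1 g⟩,
    (QuotientGroup.eq_one_iff _).2 (Subgroup.mem_center_iff.2 fun g => ?_), fun g hg h => ?_⟩
  · rw [← h1 g, ← map_mul, ← map_mul, mul_neg_one, neg_one_mul]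
  · have := Subgroup.mem_center_iff.1 ((QuotientGroup.eq_one_iff _).1 hg)
      (SpecialLinearGroup.map (e : ZMod 13 →+* F) h)
    rw [← map_mul, ← map_mul] at this
    rw [← h2 (h * g), this, h2]

attribute [local instance] H65.tabE8 H65.commE8

theorem jobL13 (m : JobM13) (d : JobDim2) : JobL13.{u} := by
  intro F _ _ hF ψ hψ
  by_contra! h
  obtain ⟨π, h1, h2, h3⟩ := exists_pi hF
  obtain ⟨β, b1, b2⟩ := H62.E8Form.jobForm
  have o : ∀ (g a : S13) (p : ℕ), p.Prime → (g ^ p = 1 ∨ g ^ p = -1) → a * g ≠ g * a →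
      orderOf (ψ (π g)) = p := fun g a p hp e n => by
    have := Fact.mk hp
    rw [orderOf_injective ψ hψ]
    refine orderOf_eq_prime ?_ fun k => n (h3 g k a)
    rw [← map_pow]
    rcases e with e | e <;> rw [e]
    exacts [map_one _, h2]
  have k := m K3 V8 (ad.comp (ψ.comp π)) β
    (by rw [MonoidHom.comp_apply, MonoidHom.comp_apply, h2, map_one, map_one]) b1
    (fun g => b2 _) fun v hv => by
      by_contra v0
      obtain ⟨g, hg⟩ := h v v0
      obtain ⟨g, rfl⟩ := h1 g
      exact hg (hv g)
  have a := (d _).1 (o ez eu 2 (by norm_num) (by decide +kernel) (by decide +kernel))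
  have b := (d _).2.2.1 (o (ew * eb) eu 7 (by norm_num) (by decide +kernel) (by decide +kernel))
  have c := (d _).2.2.2 (o eu ez 13 (by norm_num) (by decide +kernel) (by decide +kernel))
  rw [finrank_ad] at k
  exact absurd ((add_le_add (add_le_add a (Nat.mul_le_mul_left 3 b)) c).trans k) (by norm_num)

end H20.E8G
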