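/- GAG tower (row S4841): `JobP3` and `JobA7`. -/
import Cfsg.Agent.H97.GaBas
import Cfsg.Agent.H33.SL2Syl

set_option autoImplicit false

open H97.Ga

universe u v

namespace H20.Ga

theorem sq_or_cube {m n : ℕ} (hm : 0 < m) (h : 3 ^ m - 1 ∣ 3 ^ n - 1) (h2 : (3 ^ m) ^ 2 ≤ 3 ^ n)
    (h3 : 3 ^ n ≤ (3 ^ m) ^ 3) : 3 ^ n = (3 ^ m) ^ 2 ∨ 3 ^ n = (3 ^ m) ^ 3 := by
  have g := Nat.pow_sub_one_gcd_pow_sub_one 3 m n
  rw [Nat.gcd_eq_left h] at g
  have e : m.gcd n = m := Nat.pow_right_injective (by norm_num : 2 ≤ 3) (by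
    have := Nat.one_le_pow m 3 (by norm_num)
    have := Nat.one_le_pow (m.gcd n) 3 (by norm_num)
    simp only; omega)
  obtain ⟨k, rfl⟩ := e ▸ Nat.gcd_dvd_right m n
  rw [← pow_mul, Nat.pow_le_pow_iff_right (by norm_num)] at h2 h3
  have := Nat.le_of_mul_le_mul_left h2 hm
  have := Nat.le_of_mul_le_mul_left h3 hm
  interval_cases k <;> simp [pow_mul]

theorem arith {w N s t k : ℕ} (hs : 0 < s) (he : Even s) (hw : w = 1 + 2 * s * t) (h1 : 1 < w)
    (hN : N = w ^ 2 ∨ N = w ^ 3) (hk : N - 1 = k * (w - 1)) :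
    (2 * k = (3 * s + 1) * (3 * s + 2) → s = 4 ∧ N = 729) ∧
    (2 * k + 9 * s = 9 * s ^ 2 + 2 → s = 2 ∧ N = 81) := by
  have ht : 0 < t := Nat.pos_of_ne_zero fun e => by simp [e] at hw; omega
  obtain ⟨x, rfl⟩ : ∃ x, w = x + 1 := ⟨w - 1, by omega⟩
  have hx : x = 2 * s * t := by omega
  rw [Nat.add_sub_cancel] at hk
  obtain ⟨r, rfl⟩ := he
  have d4 : ∀ {a b : ℕ}, 4 + (r + r) * a = (r + r) * b → r = 1 ∨ r = 2 := fun {a b} e => by
    have : r + r ∣ 4 := (Nat.dvd_add_left (dvd_mul_right _ a)).1 (e ▸ dvd_mul_right _ b)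
    have := Nat.le_of_dvd (by norm_num) this
    omega
  rcases hN with rfl | rfl
  · have e : k = x + 2 := Nat.eq_of_mul_eq_mul_right (m := x) (by omega) (by
      rw [← hk]; exact Nat.sub_eq_of_eq_add (by ring))
    subst e
    have d2 : ∀ {a b : ℕ}, 2 + (r + r) * a = (r + r) * b → r = 1 := fun {a b} e => by
      have : r + r ∣ 2 := (Nat.dvd_add_left (dvd_mul_right _ a)).1 (e ▸ dvd_mul_right _ b)
      have := Nat.le_of_dvd (by norm_num) this
      omega
    refine ⟨fun h => ?_, fun h => ?_⟩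
    · obtain rfl := d2 (a := 4 * t) (b := 9 * (r + r) + 9) (by subst hx; nlinarith)
      omega
    · obtain rfl := d2 (a := 4 * t + 9) (b := 9 * (r + r)) (by subst hx; nlinarith)
      obtain rfl : x = 8 := by omega
      simp
  · have e : k = x ^ 2 + 3 * x + 3 := Nat.eq_of_mul_eq_mul_right (m := x) (by omega) (by
      rw [← hk]; exact Nat.sub_eq_of_eq_add (by ring))
    subst e
    have t1 : 2 * (x ^ 2 + 3 * x + 3) ≤ (3 * (r + r) + 1) * (3 * (r + r) + 2) → t = 1 := fun h => by
      by_contra q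
      have : 4 * (r + r) ≤ x := by subst hx; nlinarith [show 2 ≤ t by omega]
      nlinarith
    refine ⟨fun h => ?_, fun h => ?_⟩
    · obtain rfl := t1 h.le
      subst hx
      rcases d4 (a := 3) (b := r + r) (by nlinarith) with rfl | rfl <;> simp at h ⊢
    · obtain rfl := t1 (by nlinarith)
      subst hx
      rcases d4 (a := 21) (b := r + r) (by nlinarith) with rfl | rfl <;> simp at h

theorem jobP3 (hS : JobSyl3) : JobP3.{v} := by
  intro F _ _ V _ _ _ _ ρ hi h ho h3
  have : Fact (Nat.Prime 3) := ⟨Nat.prime_three⟩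
  obtain ⟨U⟩ : Nonempty (Sylow 3 (SL2 F)) := inferInstance
  obtain ⟨cy, ti, n1, n2⟩ := hS F ho h3 U
  have hc : Nat.card (SL2 F) = _ := H33.card_sl2_eq (F := F)
  have q1 : 1 < Fintype.card F := Fintype.one_lt_card
  generalize Fintype.card F = q at *
  have hU : Nat.card (U : Subgroup (SL2 F)) = 3 := by
    obtain ⟨g, hg⟩ := cy.exists_ofOrder_eq_natCard
    have g3 : g ^ 3 = 1 := by
      by_contra g3
      have k : ∀ v, ((ρ g - 1) ^ 3 : Module.End (ZMod 3) V) v = 0 → (ρ g - 1) v = 0 := fun v e => by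
        by_cases hv : v = 0
        · simp [hv]
        rw [sub_one_pow_char, LinearMap.sub_apply, sub_eq_zero] at e
        obtain ⟨P, hP⟩ := h v hv
        obtain rfl := ti P fun q => g3 (Subtype.ext (Subgroup.mem_bot.1
          (q ▸ Subgroup.mem_inf.2 ⟨(g ^ 3).2, (hP _).1 e⟩)))
        rw [LinearMap.sub_apply, (hP g).2 g.2]; simp
      have k' : ∀ (j : ℕ) v, ((ρ g - 1) ^ j : Module.End (ZMod 3) V) v = 0 → (ρ g - 1) v = 0 := fun j => by
        induction j with
        | zero => intro v e; simp at e; simp [e]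
        | succ j ih =>
          intro v e
          refine k v ?_
          rw [pow_succ, Module.End.mul_apply] at e
          rw [pow_succ, pow_succ, pow_one, Module.End.mul_apply, Module.End.mul_apply, ih _ e, map_zero]
      have p : ∀ j : ℕ, (ρ g - 1) ^ 3 ^ j = ρ (g ^ 3 ^ j) - 1 := fun j => by
        induction j with
        | zero => simp
        | succ j ih => rw [pow_succ, pow_mul, ih, sub_one_pow_char, pow_mul]
      obtain ⟨j, hj⟩ := U.isPGroup' g
      have : ρ g = ρ 1 := LinearMap.ext fun v => by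
        have := k' (3 ^ j) v (by rw [p, ← Subgroup.coe_pow, hj]; simp)
        rw [LinearMap.sub_apply, sub_eq_zero] at this
        simpa using this
      exact g3 (by rw [show g = 1 from Subtype.ext (hi this), one_pow])
    rcases (Nat.dvd_prime Nat.prime_three).1 (hg ▸ orderOf_dvd_of_pow_eq_one g3) with e | e
    · have := U.not_dvd_index
      rw [← mul_one (U : Subgroup (SL2 F)).index, ← e, Subgroup.index_mul_card, hc] at this
      refine absurd ?_ this
      rcases (show q % 3 = 1 ∨ q % 3 = 2 by omega) with e | e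
      · exact Dvd.dvd.mul_right (by omega) _
      · exact Dvd.dvd.mul_left (Dvd.dvd.mul_left (by omega) _) _
    · exact e
  obtain ⟨⟨m, n, hm, hw, hV⟩, c1, c2, -, c4, c5⟩ := jobCount 3 ρ h U _ rfl
  generalize Nat.card {v : V // ∀ g ∈ (U : Subgroup (SL2 F)), ρ g v = v} = w at *
  have i1 := (Subgroup.normalizer ((U : Subgroup (SL2 F)) : Set (SL2 F))).index_mul_card
  rw [← show _ = (Subgroup.normalizer ((U : Subgroup (SL2 F)) : Set (SL2 F))).index from
    U.card_eq_index_normalizer, hc] at i1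
  have i2 : (U : Subgroup (SL2 F)).relIndex (Subgroup.normalizer ((U : Subgroup (SL2 F)) : Set (SL2 F))) * 3 =
      Nat.card (Subgroup.normalizer ((U : Subgroup (SL2 F)) : Set (SL2 F))) := by
    refine Eq.trans ?_ (Subgroup.index_mul_card ((U : Subgroup (SL2 F)).subgroupOf _))
    rw [Nat.card_congr (Subgroup.subgroupOfEquivOfLe Subgroup.le_normalizer).toEquiv, hU]
    rfl
  generalize Nat.card (Sylow 3 (SL2 F)) = k at *
  have w1 : 1 < w := hw ▸ Nat.one_lt_pow hm.ne' (by norm_num)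
  have hN : k ≠ 1 → Nat.card V = w ^ 2 ∨ Nat.card V = w ^ 3 := fun k1 => by
    have a := c2 k1
    have b := c5 hU
    have d : w - 1 ∣ Nat.card V - 1 := c1 ▸ dvd_mul_left _ _
    rw [hw, hV] at *
    exact sq_or_cube hm d a b
  obtain ⟨r, hr⟩ := ho
  rcases (show q % 3 = 1 ∨ q % 3 = 2 by omega) with e | e
  · obtain ⟨s, rfl⟩ : ∃ s, q = 3 * s + 1 := ⟨q / 3, by omega⟩
    rw [n1 e, Nat.add_sub_cancel] at i1 i2
    rw [show (U : Subgroup (SL2 F)).relIndex _ = 2 * s by omega] at c4
    obtain ⟨t, ht⟩ := c4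
    have i3 : 2 * k = (3 * s + 1) * (3 * s + 2) :=
      Nat.eq_of_mul_eq_mul_left (show 0 < 3 * s by omega) (by linarith)
    obtain ⟨rfl, e'⟩ := (arith (s := s) (t := t) (by omega) ⟨s / 2, by omega⟩ (by omega) w1
      (hN fun e => by subst e; nlinarith [show 1 ≤ s by omega]) c1).1 i3
    exact .inr ⟨rfl, e'⟩
  · obtain ⟨s, rfl⟩ : ∃ s, q = 3 * s + 2 := ⟨q / 3, by omega⟩
    rw [n2 e, show 3 * s + 2 - 1 = 3 * s + 1 by omega] at i1
    rw [n2 e] at i2
    rw [show (U : Subgroup (SL2 F)).relIndex _ = 2 * (s + 1) by omega] at c4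
    obtain ⟨t, ht⟩ := c4
    have i3 : 2 * k = (3 * s + 1) * (3 * s + 2) :=
      Nat.eq_of_mul_eq_mul_left (show 0 < 3 * s + 3 by omega) (by linarith)
    obtain ⟨e', e⟩ := (arith (s := s + 1) (t := t) (by omega) ⟨(s + 1) / 2, by omega⟩ (by omega) w1
      (hN fun e => by subst e; nlinarith [show 1 ≤ s by omega]) c1).2 (by rw [i3]; ring)
    exact .inl ⟨by omega, e⟩

theorem pow_three {σ : Equiv.Perm (Fin 7)} (h : σ ^ 9 = 1) : σ ^ 3 = 1 := by
  rw [← orderOf_dvd_iff_pow_eq_one] at h ⊢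
  rw [← Equiv.Perm.lcm_cycleType, Multiset.lcm_dvd]
  intro n hn
  have h1 := (Equiv.Perm.dvd_of_mem_cycleType hn).trans h
  have h2 := (Equiv.Perm.le_card_support_of_mem_cycleType hn).trans (Finset.card_le_univ _)
  simp only [Fintype.card_fin] at h2
  interval_cases n <;> simp_all

theorem jobA7 : JobA7.{u, v} := by
  rintro p hp X _ _ V _ _ _ _ ρ p2 h ⟨hz, ⟨e⟩, -⟩
  have : Fact (Nat.Prime 3) := ⟨Nat.prime_three⟩
  have cA : Nat.card (alternatingGroup (Fin 7)) = 2520 := by
    have := two_mul_nat_card_alternatingGroup (α := Fin 7)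
    rw [Nat.card_perm, Nat.card_fin, show Nat.factorial 7 = 5040 from rfl] at this
    omega
  have cX : Nat.card X = 5040 := by
    rw [Subgroup.card_eq_card_quotient_mul_card_subgroup (Subgroup.center X), hz, Nat.card_congr e.toEquiv, cA]
  let π : X →* alternatingGroup (Fin 7) := e.toMonoidHom.comp (QuotientGroup.mk' _)
  have ker : ∀ x, π x = 1 → x ^ 2 = 1 := fun x hx => by
    have : x ∈ Subgroup.center X := (QuotientGroup.eq_one_iff x).1 ((map_eq_one_iff e e.injective).1 hx)
    exact congrArg Subtype.val (hz ▸ pow_card_eq_one' (x := (⟨x, this⟩ : Subgroup.center X)))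
  obtain ⟨U⟩ : Nonempty (Sylow 3 X) := inferInstance
  have cU : Nat.card (U : Subgroup X) = 9 := by
    rw [U.card_eq_multiplicity, cX, show 5040 = 3 ^ 2 * 560 by norm_num,
      Nat.factorization_mul (by norm_num) (by norm_num), Nat.Prime.factorization_pow Nat.prime_three]
    simp [Nat.factorization_eq_zero_of_not_dvd]
  by_cases p3 : p = 3
  · subst p3
    have iU : (U : Subgroup X).index = 560 := by
      have := (U : Subgroup X).index_mul_card
      rw [cU, cX] at this
      omega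
    obtain ⟨⟨m, n, hm, hw, hV⟩, c1, c2, c3, -⟩ := jobCount 3 ρ h U _ rfl
    generalize Nat.card {v : V // ∀ g ∈ (U : Subgroup X), ρ g v = v} = w at *
    have k1 : Nat.card (Sylow 3 X) ≠ 1 := fun k => by
      have := (Nat.card_eq_one_iff_unique.1 k).1
      have nU := U.normal_of_subsingleton
      have : IsSimpleGroup (alternatingGroup (Fin 7)) := alternatingGroup.isSimpleGroup (by simp)
      rcases (Subgroup.Normal.map nU π (e.surjective.comp (QuotientGroup.mk'_surjective _))).eq_bot_or_eq_top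
        with q | q
      · have : Nontrivial (U : Subgroup X) := by rw [← Finite.one_lt_card_iff_nontrivial]; omega
        obtain ⟨g, hg⟩ := exists_ne (1 : (U : Subgroup X))
        have h2 : g ^ 2 = 1 := Subtype.ext (ker g (Subgroup.mem_bot.1 (q ▸ ⟨g, g.2, rfl⟩)))
        have h9 : g ^ 9 = 1 := cU ▸ pow_card_eq_one'
        exact hg (by rw [show 9 = 2 * 4 + 1 by norm_num, pow_succ, pow_mul, h2] at h9; simpa using h9)
      · have := Subgroup.card_dvd_of_surjective _ (π.subgroupMap_surjective U)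
        rw [q, Subgroup.card_top, cA, cU] at this
        omega
    have k2 := Nat.le_of_dvd (by norm_num) (iU ▸ U.card_dvd_index)
    have c := c2 k1
    have w1 : 1 < w := hw ▸ Nat.one_lt_pow hm.ne' (by norm_num)
    have V1 := Finite.one_lt_card (α := V)
    generalize Nat.card (Sylow 3 X) = k at *
    obtain ⟨x, rfl⟩ : ∃ x, w = x + 1 := ⟨w - 1, by omega⟩
    rw [Nat.add_sub_cancel] at c1
    have x1 : x + 2 ≤ k := Nat.le_of_mul_le_mul_right (c := x) (by rw [← c1]; nlinarith [Nat.sub_add_cancel V1.le])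
      (by omega)
    have : Nat.card V < 3 ^ 12 := by
      have : k * x ≤ 560 * 558 := Nat.mul_le_mul k2 (by omega)
      omega
    rw [hV, Nat.pow_lt_pow_iff_right (by norm_num)] at this
    rw [iU, hV] at c3
    rw [hV] at V1
    interval_cases n <;> simp at c3 V1
  · obtain ⟨g, hg⟩ := (h.fp.isCyclic (by norm_num) (Ne.symm p3) U.isPGroup').exists_ofOrder_eq_natCard
    rw [cU] at hg
    have h9 : (g : X) ^ 9 = 1 := by rw [← Subgroup.coe_pow, ← hg, pow_orderOf_eq_one]; rfl
    have h6 := ker ((g : X) ^ 3) (Subtype.ext (by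
      rw [map_pow]; exact pow_three (by rw [← Subgroup.coe_pow, ← map_pow, h9, map_one]; rfl)))
    rw [← pow_mul, ← Subgroup.coe_pow, OneMemClass.coe_eq_one, ← orderOf_dvd_iff_pow_eq_one, hg] at h6
    omega

end H20.Ga
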