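import Cfsg.Agent.H42.IVSpec

/-! Tower IV: the arithmetic of the exponent bound. -/

set_option autoImplicit false

namespace H20.IVGood

open H42.IV

theorem jobGood : JobGood := by
  intro h t hh r s hs h1 h2
  have hE : 2 * h < 2 ^ (Nat.log 2 (2 * h) + 1) := Nat.lt_pow_succ_log_self (by norm_num) _
  unfold kap
  generalize Nat.log 2 (2 * h) = E at hE ⊢
  have h3 : 2 ^ (r + 1) < 2 ^ (E + 1) :=
    lt_of_le_of_lt ((Nat.le_mul_of_pos_right _ hs).trans h1) hE
  have h4 : r + 1 ≤ E := by
    have := (Nat.pow_lt_pow_iff_right (by norm_num : 1 < 2)).1 h3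
    omega
  obtain ⟨j, rfl⟩ := Nat.exists_eq_add_of_le h4
  have h5 : s < 2 ^ (j + 1) := by
    have := lt_of_le_of_lt h1 hE
    rw [add_assoc (r + 1), pow_add 2 (r + 1)] at this
    exact lt_of_mul_lt_mul_left this (Nat.zero_le _)
  have h6 : r + s ≤ t := by nlinarith
  split_ifs with c
  · rcases le_total t (r + 1 + j) with d | d
    · rw [min_eq_left d]
      have := Nat.lt_two_pow_self (n := t - (r + 1))
      constructor <;> omega
    · rw [min_eq_right d, Nat.add_sub_cancel_left]
      refine ⟨by omega, ?_⟩
      by_contra e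
      rcases j with _ | j
      · have : 1 < s := by simpa using e
        nlinarith
      · have h7 := Nat.lt_two_pow_self (n := j)
        rw [pow_succ] at e
        have : 2 * j + 3 ≤ s := by omega
        nlinarith
  · rw [add_assoc (r + 1), Nat.add_sub_cancel_left]
    exact ⟨by omega, h5.le⟩

end H20.IVGood
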