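import Cfsg.Agent.H86.M8.Def
import Cfsg.Agent.H56.OmegaFin
import Cfsg.Agent.H58.QStd
import Cfsg.Agent.H55.Basic

/-! Row S3384, part M: slot ISO. -/

set_option autoImplicit false

namespace H20.O84Iso
open H6 (F4)
open H56 H58 H86.M8 QuadraticMap Subgroup

/-- `(x, y) ↦ (x, x, y, y)` -/
def dbl : (E × E) →ₗ[F4] V where
  toFun p := ![p.1, p.1, p.2, p.2]
  map_add' p q := funext fun k => by fin_cases k <;> rfl
  map_smul' c p := funext fun k => by fin_cases k <;> rfl

theorem dbl_inj : Function.Injective dbl := fun _ _ h =>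
  Prod.ext (congrFun h 0) (congrFun h 2)

theorem isPlus : IsPlus Q := by
  refine ⟨LinearMap.range dbl, ?_, ?_⟩
  · rw [LinearMap.finrank_range_of_inj dbl_inj, finrank_V]
    simp [Module.finrank_prod, QuadraticAlgebra.finrank_eq_two]
  · rintro _ ⟨p, rfl⟩
    rw [Q_apply, Fin.sum_univ_four]
    change nr p.1 + nr p.1 + nr p.2 + nr p.2 = 0
    rw [H6.F4.add_self, zero_add, H6.F4.add_self]

theorem card_center : Nat.card (Subgroup.center (commutator (O Q))) = 1 := by
  have h3 : 3 ≤ Module.finrank F4 V := by rw [finrank_V]; decide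
  rw [card_center_of_EG_le nd h3 (H58.exists_singular_of_three_le Q h3)
    (commutator_eq_EG_fin nd nexc h3).ge, if_neg]
  exact fun h => h.1 (by rw [← one_add_one_eq_two, H6.F4.add_self])

theorem jISO : ISO := by
  constructor
  · have h := isSimpleGroup_pOmega_of_five_le nd (by rw [finrank_V]; decide)
    have hc : Subgroup.center (commutator (O Q)) = ⊥ := card_eq_one.1 card_center
    exact ((QuotientGroup.quotientMulEquivOfEq hc).trans QuotientGroup.quotientBot).symm.isSimpleGroup
  · obtain ⟨g, hg⟩ := isPlus.exists_equiv nd (m := 4) finrank_V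
    exact ⟨(omegaEquiv _ (coe_qPlus 4 F4)).trans (H55.commutatorCongr (O.congr g hg))⟩

end H20.O84Iso
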