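import Cfsg.Agent.H98.CharP
import Cfsg.Agent.H98.Norm
import Cfsg.Agent.H12.Thompson

/-! Maximal `p`-local subgroups, maximal intersections, primitive pairs, the functor `jHat`. -/

set_option autoImplicit false

namespace H20
open Cfsg Subgroup H98

universe u

section MaxLocal
variable {G : Type*} [Group G] {p : ℕ}

theorem isPLocal_normalizer {T : Subgroup G} (hT : IsPGroup p T) (h : T ≠ ⊥) :
    IsPLocal p (normalizer (T : Set G)) := ⟨T, hT, h, rfl⟩

theorem exists_maxLoc_ge [Finite G] {L : Subgroup G} (hL : IsPLocal p L) :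
    ∃ M, IsMaximalPLocal p M ∧ L ≤ M := by
  obtain ⟨M, hM, hmax⟩ := Set.Finite.exists_le_maximal (s := {N : Subgroup G | IsPLocal p N})
    (Set.toFinite _) hL
  exact ⟨M, ⟨hmax.1, fun N hN h => le_antisymm (hmax.2 hN h) h⟩, hM⟩

theorem isPLocal_cj {L : Subgroup G} (hL : IsPLocal p L) (g : G) : IsPLocal p (cj g L) := by
  obtain ⟨T, hT, h0, rfl⟩ := hL
  exact ⟨cj g T, isPGroup_cj g hT, fun h => h0 (cj_eq_bot_iff.1 h), cj_normalizer g T⟩

theorem maxLoc_cj {M : Subgroup G} (hM : IsMaximalPLocal p M) (g : G) :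
    IsMaximalPLocal p (cj g M) := by
  refine ⟨isPLocal_cj hM.1 g, fun N hN h => ?_⟩
  have := hM.2 _ (isPLocal_cj hN g⁻¹) (cj_le_iff.1 h)
  rw [← this, cj_cj_inv]

theorem isPLocal_pCoreOf_ne_bot {L : Subgroup G} (hL : IsPLocal p L) : pCoreOf p L ≠ ⊥ := by
  obtain ⟨T, hT, h0, rfl⟩ := hL
  exact fun h => h0 (eq_bot_iff.2 (h ▸ le_pCoreOf hT le_normalizer le_rfl))

theorem maxLoc_normalizer_eq {M A : Subgroup G} (hM : IsMaximalPLocal p M) (hA : IsPGroup p A)
    (h0 : A ≠ ⊥) (hn : M ≤ normalizer (A : Set G)) : normalizer (A : Set G) = M :=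
  hM.2 _ (isPLocal_normalizer hA h0) hn

theorem maxLoc_normalizer_self {M : Subgroup G} (hM : IsMaximalPLocal p M) :
    normalizer (M : Set G) = M := by
  refine le_antisymm ?_ le_normalizer
  refine (normalizer_le_normalizer_pCoreOf (p := p) M).trans (le_of_eq ?_)
  exact maxLoc_normalizer_eq hM (isPGroup_pCoreOf M) (isPLocal_pCoreOf_ne_bot hM.1)
    (self_le_normalizer_pCoreOf M)

theorem maxLoc_cj_ne {M : Subgroup G} (hM : IsMaximalPLocal p M) {g : G} (hg : g ∉ M) :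
    cj g M ≠ M := fun h => hg (maxLoc_normalizer_self hM ▸ cj_eq_self_iff.1 h)

theorem isPLocal_ne_top {L : Subgroup G} (hL : IsPLocal p L) (hO : pCore p G = ⊥) : L ≠ ⊤ := by
  rintro rfl
  exact isPLocal_pCoreOf_ne_bot hL (pCoreOf_top.trans hO)

theorem isPLocal_dvd_card [Finite G] [Fact p.Prime] {L : Subgroup G} (hL : IsPLocal p L) :
    p ∣ Nat.card L := by
  obtain ⟨T, hT⟩ := exists_isSyl p L
  by_contra h
  exact isPLocal_pCoreOf_ne_bot hL (eq_bot_iff.2 (hT.eq_bot_iff.2 h ▸ hT.pCoreOf_le))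

/-- The maximal intersection argument: two distinct maximal `p`-local subgroups with a common
Sylow `p`-subgroup that is as large as possible. -/
theorem exists_maxLoc_common_syl [Finite G] [Fact p.Prime] {L₁ L₂ : Subgroup G}
    (h₁ : IsMaximalPLocal p L₁) (h₂ : IsMaximalPLocal p L₂) (hne : L₁ ≠ L₂)
    (hd : p ∣ Nat.card ↥(L₁ ⊓ L₂)) :
    ∃ M₁ M₂ T : Subgroup G, IsMaximalPLocal p M₁ ∧ IsMaximalPLocal p M₂ ∧ M₁ ≠ M₂ ∧ T ≠ ⊥ ∧
      IsSyl p T M₁ ∧ IsSyl p T M₂ ∧
      ∀ N₁ N₂ Q : Subgroup G, IsMaximalPLocal p N₁ → IsMaximalPLocal p N₂ → IsPGroup p Q →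
        Q ≤ N₁ → Q ≤ N₂ → Nat.card T < Nat.card Q → N₁ = N₂ := by
  classical
  let 𝒮 : Set (Subgroup G) := {T | IsPGroup p T ∧ ∃ N₁ N₂ : Subgroup G, IsMaximalPLocal p N₁ ∧
    IsMaximalPLocal p N₂ ∧ N₁ ≠ N₂ ∧ T ≤ N₁ ∧ T ≤ N₂}
  obtain ⟨R, hR⟩ := exists_isSyl p (L₁ ⊓ L₂)
  have hR𝒮 : R ∈ 𝒮 := ⟨hR.isPGroup, L₁, L₂, h₁, h₂, hne, hR.le.trans inf_le_left,
    hR.le.trans inf_le_right⟩
  obtain ⟨T, ⟨hT, M₁, M₂, hM₁, hM₂, hM, hT₁, hT₂⟩, hmax⟩ :=
    Set.Finite.exists_maximalFor (fun T : Subgroup G => Nat.card T) 𝒮 (Set.toFinite _) ⟨R, hR𝒮⟩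
  have key : ∀ N₁ N₂ Q : Subgroup G, IsMaximalPLocal p N₁ → IsMaximalPLocal p N₂ →
      IsPGroup p Q → Q ≤ N₁ → Q ≤ N₂ → Nat.card T < Nat.card Q → N₁ = N₂ := by
    intro N₁ N₂ Q a b c d e f
    by_contra g
    exact absurd (hmax ⟨c, N₁, N₂, a, b, g, d, e⟩ f.le) (not_le.2 f)
  have hT0 : T ≠ ⊥ := by
    rintro rfl
    have hR0 : R ≠ ⊥ := fun h => (hR.eq_bot_iff.1 h) hd
    refine hne (key L₁ L₂ R h₁ h₂ hR.isPGroup (hR.le.trans inf_le_left)
      (hR.le.trans inf_le_right) ?_)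
    rw [card_bot]
    exact (one_lt_card_iff_ne_bot R).2 hR0
  -- `T` is Sylow in every maximal local `M ⊇ T` with `M ⊓ N(T)` inside another maximal local
  have syl : ∀ M U : Subgroup G, IsMaximalPLocal p M → IsMaximalPLocal p U → M ≠ U → T ≤ M →
      M ⊓ normalizer (T : Set G) ≤ U → IsSyl p T M := by
    intro M U hM hU hMU hTM hle
    refine isSyl_of_isSyl_normalizer ?_
    obtain ⟨Q, hQ, hTQ⟩ := exists_isSyl_le hT (le_inf hTM le_normalizer)
    have : T = Q := by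
      refine eq_of_le_of_card_ge hTQ (not_lt.1 fun h => hMU ?_)
      exact key M U Q hM hU hQ.isPGroup (hQ.le.trans inf_le_left) (hQ.le.trans hle) h
    exact this ▸ hQ
  obtain ⟨U, hU, hTU⟩ := exists_maxLoc_ge (isPLocal_normalizer hT hT0)
  have main : ∀ M₁ M₂ : Subgroup G, IsMaximalPLocal p M₁ → IsMaximalPLocal p M₂ → M₁ ≠ M₂ →
      T ≤ M₁ → T ≤ M₂ → M₂ ≠ U → ∃ M₁ M₂ : Subgroup G, IsMaximalPLocal p M₁ ∧
      IsMaximalPLocal p M₂ ∧ M₁ ≠ M₂ ∧ IsSyl p T M₁ ∧ IsSyl p T M₂ := by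
    intro M₁ M₂ hM₁ hM₂ hM hT₁ hT₂ hU₂
    have s₂ := syl M₂ U hM₂ hU hU₂ hT₂ (inf_le_right.trans hTU)
    by_cases hN : normalizer (T : Set G) ≤ M₂
    · exact ⟨M₁, M₂, hM₁, hM₂, hM, syl M₁ M₂ hM₁ hM₂ hM hT₁ (inf_le_right.trans hN), s₂⟩
    · obtain ⟨g, hg, hg₂⟩ := SetLike.not_le_iff_exists.1 hN
      refine ⟨cj g M₂, M₂, maxLoc_cj hM₂ g, hM₂, maxLoc_cj_ne hM₂ hg₂, ?_, s₂⟩
      have := s₂.cj g
      rwa [cj_eq_self hg] at this
  by_cases hU₂ : M₂ = U
  · obtain ⟨A, B, a, b, c, d, e⟩ := main M₂ M₁ hM₂ hM₁ (Ne.symm hM) hT₂ hT₁ (hU₂ ▸ hM)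
    exact ⟨A, B, T, a, b, c, hT0, d, e, key⟩
  · obtain ⟨A, B, a, b, c, d, e⟩ := main M₁ M₂ hM₁ hM₂ hM hT₁ hT₂ hU₂
    exact ⟨A, B, T, a, b, c, hT0, d, e, key⟩

/-- A maximal `p`-local subgroup of characteristic `p` is primitive. -/
theorem maxLoc_normalizer_eq_of_charP [Finite G] [Fact p.Prime] {M A : Subgroup G}
    (hM : IsMaximalPLocal p M) (hc : CharP p M) (hA : A ≤ M) (h0 : A ≠ ⊥)
    (hn : M ≤ normalizer (A : Set G)) : normalizer (A : Set G) = M := by
  refine le_antisymm ((normalizer_le_normalizer_pCoreOf (p := p) A).trans (le_of_eq ?_)) hn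
  exact maxLoc_normalizer_eq hM (isPGroup_pCoreOf A) ((hc.normal hA hn).pCoreOf_ne_bot h0)
    (le_normalizer_pCoreOf hn)

end MaxLocal

section JHat
variable {T T' : Type*} [Group T] [Group T']

theorem isEGroup_of_mulEquiv (e : T ≃* T') (h : IsEGroup T) : IsEGroup T' := by
  intro V hVn hVe hP
  have hi : Function.Injective (e : T →* T') := e.injective
  obtain ⟨V, rfl⟩ : ∃ W : Subgroup T, W.map (e : T →* T') = V :=
    ⟨V.comap (e : T →* T'), map_comap_eq_self_of_surjective e.surjective V⟩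
  have hc : ∀ A : Subgroup T, Nat.card (A.map (e : T →* T')) = Nat.card A := fun A =>
    card_map_of_injective hi
  have hn : V.Normal := by
    rw [← comap_map_eq_self_of_injective hi V]; exact hVn.comap _
  have := h V hn ((H12.ea_map_iff _ hi).1 hVe) fun R h1 h2 h3 => by
    have := hP (R.map (e : T →* T')) (by rw [← map_commutator]; exact map_le_centralizer_map _ h1)
      (by
        rintro _ ⟨r, hr, rfl⟩
        rw [← map_pow]
        exact map_le_centralizer_map (e : T →* T') (le_refl (centralizer (V : Set T)))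
          ⟨_, h2 r hr, rfl⟩)
      (fun h4 => h3 (by
        have h5 := map_inf_centralizer hi R V
        rw [inf_eq_left.2 h4] at h5
        exact inf_eq_left.1 (map_injective hi h5)))
    rwa [← map_inf_centralizer hi, ← map_inf_centralizer hi, ← map_commutator, hc, hc, hc, hc,
      hc] at this
  rintro _ ⟨v, hv, rfl⟩
  rw [mem_center_iff]
  intro g
  obtain ⟨g, rfl⟩ := e.surjective g
  have h1 := mem_center_iff.1 (this hv) g
  simpa using congrArg e h1

theorem map_jHat_le (e : T ≃* T') : (jHat T).map (e : T →* T') ≤ jHat T' := by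
  rw [map_le_iff_le_comap]
  refine sSup_le fun U hU => map_le_iff_le_comap.1 (le_sSup ⟨?_, ?_⟩)
  · exact isEGroup_of_mulEquiv (U.equivMapOfInjective (e : T →* T') e.injective) hU.1
  · have := H12.map_thompsonSubgroup (p := 2) (e : T →* T') e.injective
    rw [MonoidHom.range_eq_top.2 e.surjective, H12.thompsonSubgroupOf_top] at this
    rw [← this]
    exact map_mono hU.2

theorem map_jHat (e : T ≃* T') : (jHat T).map (e : T →* T') = jHat T' := by
  refine le_antisymm (map_jHat_le e) fun x hx => ⟨e.symm x, ?_, by simp⟩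
  exact map_jHat_le e.symm ⟨x, hx, rfl⟩

variable {G G' : Type*} [Group G] [Group G']

/-- `jHat` of a subgroup, inside the ambient group. -/
abbrev jh (S : Subgroup G) : Subgroup G := (jHat S).map S.subtype

theorem map_jh {f : G →* G'} (hf : Function.Injective f) (S : Subgroup G) :
    (jh S).map f = jh (S.map f) := by
  rw [jh, jh, ← map_jHat (S.equivMapOfInjective f hf), map_map, map_map]
  congr 1

theorem jh_le (S : Subgroup G) : jh S ≤ S := map_subtype_le _

theorem normalizer_le_normalizer_jh (S : Subgroup G) :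
    normalizer (S : Set G) ≤ normalizer (jh S : Set G) := fun g hg => by
  rw [← cj_eq_self_iff, cj, map_jh (MulAut.conj g).injective]
  exact congrArg jh (cj_eq_self hg)

/-- The Thompson subgroup is an E-group. -/
theorem isEGroup_of_thompson_eq_top [Finite T] (h : thompsonSubgroup 2 T = ⊤) : IsEGroup T := by
  intro V hVn hVe hP
  rw [← centralizer_top', le_centralizer_iff, ← h, H12.thompsonSubgroup_eq]
  refine sSup_le fun A hA => ?_
  by_contra hAV
  have hAe : IsElementaryAbelian 2 A := hA.2.1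
  have h1 := (hP A (by
      rw [(commutator_eq_bot_iff_le_centralizer).2 (H12.ea_le_centralizer hAe)]; exact bot_le)
    (fun r hr => by rw [hAe.2 r hr]; exact one_mem _) hAV).1
  set C : Subgroup T := A ⊓ centralizer (V : Set T)
  set D : Subgroup T := V ⊓ centralizer (A : Set T)
  have h2 : Nat.card ↥(C ⊔ V) ≤ Nat.card A :=
    hA.2.2 _ le_top (H12.ea_sup (H12.ea_mono hAe inf_le_left) hVe inf_le_right)
  have h3 : Nat.card ↥(C ⊓ V) ≤ Nat.card D :=
    card_le_of_le (le_inf inf_le_right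
      (inf_le_left.trans (inf_le_left.trans (H12.ea_le_centralizer hAe))))
  have h4 : Nat.card ↥(C ⊔ V) * Nat.card ↥(C ⊓ V) = Nat.card C * Nat.card V := by
    have a := relIndex_sup_right (H := C) V
    have b := (V.subgroupOf (C ⊔ V)).card_mul_index
    have c := (V.subgroupOf C).card_mul_index
    rw [Nat.card_congr (subgroupOfEquivOfLe (le_sup_right : V ≤ C ⊔ V)).toEquiv] at b
    rw [← inf_subgroupOf_right, Nat.card_congr (subgroupOfEquivOfLe inf_le_right).toEquiv,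
      inf_subgroupOf_right, inf_comm] at c
    rw [relIndex, relIndex] at a
    rw [← b, ← c, a]; ring
  have h5 : Nat.card V * Nat.card C ≤ Nat.card A * Nat.card D := by
    rw [mul_comm, ← h4]; exact Nat.mul_le_mul h2 h3
  have h6 : Nat.card C ≤ Nat.card A := card_le_of_le inf_le_left
  have h7 := Nat.mul_le_mul (Nat.mul_le_mul h5 h5) h6
  nlinarith

theorem thompson_le_jh [Finite G] (S : Subgroup G) : thompsonSubgroupOf 2 S ≤ jh S := by
  refine map_mono (le_sSup ⟨isEGroup_of_thompson_eq_top ?_, le_rfl⟩)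
  apply map_injective (thompsonSubgroup 2 S).subtype_injective
  rw [map_subtype_top]
  have := H12.thompsonSubgroupOf_eq_of_le (p := 2) (P := (⊤ : Subgroup S))
    (Q := thompsonSubgroup 2 S) H12.thompsonSubgroupOf_top.le le_top
  rw [H12.thompsonSubgroupOf_top] at this
  exact this

end JHat

end H20
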