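import Cfsg.Agent.H52.RCSpec
import Cfsg.Agent.H1.Coprime2

/-! Tower RC: the balance lemma. -/

set_option autoImplicit false

namespace H20.RCBal

open H52.RC Subgroup

universe u

theorem jobBAL : JobBAL.{u} := by
  intro hKA hLZ G _ _ m L _ hSt v w y hv hw hCl hvw hW hyw
  obtain ⟨T, hTle, hT2, hTall⟩ := hCl
  have k5 := (hKA G).2.2.2.2.1
  have memT : ∀ t, t ∈ T ↔ t ∈ C1 w ∧ P2 t := fun t =>
    ⟨fun h => ⟨hTle h, (k5 T).1 hT2 t h⟩, fun h => hTall t h.1 h.2⟩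
  have nT : ∀ g ∈ normalizer (C1 w : Set G), g ∈ normalizer (T : Set G) := by
    intro g hg
    rw [mem_normalizer_iff] at hg ⊢
    intro h
    rw [memT, memT, ← hg h]
    refine and_congr_right fun _ => ⟨fun h2 => h2.conj g, fun h2 => ?_⟩
    have := h2.conj g⁻¹
    simpa [mul_assoc] using this
  have nv : v ∈ normalizer (T : Set G) :=
    nT v ((((hLZ G m L hSt).2.2.2 w hw).2.2.2.2.2.1 v hvw).2.2.2.1)
  have ny : y ∈ normalizer (T : Set G) := nT y (le_normalizer (mem_C1.2 hyw))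
  have hvy : Commute v y := hW.2 v hv (Commute.refl v)
  have hP : IsPGroup 2 (zpowers v) := by
    refine (k5 _).2 ?_
    intro g hg
    obtain ⟨k, rfl⟩ := (mem_powers_iff_mem_zpowers.2 hg)
    exact hv.pow k
  have hQ : (Nat.card (zpowers y)).Coprime 2 := by
    rw [Nat.card_zpowers]
    exact Nat.coprime_two_right.2 hW.1
  have cz : ∀ a b : G, Commute a b → a ∈ centralizer (zpowers b : Set G) := by
    intro a b h g hg
    obtain ⟨k, rfl⟩ := mem_zpowers_iff.1 hg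
    exact (h.symm.zpow_left k).eq
  have key := H1.thompson_pq hP hQ (zpowers_le_of_mem (cz v y hvy)) _ T rfl hT2
    (zpowers_le_of_mem nv) (zpowers_le_of_mem ny) (fun t ht => cz t y
      (hW.2 t ((memT t).1 ht.1).2 (ht.2 v (mem_zpowers v)).symm))
  exact ⟨hW.1, fun t ht htw => key (mem_zpowers y) t ((memT t).2 ⟨mem_C1.2 htw, ht⟩)⟩

theorem jobB4 : JobB4.{u} := by
  intro _ hLZ hBAL G _ _ m L _ hSt hCl P v x hBC c hcP hc hcv d hd hdv hdc
  have p2 : ∀ a, RG L a → P2 a := fun a ha => ((hLZ G m L hSt).2.2.2 a ha).1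
  have hvd : v ∈ Ct L d := by
    rw [mem_Ct, ← hdv.eq, mul_inv_cancel_right, mul_inv_cancel]
    exact one_mem _
  have hW := hBAL G m L hSt v d x (p2 v hBC.rg) hd (hCl d hd) hvd hBC.wv
    (hBC.wv.2 d (p2 d hd) hdv).symm
  exact hBC.x1 (eq_one_of_inv_comm (hBC.inv c hcP hcv) (hW.2 c (p2 c hc) hdc.symm) hW.1)

end H20.RCBal
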