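import Cfsg.Agent.H26.MinFinal
import Cfsg.Agent.H26.MinL1

/-! The four-dimensional orthogonal geometry of minus type: counting and transitivity. -/

set_option autoImplicit false

namespace H20.U4

open QuadraticMap H56 H60 Module Submodule Finset
open scoped Classical

variable {F V : Type*} [Field F] [AddCommGroup V] [Module F V] {Q : QuadraticForm F V}

/-- A four-dimensional subspace of minus type with a hyperbolic pair. -/
structure O4 (Q : QuadraticForm F V) (U : Submodule F V) (e f : V) : Prop where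
  nd : Nondeg Q U
  he : e ∈ U
  hf : f ∈ U
  hyp : IsHyp Q e f
  r4 : finrank F U = 4
  ts : ∀ z ∈ U, ∀ w ∈ U, Q z = 0 → Q w = 0 → polar Q z w = 0 → z ≠ 0 → ∃ c : F, w = c • z

theorem finrank_inf_ort_lt [FiniteDimensional F V] {W : Submodule F V} {a w : V} (hw : w ∈ W)
    (h : polar Q a w ≠ 0) : finrank F ↥(W ⊓ ort Q a) + 1 = finrank F W :=
  H26.finrank_inf_ort hw h

namespace O4

variable {U : Submodule F V} {e f : V} (h : O4 Q U e f)
include h

theorem symm : O4 Q U f e := ⟨h.nd, h.hf, h.he, h.hyp.symm, h.r4, h.ts⟩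

theorem an {w : V} (hw : w ∈ U ⊓ ort Q e ⊓ ort Q f) (h0 : Q w = 0) : w = 0 := by
  obtain ⟨c, rfl⟩ := h.ts e h.he w hw.1.1 h.hyp.qe h0 hw.1.2 h.hyp.ne_zero
  have := mem_ort.1 hw.2
  rw [polar_smul_right, h.hyp.fe, smul_eq_mul, mul_one] at this
  rw [this, zero_smul]

theorem ndP : Nondeg Q (U ⊓ ort Q e ⊓ ort Q f) :=
  h.nd.inf_ort_pair h.he h.hf h.hyp.qe h.hyp.qf h.hyp.ef

theorem Q_comb (a b : F) {w : V} (hw : w ∈ U ⊓ ort Q e ⊓ ort Q f) :
    Q (a • e + b • f + w) = a * b + Q w := by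
  rw [Q_add, h.hyp.Q_comb]
  simp [mem_ort.1 hw.1.2, mem_ort.1 hw.2]

theorem comb_inj {a b a' b' : F} {w w' : V} (hw : w ∈ U ⊓ ort Q e ⊓ ort Q f)
    (hw' : w' ∈ U ⊓ ort Q e ⊓ ort Q f) (he : a • e + b • f + w = a' • e + b' • f + w') :
    a = a' ∧ b = b' ∧ w = w' := by
  have h1 := congrArg (polar Q f) he
  have h2 := congrArg (polar Q e) he
  simp [mem_ort.1 hw.1.2, mem_ort.1 hw.2, mem_ort.1 hw'.1.2, mem_ort.1 hw'.2, h.hyp.ee, h.hyp.ff,
    h.hyp.ef, h.hyp.fe] at h1 h2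
  subst h1 h2
  exact ⟨rfl, rfl, add_left_cancel he⟩

theorem comb_mem (a b : F) {w : V} (hw : w ∈ U ⊓ ort Q e ⊓ ort Q f) : a • e + b • f + w ∈ U :=
  add_mem (add_mem (smul_mem _ _ h.he) (smul_mem _ _ h.hf)) hw.1.1

variable [FiniteDimensional F V]

theorem r2 : finrank F ↥(U ⊓ ort Q e ⊓ ort Q f) = 2 := by
  have a := finrank_inf_ort_lt (Q := Q) (a := e) h.hf (by simp [h.hyp.ef])
  have b := finrank_inf_ort_lt (Q := Q) (W := U ⊓ ort Q e) (a := f) (w := e)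
    ⟨h.he, mem_ort.2 h.hyp.ee⟩ (by simp [h.hyp.fe])
  have := h.r4
  omega

variable [Fintype F]

theorem surj (c : F) : ∃ w ∈ U ⊓ ort Q e ⊓ ort Q f, Q w = c := by
  have hn : e + (-c) • f ∉ U ⊓ ort Q e ⊓ ort Q f := fun hm => by
    simpa [h.hyp.fe, h.hyp.ff] using mem_ort.1 hm.2
  obtain ⟨z, hz, h0, hQ⟩ := exists_sing (Q := Q) ((U ⊓ ort Q e ⊓ ort Q f) ⊔ span F {e + (-c) • f})
    (by rw [H26.finrank_sup_singleton hn, h.r2])
  obtain ⟨w, hw, _, hy, rfl⟩ := mem_sup.1 hz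
  obtain ⟨g, rfl⟩ := mem_span_singleton.1 hy
  have h1 : Q (w + g • (e + (-c) • f)) = Q w - g * g * c := by
    rw [show w + g • (e + (-c) • f) = g • e + (-(g * c)) • f + w by module, h.Q_comb _ _ hw]
    ring
  have hg : g ≠ 0 := by
    rintro rfl
    exact h0 (by simpa using h.an hw (by simpa [h1] using hQ))
  refine ⟨g⁻¹ • w, smul_mem _ _ hw, ?_⟩
  rw [Q_smul, show Q w = g * g * c by linear_combination hQ - h1]
  field_simp

theorem step {a : V} (ha : a ∈ U) (h0 : polar Q f a ≠ 0) :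
    ∃ g ∈ EOin Q (U : Set V), polar Q e (g a) = 1 := by
  set α := polar Q f a with hα
  set u := a - α • e - polar Q e a • f with hu
  have huP : u ∈ U ⊓ ort Q e ⊓ ort Q f :=
    ⟨⟨sub_mem (sub_mem ha (smul_mem _ _ h.he)) (smul_mem _ _ h.hf), (h.hyp.polar_proj a).1⟩,
      (h.hyp.polar_proj a).2⟩
  obtain ⟨w, hw, hQ⟩ := h.surj ((polar Q e a - 1 + Q u / α) / α)
  have hw' : w + α⁻¹ • u ∈ U ⊓ ort Q e ⊓ ort Q f := add_mem hw (smul_mem _ _ huP)
  refine ⟨_, eich_mem_EOin h.hf hw'.1.1, ?_⟩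
  have h1 : polar Q (w + α⁻¹ • u) a = polar Q w u + α⁻¹ * (2 * Q u) := by
    rw [show a = u + α • e + polar Q e a • f by rw [hu]; abel]
    simp [pc (mem_ort.1 hw.1.2), pc (mem_ort.1 hw.2), pc (mem_ort.1 huP.1.2),
      pc (mem_ort.1 huP.2), two_mul, mul_add]
  rw [eich_apply h.hyp.qf (mem_ort.1 hw'.2), h1]
  simp only [polar_sub_right, polar_add_right, polar_smul_right, h.hyp.ef, smul_eq_mul, ← hα,
    mem_ort.1 hw.1.2, mem_ort.1 huP.1.2, Q_add, Q_smul, hQ]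
  field_simp
  ring

theorem trans {a : V} (ha : a ∈ U) (h0 : a ≠ 0) :
    ∃ g ∈ EOin Q (U : Set V), g a = Q a • e + f := by
  have k1 : ∀ a ∈ U, polar Q f a ≠ 0 → ∃ g ∈ EOin Q (U : Set V), g a = Q a • e + f := by
    intro a ha h0
    obtain ⟨g, hg, h1⟩ := h.step ha h0
    have hga : g a ∈ U := apply_mem_of_sstab (EOin_le_sstab U hg) ha
    have hb : Q a • e + f ∈ U := add_mem (smul_mem _ _ h.he) h.hf
    refine ⟨_ * g, mul_mem (eich_mem_EOin h.he
      (smul_mem _ (polar Q e (g a))⁻¹ (sub_mem hga hb))) hg, ?_⟩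
    rw [O.mul_apply]
    exact eich_apply_eq h.hyp.qe (by simpa using (h.hyp.Q_comb (Q a) 1).symm)
      (by simp [h1, h.hyp.ee, h.hyp.ef]) (by simp [h1])
  have k2 : ∃ g ∈ EOin Q (U : Set V), polar Q f (g a) ≠ 0 := by
    by_cases h1 : polar Q f a = 0
    swap
    · exact ⟨1, one_mem _, h1⟩
    by_cases h2 : polar Q e a = 0
    swap
    · obtain ⟨g, hg, h3⟩ := h.symm.step ha h2
      exact ⟨g, hg, by simp [h3]⟩
    obtain ⟨w, hw, h3⟩ := h.ndP.exists_polar_ne (x := a) ⟨⟨ha, h2⟩, h1⟩ h0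
    refine ⟨_, eich_mem_EOin h.he hw.1.1, ?_⟩
    rw [eich_apply_of_orth h.hyp.qe hw.1.2 h2]
    simpa [h1, h.hyp.fe, polar_comm Q w] using h3
  obtain ⟨g, hg, h1⟩ := k2
  obtain ⟨k, hk, h2⟩ := k1 _ (apply_mem_of_sstab (EOin_le_sstab U hg) ha) h1
  exact ⟨k * g, mul_mem hk hg, by rw [O.mul_apply, h2, O.map_Q]⟩

theorem trans2 {a b : V} (ha : a ∈ U) (hb : b ∈ U) (ha0 : a ≠ 0) (hb0 : b ≠ 0) (hab : Q a = Q b) :
    ∃ g ∈ EOin Q (U : Set V), g a = b := by
  obtain ⟨g, hg, h1⟩ := h.trans ha ha0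
  obtain ⟨k, hk, h2⟩ := h.trans hb hb0
  exact ⟨k⁻¹ * g, mul_mem (inv_mem hk) hg, by rw [O.mul_apply, h1, hab, ← h2, O.inv_apply_apply]⟩

variable [Fintype V]

omit [Fintype V] in
theorem card_P : Nat.card ↥(U ⊓ ort Q e ⊓ ort Q f) = Fintype.card F ^ 2 := by
  rw [Module.natCard_eq_pow_finrank (K := F), h.r2, Nat.card_eq_fintype_card]

omit [Fintype V] in
theorem card_U : Nat.card U = Fintype.card F ^ 4 := by
  rw [Module.natCard_eq_pow_finrank (K := F), h.r4, Nat.card_eq_fintype_card]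

theorem conic {c : F} (hc : c ≠ 0) :
    Fintype.card F + 1 ≤ Nat.card {w // w ∈ U ⊓ ort Q e ⊓ ort Q f ∧ Q w = c} := by
  obtain ⟨w0, hw0, hQ⟩ := h.surj c
  have h0 : w0 ≠ 0 := by rintro rfl; exact hc (by simpa using hQ.symm)
  obtain ⟨d, hd, hd1⟩ := h.ndP.exists_polar_one hw0 h0
  obtain ⟨t, ht, ht0⟩ := exists_mem_not_mem_of_finrank_lt (A := ⊥)
    (B := (U ⊓ ort Q e ⊓ ort Q f) ⊓ ort Q w0) (by
      have := finrank_le_inf_ort (Q := Q) (U ⊓ ort Q e ⊓ ort Q f) w0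
      rw [h.r2] at this
      rw [finrank_bot]; omega)
  have h1 : ∀ s : F, polar Q w0 (d + s • t) = 1 := fun s => by simp [hd1, mem_ort.1 ht.2]
  have h2 : ∀ s : F, Q (d + s • t) ≠ 0 := fun s hs => by
    have := h1 s
    rw [h.an (add_mem hd (smul_mem _ _ ht.1)) hs] at this
    simp at this
  let φ : Option F → {w // w ∈ U ⊓ ort Q e ⊓ ort Q f ∧ Q w = c} := fun o =>
    o.elim ⟨w0, hw0, hQ⟩ fun s => ⟨w0 - (Q (d + s • t))⁻¹ • (d + s • t),
      sub_mem hw0 (smul_mem _ _ (add_mem hd (smul_mem _ _ ht.1))), by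
        have := h2 s
        rw [Q_sub, Q_smul, polar_smul_right, h1, hQ, smul_eq_mul]
        field_simp
        ring⟩
  have h3 : ∀ s : F, w0 - (Q (d + s • t))⁻¹ • (d + s • t) ≠ w0 := fun s hs => by
    have := congrArg (polar Q w0) (sub_eq_self.1 hs)
    rw [polar_smul_right, h1] at this
    simp [h2 s] at this
  have := Nat.card_le_card_of_injective φ (by
    rintro (_ | s) (_ | s') hs
    · rfl
    · exact absurd (congrArg Subtype.val hs).symm (h3 s')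
    · exact absurd (congrArg Subtype.val hs) (h3 s)
    · have h4 : (Q (d + s • t))⁻¹ • (d + s • t) = (Q (d + s' • t))⁻¹ • (d + s' • t) :=
        sub_right_injective (congrArg Subtype.val hs)
      have h5 := congrArg (polar Q w0) h4
      rw [polar_smul_right, polar_smul_right, h1, h1, smul_eq_mul, smul_eq_mul, mul_one,
        mul_one] at h5
      rw [h5] at h4
      have h6 := add_left_cancel (smul_right_injective V (inv_ne_zero (h2 s')) h4)
      rw [smul_left_injective F (by simpa using ht0) h6])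
  rwa [Finite.card_option, Nat.card_eq_fintype_card] at this

/-- Lower bound for the number of non-zero vectors of given norm. -/
theorem card_norm (c : F) : (Fintype.card F - 1) * Fintype.card F ^ 2 +
    Nat.card {p : F × V // (p.2 ∈ U ⊓ ort Q e ⊓ ort Q f ∧ Q p.2 = c) ∧ p ≠ 0} ≤
    #(univ.filter fun u => u ∈ U ∧ u ≠ 0 ∧ Q u = c) := by
  let φ : (Fˣ × ↥(U ⊓ ort Q e ⊓ ort Q f)) ⊕
      {p : F × V // (p.2 ∈ U ⊓ ort Q e ⊓ ort Q f ∧ Q p.2 = c) ∧ p ≠ 0} →
      {u // u ∈ U ∧ u ≠ 0 ∧ Q u = c} :=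
    Sum.elim (fun p => ⟨((c - Q p.2) / p.1) • e + (p.1 : F) • f + p.2, h.comb_mem _ _ p.2.2,
      fun h0 => p.1.ne_zero (h.comb_inj (a' := 0) (b' := 0) p.2.2 (zero_mem _)
        (by simpa using h0)).2.1, by rw [h.Q_comb _ _ p.2.2]; simp⟩)
      fun p => ⟨p.1.1 • e + (0 : F) • f + p.1.2, h.comb_mem _ _ p.2.1.1, fun h0 => by
        obtain ⟨a, -, b⟩ := h.comb_inj (a' := 0) (b' := 0) p.2.1.1 (zero_mem _)
          (h0.trans (by simp))
        exact p.2.2 (Prod.ext a b), by rw [h.Q_comb _ _ p.2.1.1, p.2.1.2]; simp⟩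
  have := Nat.card_le_card_of_injective φ (by
    rintro (p | p) (p' | p') hs
    · obtain ⟨-, a, b⟩ := h.comb_inj p.2.2 p'.2.2 (congrArg Subtype.val hs)
      rw [Prod.ext (Units.ext a) (Subtype.ext b)]
    · exact absurd (h.comb_inj p.2.2 p'.2.1.1 (congrArg Subtype.val hs)).2.1 p.1.ne_zero
    · exact absurd (h.comb_inj p.2.1.1 p'.2.2 (congrArg Subtype.val hs)).2.1.symm p'.1.ne_zero
    · obtain ⟨a, -, b⟩ := h.comb_inj p.2.1.1 p'.2.1.1 (congrArg Subtype.val hs)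
      rw [Subtype.ext (Prod.ext a b)])
  rwa [Nat.card_sum, Nat.card_prod, h.card_P, Nat.card_eq_fintype_card (α := Fˣ),
    Fintype.card_units, Nat.card_eq_fintype_card (α := {u // u ∈ U ∧ u ≠ 0 ∧ Q u = c}),
    Fintype.card_subtype] at this

theorem card_ns {c : F} (hc : c ≠ 0) : Fintype.card F * (Fintype.card F ^ 2 + 1) ≤
    #(univ.filter fun u => u ∈ U ∧ u ≠ 0 ∧ Q u = c) := by
  refine le_trans ?_ (h.card_norm c)
  have h1 := Nat.card_le_card_of_injective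
    (fun p : F × {w // w ∈ U ⊓ ort Q e ⊓ ort Q f ∧ Q w = c} =>
      (⟨(p.1, p.2.1), p.2.2, fun h0 => hc (by
        rw [← p.2.2.2, show p.2.1 = 0 from congrArg Prod.snd h0, map_zero])⟩ :
        {p : F × V // (p.2 ∈ U ⊓ ort Q e ⊓ ort Q f ∧ Q p.2 = c) ∧ p ≠ 0}))
    (fun p p' hp => by
      have := Prod.ext_iff.1 (congrArg Subtype.val hp)
      exact Prod.ext this.1 (Subtype.ext this.2))
  rw [Nat.card_prod, Nat.card_eq_fintype_card (α := F)] at h1
  have h2 := Nat.mul_le_mul_left (Fintype.card F) (h.conic hc)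
  obtain ⟨r, hr⟩ : ∃ r, Fintype.card F = r + 1 := ⟨_, (Nat.sub_add_cancel Fintype.card_pos).symm⟩
  rw [hr] at h1 h2 ⊢
  rw [Nat.add_sub_cancel]
  nlinarith

theorem card_sing : (Fintype.card F - 1) * (Fintype.card F ^ 2 + 1) ≤
    #(univ.filter fun u => u ∈ U ∧ u ≠ 0 ∧ Q u = 0) := by
  refine le_trans ?_ (h.card_norm 0)
  have h1 := Nat.card_le_card_of_injective
    (fun p : Fˣ => (⟨(p, 0), ⟨zero_mem _, map_zero _⟩, fun h0 => p.ne_zero (congrArg Prod.fst h0)⟩ :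
        {p : F × V // (p.2 ∈ U ⊓ ort Q e ⊓ ort Q f ∧ Q p.2 = 0) ∧ p ≠ 0}))
    (fun p p' hp => Units.ext (congrArg Prod.fst (congrArg Subtype.val hp)))
  rw [Nat.card_eq_fintype_card, Fintype.card_units] at h1
  rw [mul_add, mul_one]
  omega

omit h [FiniteDimensional F V] [Fintype V] in
theorem card_le_of_line {X : AddSubgroup V} {z : V} (hX : ∀ v ∈ X, ∃ c : F, v = c • z) :
    Nat.card X ≤ Fintype.card F := by
  choose c hc using hX
  rw [← Nat.card_eq_fintype_card]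
  exact Nat.card_le_card_of_injective (fun v : X => c v v.2) fun v w hvw =>
    Subtype.ext (by rw [hc v v.2, hc w w.2]; exact congrArg (· • z) hvw)

omit [FiniteDimensional F V] [Fintype V] in
theorem card_le_of_sing {X : AddSubgroup V} (hU : ∀ v ∈ X, v ∈ U) (hX : ∀ v ∈ X, Q v = 0) :
    Nat.card X ≤ Fintype.card F := by
  by_cases h0 : ∃ z ∈ X, z ≠ 0
  · obtain ⟨z, hz, h0⟩ := h0
    refine card_le_of_line (z := z) fun v hv => h.ts z (hU z hz) v (hU v hv) (hX z hz) (hX v hv)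
      ?_ h0
    simp [polar, hX z hz, hX v hv, hX _ (X.add_mem hz hv)]
  · push Not at h0
    exact card_le_of_line (z := 0) fun v hv => ⟨0, by simp [h0 v hv]⟩

end O4

end H20.U4
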