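import Cfsg.Agent.H20.U4A

/-! Invariant families of additive subgroups of the four-dimensional space of minus type. -/

set_option autoImplicit false

namespace H20.U4

open QuadraticMap H56 H60 Module Submodule Finset
open scoped Classical

variable {F V : Type*} [Field F] [AddCommGroup V] [Module F V] {Q : QuadraticForm F V}

/-- The image of an additive subgroup under a similarity. -/
def im (c : F) (g : O Q) (X : AddSubgroup V) : AddSubgroup V where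
  carrier := {v | ∃ u ∈ X, c • g u = v}
  zero_mem' := ⟨0, zero_mem _, by simp⟩
  add_mem' := by
    rintro _ _ ⟨a, ha, rfl⟩ ⟨b, hb, rfl⟩
    exact ⟨a + b, add_mem ha hb, by simp⟩
  neg_mem' := by
    rintro _ ⟨a, ha, rfl⟩
    exact ⟨-a, neg_mem ha, by simp⟩

theorem sim_inj {c : F} (hc : c ≠ 0) (g : O Q) : Function.Injective fun u : V => c • g u :=
  fun _ _ h => g.injective (smul_right_injective V hc h)

theorem mem_im {c : F} (hc : c ≠ 0) {g : O Q} {X : AddSubgroup V} {u : V} :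
    c • g u ∈ im c g X ↔ u ∈ X :=
  ⟨fun ⟨_, hw, he⟩ => sim_inj hc g he ▸ hw, fun h => ⟨u, h, rfl⟩⟩

theorem mem_im1 {g : O Q} {X : AddSubgroup V} {u : V} : g u ∈ im 1 g X ↔ u ∈ X := by
  simpa using mem_im (c := 1) one_ne_zero (g := g) (X := X) (u := u)

theorem im_inj {c : F} (hc : c ≠ 0) (g : O Q) : Function.Injective (im c g) := fun X Y h => by
  ext u; rw [← mem_im hc (g := g), h, mem_im hc]

theorem card_im {c : F} (hc : c ≠ 0) (g : O Q) (X : AddSubgroup V) :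
    Nat.card (im c g X) = Nat.card X :=
  (Nat.card_congr (Equiv.ofBijective (fun u : X => (⟨c • g u, (mem_im hc).2 u.2⟩ : im c g X))
    ⟨fun _ _ h => Subtype.ext (sim_inj hc g (congrArg Subtype.val h)),
      fun ⟨_, u, hu, he⟩ => ⟨⟨u, hu⟩, Subtype.ext he⟩⟩)).symm

/-- An invariant family of additive subgroups of order `k`. -/
structure Fam (Q : QuadraticForm F V) (U : Submodule F V) (k : ℕ) (𝒳 : Finset (AddSubgroup V)) :
    Prop where
  le : ∀ X ∈ 𝒳, ∀ u ∈ X, u ∈ U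
  cd : ∀ X ∈ 𝒳, Nat.card X = k
  eo : ∀ g ∈ EOin Q (U : Set V), ∀ X ∈ 𝒳, im 1 g X ∈ 𝒳
  tor : ∀ c : F, c ≠ 0 → ∃ g ∈ sstab Q (U : Set V), ∀ X ∈ 𝒳, im c g X ∈ 𝒳

/-- The number of members containing a vector. -/
noncomputable def mu (𝒳 : Finset (AddSubgroup V)) (u : V) : ℕ := #(𝒳.filter (u ∈ ·))

theorem mu_le {𝒳 : Finset (AddSubgroup V)} {c : F} (hc : c ≠ 0) {g : O Q}
    (h : ∀ X ∈ 𝒳, im c g X ∈ 𝒳) (u : V) : mu 𝒳 u ≤ mu 𝒳 (c • g u) :=
  card_le_card_of_injOn (im c g) (fun X hX => by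
    simp only [coe_filter, Set.mem_ofPred_eq] at hX ⊢
    exact ⟨h X hX.1, (mem_im hc).2 hX.2⟩) (im_inj hc g).injOn

theorem mu_pos {𝒳 : Finset (AddSubgroup V)} {X : AddSubgroup V} (hX : X ∈ 𝒳) {u : V}
    (hu : u ∈ X) : 1 ≤ mu 𝒳 u := card_pos.2 ⟨X, mem_filter.2 ⟨hX, hu⟩⟩

theorem fix_of_mu1 {𝒳 : Finset (AddSubgroup V)} {X : AddSubgroup V} (hX : X ∈ 𝒳) {u : V}
    (hu : u ∈ X) (hm : mu 𝒳 u ≤ 1) {g : O Q} (h : ∀ X ∈ 𝒳, im 1 g X ∈ 𝒳) (hg : g u = u) {v : V}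
    (hv : v ∈ X) : g v ∈ X := by
  rw [card_le_one.1 hm X (mem_filter.2 ⟨hX, hu⟩) (im 1 g X)
    (mem_filter.2 ⟨h X hX, by rw [← hg]; exact mem_im1.2 hu⟩)]
  exact mem_im1.2 hv

theorem fix_of_mu2 {𝒳 : Finset (AddSubgroup V)} {X : AddSubgroup V} (hX : X ∈ 𝒳) {u : V}
    (hu : u ∈ X) (hm : mu 𝒳 u ≤ 2) {g : O Q} (h : ∀ X ∈ 𝒳, im 1 g X ∈ 𝒳) (hg : g u = u) {v : V}
    (hv : v ∈ X) : g (g v) ∈ X := by
  have k : ∀ Y ∈ 𝒳.filter (u ∈ ·), im 1 g Y ∈ 𝒳.filter (u ∈ ·) := fun Y hY =>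
    mem_filter.2 ⟨h Y (mem_filter.1 hY).1, by rw [← hg]; exact mem_im1.2 (mem_filter.1 hY).2⟩
  have a : X ∈ 𝒳.filter (u ∈ ·) := mem_filter.2 ⟨hX, hu⟩
  by_cases h1 : X = im 1 g X
  · have : ∀ v ∈ X, g v ∈ X := fun v hv => by rw [h1]; exact mem_im1.2 hv
    exact this _ (this _ hv)
  by_cases h2 : X = im 1 g (im 1 g X)
  · rw [h2]; exact mem_im1.2 (mem_im1.2 hv)
  exact absurd (two_lt_card_iff.2 ⟨_, _, _, a, k _ a, k _ (k _ a), h1, h2,
    fun h3 => h1 (im_inj one_ne_zero g h3)⟩) (not_lt.2 hm)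

omit [Field F] [Module F V] in
theorem sq_lt_card [Fintype F] [Finite V] {X : AddSubgroup V} (φ : F × F → V) (h1 : ∀ p, φ p ∈ X)
    (h2 : Function.Injective φ) {v : V} (hv : v ∈ X) (h3 : ∀ p, φ p ≠ v) :
    Fintype.card F ^ 2 < Nat.card X := by
  have := Nat.card_le_card_of_injective
    (fun o : Option (F × F) => (o.elim ⟨v, hv⟩ fun p => ⟨φ p, h1 p⟩ : X)) (by
      rintro (_ | p) (_ | p') h
      · rfl
      · exact absurd (congrArg Subtype.val h).symm (h3 p')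
      · exact absurd (congrArg Subtype.val h) (h3 p)
      · rw [h2 (congrArg Subtype.val h)])
  rw [Finite.card_option, Nat.card_prod, Nat.card_eq_fintype_card] at this
  rw [pow_two]; omega

variable [Fintype F] [Fintype V] [FiniteDimensional F V] {U : Submodule F V} {e f : V} {k : ℕ}
  {𝒳 : Finset (AddSubgroup V)}

omit [Fintype V] in
theorem Fam.mu_le_of (h : O4 Q U e f) (H : Fam Q U k 𝒳) {a b : V} (ha : a ∈ U) (hb : b ∈ U)
    (ha0 : a ≠ 0) (hb0 : b ≠ 0) {s : F} (hs : s ≠ 0) (hab : Q b = s * s * Q a) :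
    mu 𝒳 a ≤ mu 𝒳 b := by
  obtain ⟨g, hg, h1⟩ := H.tor s hs
  obtain ⟨g', hg', h2⟩ := h.trans2 (U.smul_mem s (apply_mem_of_sstab hg ha)) hb
    (fun h0 => ha0 (sim_inj hs g (by simpa using h0))) hb0 (by rw [Q_smul, O.map_Q, hab])
  have := mu_le one_ne_zero (H.eo g' hg') (s • g a)
  rw [one_smul, h2] at this
  exact (mu_le hs h1 a).trans this

omit [Fintype F] [FiniteDimensional F V] in
theorem card_nz (X : AddSubgroup V) :
    #(univ.filter fun u => u ∈ X ∧ u ≠ 0) + 1 = Nat.card X := by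
  rw [← H26.card_filter_mem, filter_and, filter_ne', inter_erase, inter_univ,
    card_erase_add_one (by simp)]

theorem Fam.cover (h : O4 Q U e f) (H : Fam Q U k 𝒳) {a : V} (ha : a ∈ U) (ha0 : a ≠ 0)
    (T : Finset F) (hT : ∀ d ∈ T, ∃ s, s ≠ 0 ∧ d = s * s * Q a) {n : ℕ}
    (hn : ∀ X ∈ 𝒳, #(univ.filter fun u => u ∈ X ∧ u ≠ 0 ∧ Q u ∈ T) ≤ n) :
    #(univ.filter fun u => u ∈ U ∧ u ≠ 0 ∧ Q u ∈ T) * mu 𝒳 a ≤ #𝒳 * n :=
  card_mul_le_card_mul (fun u X => u ∈ X) (fun u hu => by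
    obtain ⟨a1, a2, a3⟩ := (mem_filter.1 hu).2
    obtain ⟨s, hs, h1⟩ := hT _ a3
    exact H.mu_le_of h ha a1 ha0 a2 hs h1) fun X hX => le_trans (card_le_card fun u hu => by
      simp only [bipartiteBelow, mem_filter, mem_univ, true_and] at hu ⊢
      exact ⟨hu.2, hu.1.2⟩) (hn X hX)

omit [Fintype F] [FiniteDimensional F V] in
theorem Fam.nz_le (H : Fam Q U k 𝒳) (T : Finset F) :
    ∀ X ∈ 𝒳, #(univ.filter fun u => u ∈ X ∧ u ≠ 0 ∧ Q u ∈ T) ≤ k - 1 := fun X hX => by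
  have := card_nz X
  have h2 : #(univ.filter fun u => u ∈ X ∧ u ≠ 0 ∧ Q u ∈ T) ≤
      #(univ.filter fun u => u ∈ X ∧ u ≠ 0) := card_le_card fun u hu => by
    simp only [mem_filter, mem_univ, true_and] at hu ⊢
    exact ⟨hu.1, hu.2.1⟩
  rw [H.cd X hX] at this
  omega

theorem O4.card_T (h : O4 Q U e f) (T : Finset F) (hT : 0 ∉ T) :
    #T * (Fintype.card F * (Fintype.card F ^ 2 + 1)) ≤
      #(univ.filter fun u => u ∈ U ∧ u ≠ 0 ∧ Q u ∈ T) := by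
  have := H26.card_mul_le_fib (univ.filter fun u => u ∈ U ∧ u ≠ 0 ∧ Q u ∈ T) T Q
    (Fintype.card F * (Fintype.card F ^ 2 + 1)) 1 fun d hd => by
      rw [mul_one]
      refine (h.card_ns (c := d) fun h0 => hT (h0 ▸ hd)).trans (card_le_card fun u hu => ?_)
      simp only [mem_filter, mem_univ, true_and] at hu ⊢
      exact ⟨⟨hu.1, hu.2.1, hu.2.2 ▸ hd⟩, hu.2.2⟩
  rwa [mul_one] at this

/-- The square class of a scalar. -/
noncomputable def sqc (c : F) : Finset F := (univ.erase 0).image fun s => s * s * c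

theorem mem_sqc {c d : F} (h : d ∈ sqc c) : ∃ s, s ≠ 0 ∧ d = s * s * c := by
  obtain ⟨s, hs, rfl⟩ := mem_image.1 h
  exact ⟨s, (mem_erase.1 hs).1, rfl⟩

theorem card_sqc {c : F} (hc : c ≠ 0) : Fintype.card F - 1 ≤ 2 * #(sqc c) ∧
    ((2 : F) = 0 → Fintype.card F - 1 ≤ #(sqc c)) := by
  have e : #(univ.erase (0 : F)) = Fintype.card F - 1 := by
    rw [card_erase_of_mem (mem_univ _), card_univ]
  have k : ∀ s t : F, s * s * c = t * t * c → s = t ∨ s = -t := fun s t h =>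
    mul_self_eq_mul_self_iff.1 (mul_right_cancel₀ hc h)
  refine ⟨e ▸ card_le_mul_card_image _ 2 fun d hd => ?_, fun h2 => ?_⟩
  · obtain ⟨t, -, rfl⟩ := mem_image.1 hd
    refine le_trans (card_le_card fun s hs => ?_) (card_le_two (a := t) (b := -t))
    simpa using k s t (mem_filter.1 hs).2
  · rw [sqc, card_image_of_injective _ fun s t h => (k s t h).elim id fun h' => by
      linear_combination h' - t * h2, e]

theorem Fam.cover_ns (h : O4 Q U e f) (H : Fam Q U k 𝒳) {a : V} (ha : a ∈ U) (ha0 : Q a ≠ 0) :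
    #(sqc (Q a)) * (Fintype.card F * (Fintype.card F ^ 2 + 1)) * mu 𝒳 a ≤ #𝒳 * (k - 1) :=
  (Nat.mul_le_mul_right _ (h.card_T _ fun h0 => by
    obtain ⟨s, hs, h1⟩ := mem_sqc h0
    exact mul_ne_zero (mul_ne_zero hs hs) ha0 h1.symm)).trans
    (H.cover h ha (by rintro rfl; simp at ha0) _ (fun _ => mem_sqc) (H.nz_le _))

theorem Fam.cover_one (h : O4 Q U e f) (H : Fam Q U k 𝒳) {a : V} (ha : a ∈ U) (ha0 : Q a ≠ 0)
    {n : ℕ} (hn : ∀ X ∈ 𝒳, #(univ.filter fun u => u ∈ X ∧ u ≠ 0 ∧ Q u ∈ ({Q a} : Finset F)) ≤ n) :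
    Fintype.card F * (Fintype.card F ^ 2 + 1) * mu 𝒳 a ≤ #𝒳 * n := by
  have := h.card_T {Q a} (by simpa using ha0.symm)
  rw [card_singleton, one_mul] at this
  exact (Nat.mul_le_mul_right _ this).trans (H.cover h ha (by rintro rfl; simp at ha0) _
    (fun d hd => ⟨1, one_ne_zero, by simpa using hd⟩) hn)

theorem Fam.cover_sing (h : O4 Q U e f) (H : Fam Q U k 𝒳) {X : AddSubgroup V} (hX : X ∈ 𝒳)
    (h0 : X ≠ ⊥) (hs : ∀ v ∈ X, Q v = 0) : k ≤ Fintype.card F ∧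
      (Fintype.card F - 1) * (Fintype.card F ^ 2 + 1) ≤ #𝒳 * (k - 1) := by
  refine ⟨H.cd X hX ▸ h.card_le_of_sing (H.le X hX) hs, ?_⟩
  obtain ⟨⟨a, ha⟩, ha0⟩ := AddSubgroup.ne_bot_iff_exists_ne_zero.1 h0
  have := H.cover h (H.le X hX a ha) (fun h => ha0 (Subtype.ext h)) {0}
    (fun d hd => ⟨1, one_ne_zero, by simpa [hs a ha] using hd⟩) (H.nz_le _)
  simp only [mem_singleton] at this
  exact h.card_sing.trans ((Nat.le_mul_of_pos_right _ (mu_pos hX ha)).trans this)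

theorem Fam.b1 (h : O4 Q U e f) (H : Fam Q U k 𝒳) {X : AddSubgroup V} (hX : X ∈ 𝒳)
    (h0 : X ≠ ⊥) : Fintype.card F * (Fintype.card F ^ 2 + 1) ≤ #𝒳 * k := by
  by_cases hs : ∀ v ∈ X, Q v = 0
  · obtain ⟨h1, h2⟩ := H.cover_sing h hX h0 hs
    have hq : 1 < Fintype.card F := Fintype.one_lt_card
    obtain ⟨r, hr⟩ : ∃ r, Fintype.card F = r + 2 := ⟨Fintype.card F - 2, by omega⟩
    rw [hr] at h1 h2 ⊢
    have h3 : (r + 2) ^ 2 + 1 ≤ #𝒳 := Nat.le_of_mul_le_mul_left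
      (h2.trans (by rw [mul_comm]; exact Nat.mul_le_mul_right _ (by omega))) (by omega)
    rcases k with _ | k
    · simp at h2
    · simp only [Nat.add_sub_cancel, show r + 2 - 1 = r + 1 by omega] at h2
      nlinarith
  · push Not at hs
    obtain ⟨a, ha, ha0⟩ := hs
    exact ((Nat.le_mul_of_pos_right _ (mu_pos hX ha)).trans
      (H.cover_one h (H.le X hX a ha) ha0 (H.nz_le _))).trans (Nat.mul_le_mul_left _ (by omega))

theorem Fam.b2a (h : O4 Q U e f) (H : Fam Q U k 𝒳) {X : AddSubgroup V} (hX : X ∈ 𝒳)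
    (h0 : X ≠ ⊥) {j : ℕ} (hj : k * j = Fintype.card F ^ 4) (h2 : 2 * k ≤ Fintype.card F ^ 2) :
    Fintype.card F ^ 4 + Fintype.card F ^ 3 + Fintype.card F < #𝒳 * j := by
  have hq : 1 < Fintype.card F := Fintype.one_lt_card
  have hk : 0 < k := Nat.pos_of_ne_zero (by
    rintro rfl
    have := pow_pos (zero_lt_one.trans hq) 4
    omega)
  obtain ⟨r, hr⟩ : ∃ r, Fintype.card F = r + 2 := ⟨Fintype.card F - 2, by omega⟩
  obtain ⟨k, rfl⟩ : ∃ k', k = k' + 1 := ⟨k - 1, by omega⟩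
  by_cases hs : ∀ v ∈ X, Q v = 0
  · obtain ⟨h1, h2⟩ := H.cover_sing h hX h0 hs
    rw [hr] at h1 h2 hj ⊢
    have h3 : (r + 2) ^ 2 + 1 ≤ #𝒳 := Nat.le_of_mul_le_mul_left
      (h2.trans (by rw [mul_comm]; exact Nat.mul_le_mul_right _ (by omega))) (by omega)
    have h4 : (r + 2) ^ 3 ≤ j := Nat.le_of_mul_le_mul_left (c := r + 2)
      (by nlinarith [Nat.mul_le_mul_right j h1]) (by omega)
    refine lt_of_lt_of_le ?_ (Nat.mul_le_mul h3 h4)
    ring_nf; omega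
  · push Not at hs
    obtain ⟨a, ha, ha0⟩ := hs
    have h3 := (Nat.le_mul_of_pos_right _ (mu_pos hX ha)).trans (H.cover_ns h (H.le X hX a ha) ha0)
    obtain ⟨h4, h5⟩ := card_sqc ha0
    have h6 : 4 * (k + 1) ≤ j := Nat.le_of_mul_le_mul_left (c := k + 1) (by
      rw [hj, show 4 = 2 * 2 from rfl, pow_mul]
      nlinarith [Nat.mul_le_mul h2 h2]) hk
    have h7 : 1 ≤ #(sqc (Q a)) := by omega
    rw [hr] at h3 h4 ⊢
    rw [Nat.add_sub_cancel] at h3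
    have h8 := Nat.mul_le_mul_left #𝒳 h6
    rcases r with _ | r
    · nlinarith
    · have h9 : (r + 2) * ((r + 1 + 2) * ((r + 1 + 2) ^ 2 + 1)) ≤ 2 * (#𝒳 * k) := by
        nlinarith [Nat.mul_le_mul_right ((r + 1 + 2) * ((r + 1 + 2) ^ 2 + 1))
          (show r + 2 ≤ 2 * #(sqc (Q a)) by omega)]
      have h10 : (r + 1 + 2) ^ 4 + (r + 1 + 2) ^ 3 + (r + 1 + 2) <
          2 * ((r + 2) * ((r + 1 + 2) * ((r + 1 + 2) ^ 2 + 1))) := by ring_nf; omega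
      nlinarith

end H20.U4
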