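import Cfsg.Agent.H20.U4B

/-! Invariant families of additive subgroups of intermediate order are large. -/

set_option autoImplicit false

namespace H20.U4

open QuadraticMap H56 H60 Module Submodule Finset
open scoped Classical

variable {F V : Type*} [Field F] [AddCommGroup V] [Module F V] {Q : QuadraticForm F V}

/-- Invariance under the Eichler maps fixing `x`. -/
def Inv (Q : QuadraticForm F V) (U : Submodule F V) (X : AddSubgroup V) (x : V) : Prop :=
  ∀ z ∈ U, ∀ w ∈ U, Q z = 0 → polar Q z w = 0 → polar Q z x = 0 → polar Q w x = 0 →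
    ∀ v ∈ X, eich Q z w v ∈ X

variable {U : Submodule F V} {e f : V} {k : ℕ} {𝒳 : Finset (AddSubgroup V)} {X : AddSubgroup V}
  {x : V}

theorem Fam.inv1 (H : Fam Q U k 𝒳) (hX : X ∈ 𝒳) (hx : x ∈ X) (hm : mu 𝒳 x ≤ 1) : Inv Q U X x :=
  fun _ hz _ hw _ _ a b _ hv =>
    fix_of_mu1 hX hx hm (H.eo _ (eich_mem_EOin hz hw)) (eich_apply_of_orth_orth a b) hv

theorem Fam.inv2 (H : Fam Q U k 𝒳) (h2 : (2 : F) ≠ 0) (hX : X ∈ 𝒳) (hx : x ∈ X)
    (hm : mu 𝒳 x ≤ 2) : Inv Q U X x := fun z hz w hw h0 h1 a b v hv => by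
  have := fix_of_mu2 hX hx hm (H.eo _ (eich_mem_EOin hz (U.smul_mem (2 : F)⁻¹ hw)))
    (eich_apply_of_orth_orth a (by simp [b])) hv
  rwa [← O.mul_apply, ← eich_add h0 (by simp [h1]) (by simp [h1]), ← add_smul, ← two_mul,
    mul_inv_cancel₀ h2, one_smul] at this

variable [Fintype F] [Fintype V] [FiniteDimensional F V]

theorem odd_big (h : O4 Q U e f) (h2 : (2 : F) ≠ 0) (hU : ∀ v ∈ X, v ∈ U) (hx : x ∈ X)
    (h0 : Q x ≠ 0) (hI : Inv Q U X x) {v : V} (hv : v ∈ X) (hn : ∀ c : F, v ≠ c • x) :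
    Fintype.card F ^ 2 < Nat.card X := by
  have a1 := finrank_le_inf_ort (Q := Q) U x
  have h4 := h.r4
  have hW := h.nd.inf_ort (hU x hx) (by rw [polar_self']; exact mul_ne_zero h2 h0)
  obtain ⟨y, hy, hvy⟩ : ∃ y ∈ U ⊓ ort Q x, polar Q v y ≠ 0 := by
    by_contra hc
    push Not at hc
    obtain ⟨c, hc⟩ := h.nd.exists_smul (hU x hx) (hU v hv) fun y hy a => hc y ⟨hy, a⟩
    exact hn c hc
  obtain ⟨z, hz, hQz, hb⟩ := (hW.hasHyp (by omega)).exists_sing_polar_ne hy hvy
  obtain ⟨w, hw, hw0⟩ := exists_mem_not_mem_of_finrank_lt (A := ⊥)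
    (B := U ⊓ ort Q x ⊓ ort Q z ⊓ ort Q v) (by
      have := finrank_le_inf_ort (Q := Q) (U ⊓ ort Q x) z
      have := finrank_le_inf_ort (Q := Q) (U ⊓ ort Q x ⊓ ort Q z) v
      rw [finrank_bot]; omega)
  obtain ⟨⟨⟨w1, w2⟩, w3⟩, w4⟩ := hw
  rw [SetLike.mem_coe, mem_ort] at w2 w3 w4
  have hz0 : z ≠ 0 := by rintro rfl; simp at hb
  have hQw : Q w ≠ 0 := fun hQw => by
    obtain ⟨c, rfl⟩ := h.ts z hz.1 w w1 hQz hQw w3 hz0
    simp [hb] at w4
    simp [w4] at hw0
  have k1 : ∀ t : F, (t * polar Q v z) • w + (t * t * (Q w * polar Q v z)) • z ∈ X := fun t => by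
    have := X.sub_mem hv (hI z hz.1 (t • w) (U.smul_mem _ w1) hQz (by simp [w3]) (pc hz.2)
      (by simp [pc w2]) v hv)
    rw [eich_apply hQz (by simp [w3])] at this
    convert this using 1
    simp only [polar_smul_left, pc w4, Q_smul, polar_comm Q z v, smul_eq_mul]
    module
  have k2 : ∀ a : F, a • z ∈ X := fun a => by
    have := X.sub_mem (X.sub_mem (k1 (a / (2 * (Q w * polar Q v z)) + 1))
      (k1 (a / (2 * (Q w * polar Q v z))))) (k1 1)
    convert this using 1
    match_scalars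
    · field_simp; ring
    · ring
  have k3 : ∀ a : F, a • w ∈ X := fun a => by
    have := X.sub_mem (k1 (a / polar Q v z))
      (k2 (a / polar Q v z * (a / polar Q v z) * (Q w * polar Q v z)))
    rwa [add_sub_cancel_right, div_mul_cancel₀ _ hb] at this
  refine sq_lt_card (fun p => p.1 • z + p.2 • w) (fun p => add_mem (k2 _) (k3 _)) ?_ hv
    fun p hp => hb ?_
  · rintro ⟨a, b⟩ ⟨a', b'⟩ hp
    have h5 := congrArg (polar Q w) hp
    simp only [polar_add_right, polar_smul_right, pc w3, polar_self', smul_eq_mul, mul_zero,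
      zero_add] at h5
    obtain rfl := mul_right_cancel₀ (mul_ne_zero h2 hQw) h5
    exact Prod.ext (smul_left_injective F hz0 (add_right_cancel hp)) rfl
  · rw [← hp]; simp [pself hQz, pc w3]

omit [Fintype V] [FiniteDimensional F V] in
theorem hyp2 (h : O4 Q U e f) (h2 : (2 : F) = 0) (hx : x ∈ U) (h0 : Q x ≠ 0) {y : V} (hy : y ∈ U)
    (hxy : polar Q x y = 0) (hn : ∀ c : F, y ≠ c • x) : ∃ c : F, Q (y + c • x) = 0 ∧
      ∃ z ∈ U, polar Q x z = 0 ∧ Q z = 0 ∧ polar Q (y + c • x) z = 1 := by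
  have hs : Function.Surjective fun s : F => s * s := Finite.injective_iff_surjective.1
    fun s t hst => (mul_self_eq_mul_self_iff.1 hst).elim id fun h' => by
      linear_combination h' - t * h2
  obtain ⟨c, hc⟩ := hs (Q y / Q x)
  have hQ : Q (y + c • x) = 0 := by
    simp only at hc
    rw [Q_add, Q_smul, hc, div_mul_cancel₀ _ h0]
    simp [pc hxy, ← two_mul, h2]
  have hm : y + c • x ∈ U ⊓ ort Q x :=
    ⟨add_mem hy (smul_mem _ _ hx), by simp [hxy, h2]⟩
  obtain ⟨u, hu, h1⟩ : ∃ u ∈ U ⊓ ort Q x, polar Q (y + c • x) u ≠ 0 := by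
    by_contra hc
    push Not at hc
    obtain ⟨d, hd⟩ := h.nd.exists_smul hx hm.1 fun y hy a => hc y ⟨hy, a⟩
    exact hn (d - c) (by rw [sub_smul, ← hd, add_sub_cancel_right])
  obtain ⟨z, hz, h3, h4⟩ := exists_partner hm hQ hu h1
  exact ⟨c, hQ, z, hz.1, hz.2, h3, h4⟩

omit [Fintype F] [Fintype V] [FiniteDimensional F V] in
theorem Inv.key (hI : Inv Q U X x) (h2 : (2 : F) = 0) (hx : x ∈ U) {z : V} (hz : z ∈ U)
    (hQ : Q z = 0) (hxz : polar Q x z = 0) {v : V} (hv : v ∈ X) (t : F) :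
    (polar Q z v * t) • x + (t * t * Q x * polar Q z v - t * polar Q x v) • z ∈ X := by
  have := X.sub_mem hv (hI z hz (t • x) (U.smul_mem _ hx) hQ (by simp [pc hxz]) (pc hxz)
    (by simp [h2]) v hv)
  rw [eich_apply hQ (by simp [pc hxz])] at this
  convert this using 1
  simp only [polar_smul_left, Q_smul, smul_eq_mul]
  module

omit [FiniteDimensional F V] in
theorem even_perp (h : O4 Q U e f) (h2 : (2 : F) = 0) (hU : ∀ v ∈ X, v ∈ U) (hx : x ∈ X)
    (h0 : Q x ≠ 0) (hI : Inv Q U X x) {v : V} (hv : v ∈ X) (hxv : polar Q x v = 0)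
    (hn : ∀ c : F, v ≠ c • x) : Fintype.card F ^ 2 < Nat.card X := by
  obtain ⟨c, h1, z', hz', h3, h4, h5⟩ := hyp2 h h2 (hU x hx) h0 (hU v hv) hxv hn
  obtain ⟨z, hz⟩ : ∃ z, z = v + c • x := ⟨_, rfl⟩
  rw [← hz] at h1 h5
  have hxx : polar Q x x = 0 := by simp [h2]
  have hxz : polar Q x z = 0 := by simp [hz, hxv, hxx]
  have hv' : v = z - c • x := by rw [hz]; abel
  have h5' : polar Q z' z = 1 := by rw [polar_comm, h5]
  have k1 := fun t => hI.key h2 (hU x hx) hz' h4 h3 hv t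
  have k2 := fun t => hI.key h2 (hU x hx) (z := z' - x - Q x • z)
    (sub_mem (sub_mem hz' (hU x hx)) (smul_mem _ _ (hz ▸ add_mem (hU v hv) (smul_mem _ _ (hU x hx)))))
    (by simp [Q_sub, Q_smul, h1, h4, pc h3, h5', hxz]) (by simp [h3, hxx, hxz]) hv t
  have e1 : polar Q z' v = 1 := by simp [hv', h5', pc h3]
  have e2 : polar Q (z' - x - Q x • z) v = 1 := by
    simp [hv', h5', pc h3, hxx, hxz, pc hxz, pself h1]
  simp only [e1, e2, hxv, mul_one, one_mul, mul_zero, sub_zero] at k1 k2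
  have hs : ∀ s t : F, s * s = t * t → s = t := fun s t hst =>
    (mul_self_eq_mul_self_iff.1 hst).elim id fun h' => by linear_combination h' - t * h2
  have p1 : ∀ t s : F, polar Q z' ((t • x + (t * t * Q x) • z') +
      (s • x + (s * s * Q x) • (z' - x - Q x • z))) = -(s * s * (Q x * Q x)) := fun t s => by
    simp [pc h3, pself h4, h5']; ring
  have p2 : ∀ t s : F, polar Q z ((t • x + (t * t * Q x) • z') +
      (s • x + (s * s * Q x) • (z' - x - Q x • z))) = (t * t + s * s) * Q x := fun t s => by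
    simp [pc hxz, pself h1, h5]; ring
  refine sq_lt_card (fun p => (p.1 • x + (p.1 * p.1 * Q x) • z') +
    (p.2 • x + (p.2 * p.2 * Q x) • (z' - x - Q x • z))) (fun p => add_mem (k1 _) (k2 _)) ?_ hx ?_
  · rintro ⟨a, b⟩ ⟨a', b'⟩ hp
    have q1 := congrArg (polar Q z') hp
    have q2 := congrArg (polar Q z) hp
    rw [p1, p1] at q1
    rw [p2, p2] at q2
    obtain rfl := hs _ _ (mul_right_cancel₀ (mul_ne_zero h0 h0) (neg_injective q1))
    exact Prod.ext (hs _ _ (add_right_cancel (mul_right_cancel₀ h0 q2))) rfl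
  · rintro ⟨a, b⟩ hp
    have q1 := congrArg (polar Q z') hp
    have q2 := congrArg (polar Q z) hp
    rw [p1, pc h3] at q1
    rw [p2, pc hxz] at q2
    obtain rfl : b = 0 := by simpa [h0] using q1
    obtain rfl : a = 0 := by simpa [h0] using q2
    exact h0 (by rw [← hp]; simp)

theorem even_key (h : O4 Q U e f) (h2 : (2 : F) = 0) (hU : ∀ v ∈ X, v ∈ U) (hx : x ∈ X)
    (h0 : Q x ≠ 0) (hI : Inv Q U X x) (hc : Nat.card X ≤ Fintype.card F ^ 2) {v : V} (hv : v ∈ X)
    (hn : ∀ c : F, v ≠ c • x) : (∀ t : F, t = 0 ∨ t = 1) ∧ Q v = 0 := by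
  have hxx : polar Q x x = 0 := by simp [h2]
  have k0 : ∀ u ∈ X, polar Q x u = 0 → ∃ c : F, u = c • x := fun u hu a => by
    by_contra hh
    push Not at hh
    exact absurd (even_perp h h2 hU hx h0 hI hu a hh) (not_lt.2 hc)
  have hB : polar Q x v ≠ 0 := fun a => (k0 v hv a).elim hn
  have k1 : ∀ z ∈ U, z ≠ 0 → Q z = 0 → polar Q x z = 0 → ∀ t : F,
      t * t * Q x * polar Q z v - t * polar Q x v = 0 := fun z hz hz0 a b t => by
    obtain ⟨c, hc⟩ := k0 _ (hI.key h2 (hU x hx) hz a b hv t) (by simp [hxx, b])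
    have h3 : (t * t * Q x * polar Q z v - t * polar Q x v) • z = (c - polar Q z v * t) • x := by
      rw [sub_smul c, ← hc]; abel
    have h4 := congrArg Q h3
    rw [Q_smul, Q_smul, a, mul_zero] at h4
    rw [mul_self_eq_zero.1 ((mul_eq_zero.1 h4.symm).resolve_right h0), zero_smul] at h3
    exact (smul_eq_zero.1 h3).resolve_right hz0
  obtain ⟨y, hy, hy0⟩ := exists_mem_not_mem_of_finrank_lt (A := span F {x}) (B := U ⊓ ort Q x) (by
    have := finrank_le_inf_ort (Q := Q) U x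
    have := finrank_span_singleton_le (F := F) x
    have := h.r4
    omega)
  obtain ⟨c, h1, z', hz', h3, h4, h5⟩ := hyp2 h h2 (hU x hx) h0 hy.1 hy.2
    fun c hc => hy0 (mem_span_singleton.2 ⟨c, hc.symm⟩)
  obtain ⟨z, hz⟩ : ∃ z, z = y + c • x := ⟨_, rfl⟩
  rw [← hz] at h1 h5
  have hxz : polar Q x z = 0 := by simp [hz, mem_ort.1 hy.2, hxx]
  have hzU : z ∈ U := hz ▸ add_mem hy.1 (smul_mem _ _ (hU x hx))
  have hz0 : z ≠ 0 := by rintro rfl; simp at h5
  have a1 := k1 z hzU hz0 h1 hxz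
  have a2 := k1 z' hz' (by rintro rfl; simp at h5) h4 h3 1
  have ht : ∀ t : F, t = 0 ∨ t = 1 := fun t => by
    have : t * (t - 1) * polar Q x v = 0 := by linear_combination a1 t - t * t * a1 1
    simpa [hB, sub_eq_zero] using this
  refine ⟨ht, ?_⟩
  have b0 := (ht _).resolve_left h0
  have b1 := (ht _).resolve_left hB
  have b2 : polar Q z v = 1 := by have := a1 1; rw [b0, b1] at this; linear_combination this
  have b3 : polar Q z' v = 1 := by rw [b0, b1] at a2; linear_combination a2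
  have b4 : Q (v + z + z') ≠ 0 := fun hh => by
    obtain ⟨d, hd⟩ := h.ts z hzU _ (add_mem (add_mem (hU v hv) hzU) hz') h1 hh
      (by simp [b2, h5, pself h1, one_add_one_eq_two, h2]) hz0
    have := congrArg (polar Q x) hd
    simp [b1, hxz, h3] at this
  have b5 := (ht _).resolve_left b4
  rw [Q_add, Q_add, polar_add_left, polar_comm Q v, polar_comm Q v, h1, h4, b2, b3, h5] at b5
  linear_combination b5 - h2

omit [FiniteDimensional F V] in
theorem par (h2 : (2 : F) ≠ 0) {c : F} (hc : c ≠ 0) (hX : Fintype.card F < Nat.card X) :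
    #(univ.filter fun u => u ∈ X ∧ u ≠ 0 ∧ Q u ∈ ({c} : Finset F)) + 2 ≤ Nat.card X := by
  rw [← card_nz X]
  refine Nat.succ_le_succ (card_lt_card ⟨fun u hu => ?_, fun hs => ?_⟩)
  · simp only [mem_filter, mem_univ, true_and] at hu ⊢
    exact ⟨hu.1, hu.2.1⟩
  have k : ∀ u ∈ X, u ≠ 0 → Q u = c := fun u a b => by
    simpa [a, b] using hs (mem_filter.2 ⟨mem_univ u, a, b⟩)
  have k2 : ∀ u, ∃ v ∈ X, ∀ a : F, v ≠ a • u := fun u => by
    by_contra hh
    push Not at hh
    exact absurd (O4.card_le_of_line hh) (not_le.2 hX)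
  obtain ⟨u, hu, hu0⟩ := k2 0
  obtain ⟨v, hv, hv0⟩ := k2 u
  have a1 := k u hu (by simpa using hu0 0)
  have a2 := k v hv (by simpa using hv0 0)
  have a3 := k _ (X.add_mem hv hu) fun h => hv0 (-1) (by simpa [eq_neg_iff_add_eq_zero] using h)
  have a4 := k _ (X.sub_mem hv hu) fun h => hv0 1 (by simpa [sub_eq_zero] using h)
  rw [Q_add] at a3
  rw [Q_sub] at a4
  exact mul_ne_zero h2 hc (by linear_combination a3 + a4 - 2 * a1 - 2 * a2)

theorem Fam.b2b (h : O4 Q U e f) (H : Fam Q U k 𝒳) (hX : X ∈ 𝒳) (h1 : Fintype.card F < k)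
    (h2 : k ≤ Fintype.card F ^ 2) (hd : k ∣ Fintype.card F ^ 4) :
    Fintype.card F ^ 4 + Fintype.card F ^ 3 + Fintype.card F < #𝒳 * k := by
  by_contra hle
  rw [not_lt] at hle
  have hq : 1 < Fintype.card F := Fintype.one_lt_card
  have hk := H.cd X hX
  obtain ⟨x, hx, h0⟩ : ∃ x ∈ X, Q x ≠ 0 := by
    by_contra hh
    push Not at hh
    have := h.card_le_of_sing (H.le X hX) hh
    omega
  obtain ⟨v, hv, hn⟩ : ∃ v ∈ X, ∀ a : F, v ≠ a • x := by
    by_contra hh
    push Not at hh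
    have := O4.card_le_of_line hh
    omega
  have hle' : #𝒳 * (k - 1) ≤ Fintype.card F ^ 4 + Fintype.card F ^ 3 + Fintype.card F :=
    (Nat.mul_le_mul_left _ (by omega)).trans hle
  by_cases hc : (2 : F) = 0
  · have hm : ∀ a ∈ U, Q a ≠ 0 → mu 𝒳 a ≤ 1 := fun a ha ha0 => by
      by_contra hh
      by_cases hq2 : Fintype.card F = 2
      · have := H.cover_one h ha ha0 (H.nz_le _)
        rw [hq2] at this hle h1 h2 hd
        interval_cases k <;> omega
      · have a1 := (H.cover_ns h ha ha0).trans hle'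
        have a2 := (card_sqc ha0).2 hc
        obtain ⟨r, hr⟩ : ∃ r, Fintype.card F = r + 3 := ⟨Fintype.card F - 3, by omega⟩
        rw [hr] at a1 a2
        have a3 := Nat.mul_le_mul (Nat.mul_le_mul_right ((r + 3) * ((r + 3) ^ 2 + 1))
          (show r + 2 ≤ #(sqc (Q a)) by omega)) (show 2 ≤ mu 𝒳 a by omega)
        have a4 := a3.trans a1
        ring_nf at a4
        omega
    have key := fun X (hX : X ∈ 𝒳) x (hx : x ∈ X) (h0 : Q x ≠ 0) v (hv : v ∈ X) hn =>
      even_key h hc (H.le X hX) hx h0 (H.inv1 hX hx (hm x (H.le X hX x hx) h0))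
        ((H.cd X hX).trans_le h2) hv hn
    have ht := (key X hX x hx h0 v hv hn).1
    have hq2 : Fintype.card F ≤ 2 :=
      (card_le_card fun t _ => by simpa using ht t).trans (card_le_two (a := (0 : F)) (b := 1))
    have := H.cover_one h (H.le X hX x hx) h0 (n := 1) fun Y hY => card_le_one.2 fun a ha b hb => by
      simp only [mem_filter, mem_univ, true_and, mem_singleton] at ha hb
      by_contra hab
      refine h0 (hb.2.2.symm.trans (key Y hY a ha.1 (ha.2.2 ▸ h0) b hb.1 fun c hc => ?_).2)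
      rcases ht c with rfl | rfl
      · exact hb.2.1 (by simpa using hc)
      · exact hab (by simpa using hc.symm)
    have h3 := mu_pos hX hx
    rw [show Fintype.card F = 2 by omega] at this hle h1 h2 hd
    interval_cases k <;> omega
  · have hm : mu 𝒳 x ≤ 2 := by
      by_contra hh
      have ho := FiniteField.odd_card_of_char_ne_two (F := F) fun h3 => hc (by
        simpa [h3] using ringChar.Nat.cast_ringChar (R := F))
      by_cases hq3 : Fintype.card F = 3
      · have := H.cover_one h (H.le X hX x hx) h0 (n := k - 2) fun Y hY => by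
          have := par (Q := Q) hc h0 ((H.cd Y hY).symm ▸ h1)
          rw [H.cd Y hY] at this
          omega
        rw [hq3] at this hle h1 h2 hd
        interval_cases k <;> omega
      · have a1 := (H.cover_ns h (H.le X hX x hx) h0).trans hle'
        have a2 := (card_sqc h0).1
        obtain ⟨r, hr⟩ : ∃ r, Fintype.card F = r + 5 := ⟨Fintype.card F - 5, by omega⟩
        rw [hr] at a1 a2
        have a3 := Nat.mul_le_mul (Nat.mul_le_mul_right ((r + 5) * ((r + 5) ^ 2 + 1))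
          (show r + 4 ≤ 2 * #(sqc (Q x)) by omega)) (show 3 ≤ mu 𝒳 x by omega)
        rw [mul_assoc 2, mul_assoc 2] at a3
        have a4 := a3.trans (Nat.mul_le_mul_left 2 a1)
        ring_nf at a4
        omega
    have := odd_big h hc (H.le X hX) hx h0 (H.inv2 hc hX hx hm) hv hn
    omega

end H20.U4
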