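import Cfsg.Agent.H20.U4C

/-! Small actions of `Ω₆⁻(q)`: orbits of the radical of a point stabiliser. -/

set_option autoImplicit false

namespace H20.U4

open QuadraticMap H56 H60 H26 Module Submodule Finset MulAction
open scoped Classical

variable {F V : Type*} [Field F] [AddCommGroup V] [Module F V] {Q : QuadraticForm F V}

/-- The orthogonal complement of a pair. -/
abbrev hp (Q : QuadraticForm F V) (x x' : V) : Submodule F V := ⊤ ⊓ ort Q x ⊓ ort Q x'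

theorem mem_hp {x x' u : V} : u ∈ hp Q x x' ↔ polar Q x u = 0 ∧ polar Q x' u = 0 := by simp

/-- The part of the radical lying in `M`. -/
def Y {x x' : V} (h : IsHyp Q x x') (M : Subgroup (O Q)) : AddSubgroup V where
  carrier := {u | u ∈ hp Q x x' ∧ eich Q x u ∈ M}
  zero_mem' := ⟨zero_mem _, by simp⟩
  add_mem' {a b} ha hb := ⟨add_mem ha.1 hb.1, by
    rw [eich_add h.qe (mem_hp.1 ha.1).1 (mem_hp.1 hb.1).1]; exact M.mul_mem ha.2 hb.2⟩
  neg_mem' {a} ha := ⟨neg_mem ha.1, by rw [eich_neg]; exact M.inv_mem ha.2⟩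

theorem mem_Y {x x' u : V} {h : IsHyp Q x x'} {M : Subgroup (O Q)} :
    u ∈ Y h M ↔ u ∈ hp Q x x' ∧ eich Q x u ∈ M := Iff.rfl

/-- The annihilator inside `U`. -/
def D (Q : QuadraticForm F V) (ψ : AddChar F ℂ) (U : Submodule F V) (Y : AddSubgroup V) :
    AddSubgroup V where
  carrier := {u | u ∈ U ∧ ∀ y ∈ Y, ψ (polar Q u y) = 1}
  zero_mem' := ⟨zero_mem _, by simp⟩
  add_mem' {a b} ha hb := ⟨add_mem ha.1 hb.1, fun y hy => by
    rw [polar_add_left, AddChar.map_add_eq_mul, ha.2 y hy, hb.2 y hy, one_mul]⟩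
  neg_mem' {a} ha := ⟨neg_mem ha.1, fun y hy => by
    rw [polar_neg_left, AddChar.map_neg_eq_inv, ha.2 y hy, inv_one]⟩

theorem mem_D {ψ : AddChar F ℂ} {U : Submodule F V} {Y : AddSubgroup V} {u : V} :
    u ∈ D Q ψ U Y ↔ u ∈ U ∧ ∀ y ∈ Y, ψ (polar Q u y) = 1 := Iff.rfl

theorem card_D [Finite V] {ψ : AddChar F ℂ} (hψ : ∀ a : F, a ≠ 0 → ∃ c, ψ (c * a) ≠ 1)
    {U : Submodule F V} (hU : Nondeg Q U) {Y : AddSubgroup V} (hY : ∀ y ∈ Y, y ∈ U) :
    Nat.card (D Q ψ U Y) * Nat.card Y = Nat.card U := by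
  let b : U →+ V →+ F := LinearMap.toAddMonoidHom'.comp
    (Q.polarBilin.comp U.subtype).toAddMonoidHom
  rw [← MU.card_ann ψ b Y fun y hy h0 => by
    obtain ⟨v, hv, h1⟩ := hU.exists_polar_one (hY y hy) h0
    obtain ⟨c, hc⟩ := hψ 1 one_ne_zero
    refine ⟨⟨c • v, U.smul_mem c hv⟩, ?_⟩
    change ψ (polar Q (c • v) y) ≠ 1
    rwa [polar_smul_left, polar_comm, h1]]
  congr 1
  exact Nat.card_congr ⟨fun u => ⟨⟨u.1, u.2.1⟩, u.2.2⟩, fun u => ⟨u.1.1, u.1.2, u.2⟩,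
    fun _ => rfl, fun _ => rfl⟩

theorem mem_im' {c : F} (hc : c ≠ 0) {g : O Q} {X : AddSubgroup V} {u : V} :
    u ∈ im c g X ↔ g⁻¹ (c⁻¹ • u) ∈ X := by
  rw [← mem_im hc (g := g) (u := g⁻¹ (c⁻¹ • u)), O.apply_inv_apply, smul_inv_smul₀ hc]

theorem D_im (ψ : AddChar F ℂ) {U : Submodule F V} {c : F} (hc : c ≠ 0) {g : O Q}
    (hg : g ∈ sstab Q (U : Set V)) (Y : AddSubgroup V) :
    D Q ψ U (im c g Y) = im c⁻¹ g (D Q ψ U Y) := by
  ext u
  rw [mem_im' (inv_ne_zero hc), inv_inv, mem_D, mem_D]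
  refine and_congr ?_ ⟨fun h y hy => ?_, ?_⟩
  · rw [← U.smul_mem_iff hc]
    exact (inv_mem hg) _
  · have := h _ ((mem_im hc (g := g)).2 hy)
    rwa [← O.map_polar g, O.apply_inv_apply, polar_smul_left, ← polar_smul_right]
  · rintro h _ ⟨y, hy, rfl⟩
    have := h y hy
    rwa [← O.map_polar g, O.apply_inv_apply, polar_smul_left, ← polar_smul_right] at this

variable {Ω : Type*} [MulAction (O Q) Ω] {x x' : V}

theorem Y_smul (h : IsHyp Q x x') {c : F} (hc : c ≠ 0) {g : O Q} (hx : g x = c • x)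
    (hg : g ∈ sstab Q (hp Q x x' : Set V)) (ω : Ω) :
    Y h (stabilizer _ (g • ω)) = im c g (Y h (stabilizer _ ω)) := by
  ext u
  rw [mem_im' hc, mem_Y, mem_Y, ← eich_mem_stab, hx, eich_smul_left' hc, smul_inv_smul₀ hc]
  refine and_congr_left fun _ => ?_
  rw [← (hp Q x x').smul_mem_iff (inv_ne_zero hc)]
  exact (inv_mem hg) _

theorem Y_eich (h : IsHyp Q x x') {v : V} (hv : v ∈ hp Q x x') (ω : Ω) :
    Y h (stabilizer _ (eich Q x v • ω)) = Y h (stabilizer _ ω) := by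
  ext u
  rw [mem_Y, mem_Y]
  refine and_congr_right fun hu => ?_
  rw [← conj_mem_stab (ω := ω) (eich Q x v), eich_comm h.qe (mem_hp.1 hv).1 (mem_hp.1 hu).1,
    mul_inv_cancel_right]

theorem orb_le [Fintype V] (h : IsHyp Q x x') (ω : Ω) (t : Finset Ω)
    (ht : ∀ u ∈ hp Q x x', eich Q x u • ω ∈ t) :
    Nat.card (hp Q x x') ≤ #t * Nat.card (Y h (stabilizer _ ω)) := by
  rw [mul_comm, Nat.card_eq_fintype_card (α := hp Q x x'), Fintype.card_subtype]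
  refine card_le_mul_card_image_of_maps_to (f := fun u => eich Q x u • ω)
    (fun u hu => ht u (mem_filter.1 hu).2) _ fun b _ => ?_
  rcases Finset.eq_empty_or_nonempty (filter (fun u => eich Q x u • ω = b)
    (univ.filter (· ∈ hp Q x x'))) with h0 | ⟨a, ha⟩
  · rw [h0]; simp
  rw [← card_filter_mem]
  refine card_le_card_of_injOn (fun u => u - a) (fun u hu => ?_) fun _ _ _ _ h => sub_left_injective h
  simp only [coe_filter, mem_filter, mem_univ, true_and, Set.mem_ofPred_eq] at hu ha ⊢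
  refine ⟨sub_mem hu.1 ha.1, ?_⟩
  rw [sub_eq_neg_add, eich_add h.qe (by simp [(mem_hp.1 ha.1).1]) (mem_hp.1 hu.1).1, eich_neg,
    mem_stabilizer_iff, mul_smul, hu.2, ← ha.2, inv_smul_smul]

/-- The standing hypotheses. -/
structure Sm6 [Fintype F] (Q : QuadraticForm F V) {Ω : Type*} [MulAction (O Q) Ω] (S : Finset Ω) :
    Prop where
  hQ : Q.polarBilin.Nondegenerate
  six : finrank F V = 6
  mn : ¬ H58.IsPlus Q
  cl : ∀ g ∈ EG Q, ∀ ω ∈ S, g • ω ∈ S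
  small : #S ≤ Fintype.card F ^ 4 + Fintype.card F ^ 3 + Fintype.card F

variable [Fintype F] [FiniteDimensional F V] {S : Finset Ω} {y y' : V}

theorem exists_tor (hS : Sm6 Q S) (h : IsHyp Q x x') {c : F} (hc : c ≠ 0) :
    ∃ g ∈ EG Q, g x = c • x ∧ g ∈ sstab Q (hp Q x x' : Set V) := by
  obtain ⟨g, hg, h1⟩ := exists_EOin_apply_eq hS.hQ (nondeg_top hS.hQ)
    (by rw [finrank_top, hS.six]; omega) mem_top mem_top h.ne_zero (smul_ne_zero hc h.ne_zero)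
    (by rw [Q_smul, h.qe, mul_zero])
  have h2 : polar Q x (g x') = c⁻¹ := by
    have := (h.map g).ef
    rw [h1, polar_smul_left, smul_eq_mul] at this
    exact eq_inv_of_mul_eq_one_right this
  have h3 := eich_apply_eq (a := g x') (b := c⁻¹ • x') h.qe (by simp [Q_smul, h.qf])
    (by simp [h2, h.ef]) (by simp [h2, hc])
  have h4 : (eich Q x ((polar Q x (g x'))⁻¹ • (g x' - c⁻¹ • x')) * g) x = c • x := by
    rw [O.mul_apply, h1, map_smul, eich_apply_self h.qe (by simp [h2, h.ef])]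
  rw [← O.mul_apply] at h3
  refine ⟨_, mul_mem (eich_mem_EG _ _) hg, h4, ?_⟩
  generalize eich Q x ((polar Q x (g x'))⁻¹ • (g x' - c⁻¹ • x')) * g = k at h3 h4
  refine mem_sstab_of_le fun u hu => mem_hp.2 ⟨?_, ?_⟩
  · have := (O.map_polar k x u).trans (mem_hp.1 hu).1
    rw [h4] at this
    simpa [hc] using this
  · have := (O.map_polar k x' u).trans (mem_hp.1 hu).2
    rw [h3] at this
    simpa [hc] using this

theorem o4 (hS : Sm6 Q S) (h : Frm Q x y x' y') : O4 Q (hp Q x x') y y' where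
  nd := (nondeg_top hS.hQ).inf_ort_pair mem_top mem_top h.hx.qe h.hx.qf h.hx.ef
  he := mem_hp.2 ⟨h.xy, h.x'y⟩
  hf := mem_hp.2 ⟨h.xy', h.x'y'⟩
  hyp := h.hy
  r4 := by
    have a := finrank_inf_ort_lt (Q := Q) (W := ⊤) (a := x) (w := x') mem_top (by simp [h.hx.ef])
    have b := finrank_inf_ort_lt (Q := Q) (W := ⊤ ⊓ ort Q x) (a := x') (w := x)
      ⟨mem_top, mem_ort.2 h.hx.ee⟩ (by simp [h.hx.fe])
    rw [finrank_top, hS.six] at a
    unfold hp
    omega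
  ts z hz w hw a b c d := by
    by_contra hn
    push Not at hn
    obtain ⟨z1, z2⟩ := mem_hp.1 hz
    obtain ⟨w1, w2⟩ := mem_hp.1 hw
    have n1 : w ∉ span F {z} := fun hm => by
      obtain ⟨t, ht⟩ := mem_span_singleton.1 hm
      exact hn t ht.symm
    have n2 : x ∉ span F {z} ⊔ span F {w} := fun hm => by
      have : span F {z} ⊔ span F {w} ≤ ort Q x' := by simpa [span_le] using ⟨z2, w2⟩
      simpa [h.hx.fe] using this hm
    refine hS.mn ⟨span F {z} ⊔ span F {w} ⊔ span F {x}, by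
      rw [finrank_sup_singleton n2, finrank_sup_singleton n1, finrank_span_singleton d, hS.six],
      fun u hu => ?_⟩
    obtain ⟨_, h1, _, h2, rfl⟩ := mem_sup.1 hu
    obtain ⟨_, h3, _, h4, rfl⟩ := mem_sup.1 h1
    obtain ⟨r, rfl⟩ := mem_span_singleton.1 h2
    obtain ⟨s, rfl⟩ := mem_span_singleton.1 h3
    obtain ⟨t, rfl⟩ := mem_span_singleton.1 h4
    simp [Q_add, Q_smul, a, b, c, h.hx.qe, pc z1, pc w1]

variable [Fintype V]

/-- The points whose stabiliser meets the radical in a group of order `k`. -/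
noncomputable def T (h : IsHyp Q x x') (S : Finset Ω) (k : ℕ) : Finset Ω :=
  S.filter fun ω => Nat.card (Y h (stabilizer _ ω)) = k

omit [Fintype F] [FiniteDimensional F V] [Fintype V] in
theorem mem_T {h : IsHyp Q x x'} {k : ℕ} {ω : Ω} :
    ω ∈ T h S k ↔ ω ∈ S ∧ Nat.card (Y h (stabilizer _ ω)) = k := mem_filter

omit [Fintype V] in
theorem fam_of (hS : Sm6 Q S) (h : IsHyp Q x x') (k j : ℕ) (φ : AddSubgroup V → AddSubgroup V)
    (ε : F → F) (h1 : ε 1 = 1) (h2 : ∀ c, c ≠ 0 → ε c ≠ 0 ∧ ε (ε c) = c)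
    (h3 : ∀ c, c ≠ 0 → ∀ g ∈ sstab Q (hp Q x x' : Set V), ∀ Z, φ (im c g Z) = im (ε c) g (φ Z))
    (h4 : ∀ ω ∈ T h S k, (∀ u ∈ φ (Y h (stabilizer _ ω)), u ∈ hp Q x x') ∧
      Nat.card (φ (Y h (stabilizer _ ω))) = j) :
    Fam Q (hp Q x x') j ((T h S k).image fun ω => φ (Y h (stabilizer _ ω))) := by
  have key : ∀ c, c ≠ 0 → ∀ g ∈ EG Q, g x = c • x → g ∈ sstab Q (hp Q x x' : Set V) →
      ∀ Z ∈ (T h S k).image fun ω => φ (Y h (stabilizer _ ω)),
        im (ε c) g Z ∈ (T h S k).image fun ω => φ (Y h (stabilizer _ ω)) := by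
    intro c hc g hg a b Z hZ
    obtain ⟨ω, hω, rfl⟩ := mem_image.1 hZ
    refine mem_image.2 ⟨g • ω, mem_filter.2 ⟨hS.cl g hg ω (mem_filter.1 hω).1, ?_⟩, ?_⟩
    · rw [Y_smul h hc a b, card_im hc, (mem_filter.1 hω).2]
    · rw [Y_smul h hc a b, h3 c hc g b]
  refine ⟨fun Z hZ => ?_, fun Z hZ => ?_, fun g hg => ?_, fun c hc => ?_⟩
  · obtain ⟨ω, hω, rfl⟩ := mem_image.1 hZ
    exact (h4 ω hω).1
  · obtain ⟨ω, hω, rfl⟩ := mem_image.1 hZ
    exact (h4 ω hω).2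
  · rw [← h1]
    refine key 1 one_ne_zero g (EOin_mono (Set.subset_univ _) hg) ?_ (EOin_le_sstab _ hg)
    rw [one_smul]
    exact EOin_le_fixer _ hg x (mem_perp.2 fun w hw => pc (mem_hp.1 hw).1)
  · obtain ⟨g, hg, a, b⟩ := exists_tor hS h (h2 c hc).1
    exact ⟨g, b, (h2 c hc).2 ▸ key _ (h2 c hc).1 g hg a b⟩

theorem wt_le (hS : Sm6 Q S) (h : Frm Q x y x' y') {k j : ℕ} (hj : j * k = Fintype.card F ^ 4)
    (φ : AddSubgroup V → AddSubgroup V) :
    #((T h.hx S k).image fun ω => φ (Y h.hx (stabilizer _ ω))) * j ≤ #(T h.hx S k) := by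
  have := card_mul_le_fib (T h.hx S k) ((T h.hx S k).image fun ω => φ (Y h.hx (stabilizer _ ω)))
    (fun ω => φ (Y h.hx (stabilizer _ ω))) (Fintype.card F ^ 4) k fun Z hZ => by
      obtain ⟨ω, hω, rfl⟩ := mem_image.1 hZ
      obtain ⟨a, b⟩ := mem_T.1 hω
      rw [← (o4 hS h).card_U]
      have := orb_le h.hx ω (filter (fun o => φ (Y h.hx (stabilizer _ o)) =
        φ (Y h.hx (stabilizer _ ω))) (T h.hx S k)) fun u hu => mem_filter.2 ⟨mem_T.2
          ⟨hS.cl _ (eich_mem_EG _ _) ω a, by rw [Y_eich h.hx hu, b]⟩, by rw [Y_eich h.hx hu]⟩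
      rwa [b] at this
  rw [← hj, ← mul_assoc] at this
  refine Nat.le_of_mul_le_mul_right this (Nat.pos_of_ne_zero ?_)
  rintro rfl
  have := pow_pos (Fintype.card_pos (α := F)) 4
  omega

theorem exists_famD (hS : Sm6 Q S) (h : Frm Q x y x' y') {ω : Ω} (hω : ω ∈ S) :
    ∃ (j : ℕ) (𝒳 : Finset (AddSubgroup V)) (X : AddSubgroup V), Fam Q (hp Q x x') j 𝒳 ∧ X ∈ 𝒳 ∧
      j * Nat.card (Y h.hx (stabilizer _ ω)) = Fintype.card F ^ 4 ∧
      #𝒳 * j ≤ #(T h.hx S (Nat.card (Y h.hx (stabilizer _ ω)))) := by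
  obtain ⟨ψ, hψ⟩ := MU.exists_addChar F
  have hc : ∀ ω : Ω, Nat.card (D Q ψ (hp Q x x') (Y h.hx (stabilizer _ ω))) *
      Nat.card (Y h.hx (stabilizer _ ω)) = Fintype.card F ^ 4 := fun ω => by
    rw [card_D hψ (o4 hS h).nd fun _ hy => (mem_Y.1 hy).1, (o4 hS h).card_U]
  refine ⟨_, _, _, fam_of hS h.hx _ _ (D Q ψ (hp Q x x')) (·⁻¹) inv_one
    (fun c hc => ⟨inv_ne_zero hc, inv_inv c⟩) (fun c hc g hg => D_im ψ hc hg)
    fun ω' hω' => ⟨fun _ hu => hu.1, ?_⟩, mem_image_of_mem _ (mem_filter.2 ⟨hω, rfl⟩), hc ω,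
    wt_le hS h (hc ω) _⟩
  refine Nat.eq_of_mul_eq_mul_right (Nat.card_pos (α := Y h.hx (stabilizer _ ω))) ?_
  rw [hc ω, ← (mem_T.1 hω').2, hc]

theorem tri0 (hS : Sm6 Q S) (h : Frm Q x y x' y') {ω : Ω} (hω : ω ∈ S)
    (h0 : Y h.hx (stabilizer _ ω) ≠ ⊥) :
    Fintype.card F ^ 3 ≤ Nat.card (Y h.hx (stabilizer _ ω)) := by
  by_contra hlt
  rw [not_le] at hlt
  obtain ⟨j, 𝒳, X, H, hX, hj, hw⟩ := exists_famD hS h hω
  have hT := fun k => (card_filter_le S _ : #(T h.hx S k) ≤ #S).trans hS.small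
  have hq : 1 < Fintype.card F := Fintype.one_lt_card
  have h1 : Fintype.card F < j := by
    by_contra hh
    have := Nat.mul_lt_mul_of_le_of_lt (not_lt.1 hh) hlt (by omega)
    rw [hj] at this
    exact absurd this (by ring_nf; omega)
  by_cases h2 : j ≤ Fintype.card F ^ 2
  · exact absurd (H.b2b (o4 hS h) hX h1 h2 ⟨_, hj.symm⟩) (not_lt.2 (hw.trans (hT _)))
  have H2 := fam_of hS h.hx _ _ id id rfl (fun c hc => ⟨hc, rfl⟩) (fun _ _ _ _ _ => rfl)
    fun ω' (hω' : ω' ∈ T h.hx S (Nat.card (Y h.hx (stabilizer _ ω)))) =>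
      ⟨fun _ hu => hu.1, (mem_filter.1 hω').2⟩
  refine absurd (H2.b2a (o4 hS h) (mem_image_of_mem _ (mem_filter.2 ⟨hω, rfl⟩)) h0
    ((mul_comm _ _).trans hj) ?_) (not_lt.2 ((wt_le hS h hj _).trans (hT _)))
  obtain ⟨p, hc⟩ := CharP.exists F
  obtain ⟨n, hp, hn⟩ := FiniteField.card F p
  have h3 : Nat.card (Y h.hx (stabilizer _ ω)) < Fintype.card F ^ 2 := by
    by_contra hh
    have := Nat.mul_lt_mul_of_lt_of_le (not_le.1 h2) (not_lt.1 hh) Nat.card_pos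
    rw [hj] at this
    exact absurd this (by ring_nf; omega)
  rw [hn, ← pow_mul] at hj h3 ⊢
  obtain ⟨a, -, ha⟩ := (Nat.dvd_prime_pow hp).1 (Dvd.intro_left _ hj)
  rw [ha] at h3 ⊢
  refine (Nat.mul_le_mul_right _ hp.two_le).trans ?_
  rw [← pow_succ']
  exact Nat.pow_le_pow_right hp.pos ((Nat.pow_lt_pow_iff_right hp.one_lt).1 h3)

theorem tri1 (hS : Sm6 Q S) (h : Frm Q x y x' y') {ω0 : Ω} (hω0 : ω0 ∈ S)
    (h0 : Y h.hx (stabilizer _ ω0) = ⊥) {ω : Ω} (hω : ω ∈ S) :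
    Y h.hx (stabilizer _ ω) = ⊥ ∨ (∀ u ∈ hp Q x x', eich Q x u ∈ stabilizer (O Q) ω) ∨
      #S = Fintype.card F ^ 4 + Fintype.card F ^ 3 + Fintype.card F := by
  obtain ⟨j, 𝒳, X, H, hX, hj, hw⟩ := exists_famD hS h hω
  by_cases h1 : Nat.card (Y h.hx (stabilizer _ ω)) = 1
  · exact .inl (AddSubgroup.card_eq_one.1 h1)
  by_cases h2 : X = ⊥
  · have h3 := H.cd X hX
    rw [h2, AddSubgroup.card_bot] at h3
    rw [← h3, one_mul, ← (o4 hS h).card_U] at hj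
    have := AddSubgroup.eq_of_le_of_card_ge (H := Y h.hx (stabilizer _ ω))
      (K := (hp Q x x').toAddSubgroup) (fun _ hu => hu.1) hj.ge
    exact .inr (.inl fun u hu => (show u ∈ Y h.hx (stabilizer _ ω) from this ▸ hu).2)
  have h3 := (H.b1 (o4 hS h) hX h2).trans hw
  have h4 := orb_le h.hx ω0 (T h.hx S 1) fun u hu => mem_filter.2
    ⟨hS.cl _ (eich_mem_EG _ _) _ hω0, by rw [Y_eich h.hx hu, h0, AddSubgroup.card_bot]⟩
  rw [h0, AddSubgroup.card_bot, mul_one, (o4 hS h).card_U] at h4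
  have h5 : #(T h.hx S 1 ∪ T h.hx S (Nat.card (Y h.hx (stabilizer _ ω)))) ≤ #S :=
    card_le_card (union_subset (filter_subset _ _) (filter_subset _ _))
  rw [card_union_of_disjoint (disjoint_left.2 fun _ a b =>
    h1 ((mem_T.1 b).2.symm.trans (mem_T.1 a).2))] at h5
  refine .inr (.inr (le_antisymm hS.small ?_))
  rw [mul_add, mul_one, ← pow_succ', show 2 + 1 = 3 from rfl] at h3
  omega

theorem reg_trans (hS : Sm6 Q S) (h : Frm Q x y x' y')
    (h0 : ∀ ω ∈ S, Y h.hx (stabilizer _ ω) = ⊥) {ω ω' : Ω} (hω : ω ∈ S) (hω' : ω' ∈ S) :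
    ∃ u ∈ hp Q x x', eich Q x u • ω = ω' := by
  by_contra hn
  push Not at hn
  have a := orb_le h.hx ω (S.filter fun o => ∃ u ∈ hp Q x x', eich Q x u • ω = o) fun u hu =>
    mem_filter.2 ⟨hS.cl _ (eich_mem_EG _ _) _ hω, u, hu, rfl⟩
  have b := orb_le h.hx ω' (S.filter fun o => ¬ ∃ u ∈ hp Q x x', eich Q x u • ω = o) fun u hu =>
    mem_filter.2 ⟨hS.cl _ (eich_mem_EG _ _) _ hω', fun ⟨v, hv, he⟩ =>
      hn (-u + v) (add_mem (neg_mem hu) hv) (by
        rw [eich_add h.hx.qe (by simp [(mem_hp.1 hu).1]) (mem_hp.1 hv).1, eich_neg, mul_smul, he,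
          inv_smul_smul])⟩
  rw [h0 _ hω, AddSubgroup.card_bot, mul_one, (o4 hS h).card_U] at a
  rw [h0 _ hω', AddSubgroup.card_bot, mul_one, (o4 hS h).card_U] at b
  have c := card_filter_add_card_filter_not (s := S)
    fun o => ∃ u ∈ hp Q x x', eich Q x u • ω = o
  have d := hS.small
  have hq : 1 < Fintype.card F := Fintype.one_lt_card
  obtain ⟨r, hr⟩ : ∃ r, Fintype.card F = r + 2 := ⟨Fintype.card F - 2, by omega⟩
  have : (r + 2) ^ 3 + (r + 2) < (r + 2) ^ 4 := by ring_nf; omega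
  rw [hr] at a b d
  omega

end H20.U4
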