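import Cfsg.Agent.H20.U4D

/-! Small actions of `Ω₆⁻(q)`: the degree is at least the number of singular points, up to one
value excluded by divisibility. -/

set_option autoImplicit false

namespace H20.U4

open QuadraticMap H56 H60 H26 Module Submodule Finset MulAction Matrix
open scoped Classical

theorem card_eq_ker_mul {A B : Type*} [AddCommGroup A] [AddCommGroup B] (Z : AddSubgroup A)
    (φ : A →+ B) : Nat.card Z = Nat.card ↥(φ.ker ⊓ Z) * Nat.card (Z.map φ) := by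
  rw [← AddSubgroup.relIndex_ker, ← AddSubgroup.card_mul_index (φ.ker.addSubgroupOf Z),
    AddSubgroup.relIndex, ← AddSubgroup.inf_addSubgroupOf_right,
    Nat.card_congr (AddSubgroup.addSubgroupOfEquivOfLe inf_le_right).toEquiv]

variable {F V : Type*} [Field F] [AddCommGroup V] [Module F V] {Q : QuadraticForm F V}
  {x y x' y' : V} {M : Subgroup (O Q)}

theorem frm_symm (h : Frm Q x y x' y') : Frm Q y x y' x' :=
  ⟨h.hy, h.hx, pc h.xy, pc h.x'y, pc h.xy', pc h.x'y'⟩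

theorem fU_symm {w : V} (h : w ∈ fU Q y x y' x') : w ∈ fU Q x y x' y' := by
  rw [mem_fU] at h ⊢; tauto

theorem ro_symm (h : Frm Q x y x' y') : (frm_symm h).Ro M = h.Ro M := by
  ext t
  rw [Frm.mem_Ro, Frm.mem_Ro, ← eich_smul_left t x y h.hx.qe h.xy,
    eich_swap (u := t • x) (v := y) (by simp [Q_smul, h.hx.qe]) h.hy.qe (by simp [h.xy]),
    inv_mem_iff]

/-- `M` meets the radical attached to `x` trivially. -/
def Reg (M : Subgroup (O Q)) (x : V) : Prop :=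
  ∀ w, polar Q x w = 0 → eich Q x w ∈ M → ∃ c : F, w = c • x

theorem proj_mem (h : IsHyp Q x x') {w : V} (hw : polar Q x w = 0) :
    w - polar Q x' w • x ∈ hp Q x x' ∧ eich Q x (w - polar Q x' w • x) = eich Q x w :=
  ⟨mem_hp.2 ⟨by simp [hw, h.ee], by simp [h.fe]⟩, by
    rw [sub_eq_add_neg, ← neg_smul, eich_add_smul_self _ h.qe hw]⟩

theorem reg_iff (h : IsHyp Q x x') : Y h M = ⊥ ↔ Reg M x := by
  refine ⟨fun h0 w a b => ⟨polar Q x' w, sub_eq_zero.1 ?_⟩,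
    fun h0 => eq_bot_iff.2 fun u hu => ?_⟩
  · rw [← AddSubgroup.mem_bot, ← h0]
    exact ⟨(proj_mem h a).1, (proj_mem h a).2 ▸ b⟩
  · obtain ⟨c, rfl⟩ := h0 u (mem_hp.1 hu.1).1 hu.2
    have := (mem_hp.1 hu.1).2
    simp only [polar_smul_right, h.fe, smul_eq_mul, mul_one] at this
    simp [this]

theorem Reg.smul {Ω : Type*} [MulAction (O Q) Ω] {ω : Ω} (h : Reg (stabilizer (O Q) ω) x)
    (g : O Q) : Reg (stabilizer (O Q) (g • ω)) (g x) := fun w h1 h2 => by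
  rw [O.polar_apply_left] at h1
  obtain ⟨c, hc⟩ := h _ h1 ((eich_mem_stab g).1 h2)
  exact ⟨c, by rw [← map_smul, ← hc, O.apply_inv_apply]⟩

theorem dep (h : Frm Q x y x' y') (hR : ∀ z, Q z = 0 → z ≠ 0 → Reg M z) {v : V × V}
    (hv : v ∈ h.Yof M) {s t : F} (hst : s ≠ 0 ∨ v.2 = 0) (h0 : s • v.1 + t • v.2 = 0) : v = 0 := by
  obtain ⟨a, b⟩ := v
  obtain ⟨h1, h2, r, h3⟩ := hv
  simp only at h0 h1 h2 hst
  obtain ⟨a1, a2, a3, a4⟩ := mem_fU.1 h1
  obtain ⟨b1, b2, b3, b4⟩ := mem_fU.1 h2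
  have k : b = 0 → (a, b) = 0 := by
    rintro rfl
    rw [← eich_left h.hx.qe h.xy a1 0 r] at h3
    obtain ⟨c, hc⟩ := hR x h.hx.qe h.hx.ne_zero _ (by simp [a1, h.xy]) h3
    have e1 := congrArg (polar Q x') hc
    have e2 := congrArg (polar Q y') hc
    simp [a2, a4, h.x'y, h.hx.fe, h.hy.fe, pc h.xy'] at e1 e2
    simpa [← e1, e2] using hc
  refine k (hst.elim (fun hs => ?_) id)
  obtain ⟨l, rfl⟩ : ∃ l : F, a = l • b := ⟨-(s⁻¹ * t), by
    rw [← inv_smul_smul₀ hs a, eq_neg_of_add_eq_zero_left h0]; module⟩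
  have hz : Q (l • x + (1 : F) • y) = 0 := by simp [Q_add, Q_smul, h.hx.qe, h.hy.qe, h.xy]
  have e : eich Q (l • x + (1 : F) • y) (b + (l * Q b - r) • ((1 : F) • x + (0 : F) • y)) =
      ee Q x y (l • b, b) r := by
    rw [eich_add hz (by simp [b1, b3]) (by simp [h.hx.ee, pc h.xy]),
      eich_comb h.hx.qe h.hy.qe h.xy l 1 b1 b3, eich_det h.hx.qe h.hy.qe h.xy, ← ee_zero,
      ee_mul h.hx.qe h.hy.qe h.xy (by simp [InL, b1, b3]) (by simp [InL])]
    simp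
  obtain ⟨c, hc⟩ := hR _ hz (fun h0 => by
    simpa [h.hy.fe, pc h.xy'] using congrArg (polar Q y') h0) _
    (by simp [b1, b3, h.hx.ee, pc h.xy]) (e ▸ h3)
  have e1 := congrArg (polar Q x') hc
  have e2 := congrArg (polar Q y') hc
  simp [b2, b4, h.x'y, h.hx.fe, h.hy.fe, pc h.xy'] at e1 e2
  simpa [e1, ← e2] using hc

variable [Fintype F] [Fintype V] [FiniteDimensional F V] {Ω : Type*} [MulAction (O Q) Ω]
  {S : Finset Ω}

omit [FiniteDimensional F V] in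
theorem half (h : Frm Q x y x' y') (hb : Fintype.card F ^ 3 ≤ Nat.card (Y h.hx M)) :
    Fintype.card F ^ 2 ≤
      Nat.card (h.Ro M) * Nat.card ((h.Yof M).comap (AddMonoidHom.inl V V)) := by
  let φ : V →+ F := (Q.polarBilin y).toAddMonoidHom
  let π : V →+ V := (LinearMap.id - (Q.polarBilin y').smulRight y).toAddMonoidHom
  have e1 := card_eq_ker_mul (Y h.hx M) φ
  have e2 := card_eq_ker_mul (φ.ker ⊓ Y h.hx M) π
  have a1 : Nat.card ((Y h.hx M).map φ) ≤ Fintype.card F := by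
    rw [← Nat.card_eq_fintype_card]; exact AddSubgroup.card_le_card_addGroup _
  have a2 : Nat.card ((φ.ker ⊓ Y h.hx M).map π) ≤
      Nat.card ((h.Yof M).comap (AddMonoidHom.inl V V)) := AddSubgroup.card_le_of_le (by
    rintro _ ⟨u, ⟨u1, u2, u3⟩, rfl⟩
    have u1' : polar Q y u = 0 := u1
    obtain ⟨u4, u5⟩ := mem_hp.1 u2
    refine ⟨mem_fU.2 ?_, zero_mem _, polar Q y' u, ?_⟩
    · simp [π, u1', u4, u5, h.xy, h.x'y, h.hy.ee, h.hy.fe]
    · simpa [ee, π] using u3)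
  have a3 : Nat.card ↥(π.ker ⊓ (φ.ker ⊓ Y h.hx M)) ≤ Nat.card (h.Ro M) := by
    have k : ∀ u ∈ π.ker, u = polar Q y' u • y := fun u hu => sub_eq_zero.1 hu
    exact Nat.card_le_card_of_injective
      (fun u => ⟨polar Q y' u, h.mem_Ro.2 (k u u.2.1 ▸ u.2.2.2.2)⟩) fun u u' hu => Subtype.ext (by
        rw [k u u.2.1, k u' u'.2.1]; exact congrArg (· • y) (congrArg Subtype.val hu))
  refine Nat.le_of_mul_le_mul_right ?_ (Fintype.card_pos (α := F))
  rw [← pow_succ]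
  exact hb.trans (e1.trans_le (Nat.mul_le_mul (e2.trans_le (Nat.mul_le_mul a3 a2)) a1))

theorem big_case (hS : Sm6 Q S) (hb : ∀ x y x' y' (h : Frm Q x y x' y'),
    Fintype.card F ^ 3 ≤ Nat.card (Y h.hx M)) : EG Q ≤ M := by
  refine EG_le_of_long (idx2_of_five_le hS.hQ (by rw [hS.six]; omega)) fun x y a b c d => ?_
  by_cases hi : ∃ t : F, y = t • x
  · obtain ⟨t, rfl⟩ := hi
    rw [eich_smul_self t b]; exact one_mem _
  obtain ⟨x', y', h⟩ := TSP.exists_frm hS.hQ ⟨b, c, d, a, fun t ht => hi ⟨t, ht⟩⟩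
  suffices H : h.Ro M = ⊤ by
    have := h.mem_Ro.1 (H ▸ AddSubgroup.mem_top (1 : F) : (1 : F) ∈ h.Ro M)
    rwa [one_smul] at this
  by_contra hR
  have a1 := half h (hb _ _ _ _ h)
  have a2 := half (frm_symm h) (hb _ _ _ _ (frm_symm h))
  rw [ro_symm h] at a2
  have a3 := card_mul_le_of_orth Q.polarBilin _ hR (fU Q x y x' y').toAddSubgroup
    ((h.Yof M).comap (AddMonoidHom.inl V V)) (((frm_symm h).Yof M).comap (AddMonoidHom.inl V V))
    (fun _ hu => hu.1) (fun _ hu => fU_symm hu.1) (fun u hu h0 c => by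
      obtain ⟨v, hv, h1⟩ := (h.nondeg hS.hQ).exists_polar_one hu h0
      exact ⟨c • v, smul_mem _ _ hv, by simp [polar_comm Q v, h1]⟩) fun u hu w hw => by
      obtain ⟨u1, -, t, u2⟩ := hu
      have : ((0 : V), u) ∈ h.Yof M := ⟨zero_mem _, fU_symm u1, -t, by
        rw [← eich_right h.hx.qe h.hy.qe h.xy (w := u) (mem_fU.1 u1).1 t 0]
        simpa [ee] using u2⟩
      simpa [bet_apply] using h.bet_mem_Ro this hw
  have a4 : Nat.card (fU Q x y x' y').toAddSubgroup = Fintype.card F ^ 2 := (o4 hS h).card_P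
  have a5 : Nat.card (h.Ro M) < Fintype.card F := by
    rw [← Nat.card_eq_fintype_card]
    exact lt_of_le_of_ne (AddSubgroup.card_le_card_addGroup _) fun h0 =>
      hR (AddSubgroup.eq_top_of_card_eq _ h0)
  rw [a4] at a3
  have a6 := Nat.mul_le_mul a1 a2
  rw [mul_mul_mul_comm, mul_comm (Nat.card (AddSubgroup.comap _ _))] at a6
  have a7 := Nat.le_of_mul_le_mul_right (a6.trans (Nat.mul_le_mul_left _ a3))
    (pow_pos Fintype.card_pos 2)
  nlinarith

theorem reg_case (hS : Sm6 Q S) (h : Frm Q x y x' y') {ω : Ω} (hω : ω ∈ S)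
    (hR : ∀ ω ∈ S, ∀ z, Q z = 0 → z ≠ 0 → Reg (stabilizer (O Q) ω) z) : False := by
  have hO := o4 hS h
  have hRo : ∀ t ∈ h.Ro (stabilizer (O Q) ω), t = 0 := fun t ht => by
    obtain ⟨c, hc⟩ := hR ω hω x h.hx.qe h.hx.ne_zero _ (by simp [h.xy]) (h.mem_Ro.1 ht)
    simpa [h.hy.fe, pc h.xy'] using congrArg (polar Q y') hc
  obtain ⟨v, hv, h0⟩ : ∃ v ∈ h.Yof (stabilizer (O Q) ω), v ≠ 0 := by
    by_contra hc
    push Not at hc
    have := Nat.card_le_card_of_injective (fun p : fU Q x y x' y' × fU Q x y x' y' × F =>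
      (⟨ee Q x y (p.1, p.2.1) p.2.2 • ω, hS.cl _ (ee_mem_EG _ _ _ _) _ hω⟩ : S)) (by
      rintro ⟨a, b, t⟩ ⟨a', b', t'⟩ he
      have i1 : InL Q x y (a.1, b.1) := Frm.inL a.2 b.2
      have i2 : InL Q x y (a'.1, b'.1) := Frm.inL a'.2 b'.2
      have h1 : (ee Q x y (a'.1, b'.1) t')⁻¹ * ee Q x y (a.1, b.1) t ∈ stabilizer (O Q) ω := by
        rw [mem_stabilizer_iff, mul_smul, inv_smul_eq_iff]
        exact congrArg Subtype.val he
      rw [ee_inv h.hx.qe h.hy.qe h.xy i2,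
        ee_mul h.hx.qe h.hy.qe h.xy (by simpa [InL] using i2) i1] at h1
      have h2 := neg_add_eq_zero.1 (hc _ ⟨add_mem (neg_mem a'.2) a.2, add_mem (neg_mem b'.2) b.2,
        _, h1⟩)
      obtain ⟨e1, e2⟩ := Prod.ext_iff.1 h2
      obtain rfl : a' = a := Subtype.ext e1
      obtain rfl : b' = b := Subtype.ext e2
      rw [neg_add_cancel, ee_zero] at h1
      have h3 := hRo _ (h.mem_Ro.2 h1)
      simp only [Prod.snd_neg, polar_neg_left] at h3
      rw [show t = t' by linear_combination h3])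
    have a4 : Nat.card (fU Q x y x' y') = Fintype.card F ^ 2 := hO.card_P
    rw [Nat.card_prod, Nat.card_prod, a4, Nat.card_eq_fintype_card, Nat.card_eq_fintype_card,
      Fintype.card_coe] at this
    have h1 := this.trans hS.small
    have hq : 1 < Fintype.card F := Fintype.one_lt_card
    obtain ⟨r, hr⟩ : ∃ r, Fintype.card F = r + 2 := ⟨Fintype.card F - 2, by omega⟩
    rw [hr] at h1
    ring_nf at h1
    omega
  have hd := fun s t a b => h0 (dep h (hR ω hω) hv (s := s) (t := t) a b)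
  have hv2 : v.2 ≠ 0 := fun h2 => hd 0 0 (.inr h2) (by simp)
  have hQ2 : Q v.2 ≠ 0 := fun h2 => hv2 (hO.an hv.2.1 h2)
  by_cases h2 : (2 : F) = 0
  · obtain ⟨v1, v2, t, ht⟩ := hv
    have h3 := mul_mem ht ht
    rw [ee_mul h.hx.qe h.hy.qe h.xy (Frm.inL v1 v2) (Frm.inL v1 v2), ← two_smul F v, h2, zero_smul,
      ee_zero] at h3
    have h4 := hRo _ (h.mem_Ro.2 h3)
    rw [← two_mul, h2, zero_mul, zero_add] at h4
    obtain ⟨u, hu, h5⟩ := hO.ndP.exists_polar_ne v2 hv2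
    have h6 := finrank_inf_ort_lt hu h5
    have h7 : span F {v.2} = (hp Q x x' ⊓ ort Q y ⊓ ort Q y') ⊓ ort Q v.2 :=
      eq_of_le_of_finrank_eq ((span_singleton_le_iff_mem _ _).2 ⟨v2, by simp [h2]⟩) (by
        rw [finrank_span_singleton hv2]
        have := hO.r2
        omega)
    obtain ⟨c, hc⟩ := mem_span_singleton.1 (show v.1 ∈ span F {v.2} from h7.ge ⟨v1, h4⟩)
    exact hd 1 (-c) (.inl one_ne_zero) (by simp [← hc])
  · obtain ⟨c, hc⟩ : ∃ c, c = polar Q v.2 v.2 := ⟨_, rfl⟩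
    obtain ⟨d, hd'⟩ : ∃ d, d = -polar Q v.1 v.2 := ⟨_, rfl⟩
    have hc0 : c ≠ 0 := by rw [hc, polar_self']; exact mul_ne_zero h2 hQ2
    have hω' := hS.cl _ (mul_mem (eich_mem_EG y (c • x')) (eich_mem_EG x (((d - 1) / c) • y'))) _ hω
    obtain ⟨u, hu, he⟩ := reg_trans hS h
      (fun o ho => (reg_iff h.hx).2 (hR o ho x h.hx.qe h.hx.ne_zero)) hω' hω
    obtain ⟨u1, u2⟩ := mem_hp.1 hu
    obtain ⟨t, ht⟩ : ∃ t, t = polar Q y u := ⟨_, rfl⟩
    obtain ⟨w, hw, e⟩ := h.decomp (w := u - t • y') (by simp [u1, h.xy']) (by simp [ht, h.hy.ef])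
    rw [eq_add_of_sub_eq e, eich_add h.hx.qe (by simp [(mem_fU.1 hw).1, h.hx.ee, h.xy])
      (by simp [h.xy']), eich_left h.hx.qe h.xy (mem_fU.1 hw).1, mul_smul, mul_smul] at he
    have k1 : ∀ (s : F) (o : Ω), ∀ z ∈ h.Yof (stabilizer (O Q) o),
        (z.1 + s • z.2, z.2) ∈ h.Yof (stabilizer (O Q) (eich Q x (s • y') • o)) := fun s o z hz => by
      have := h.mp_le (h.nm12 s) (fun k hk => (conj_mem_stab _).2 hk) (trm_mem_mp hz)
      simpa [trm_apply, h.fix12 s hz.1, h.fix12 s hz.2.1] using this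
    have k2 : ∀ (s : F) (o : Ω), ∀ z ∈ h.Yof (stabilizer (O Q) o),
        (z.1, s • z.1 + z.2) ∈ h.Yof (stabilizer (O Q) (eich Q y (s • x') • o)) := fun s o z hz => by
      have := h.mp_le (h.nm21 s) (fun k hk => (conj_mem_stab _).2 hk) (trm_mem_mp hz)
      simpa [trm_apply, h.fix21 s hz.1, h.fix21 s hz.2.1] using this
    have k3 := k1 t _ _ (k2 c _ _ (k1 ((d - 1) / c) _ _ hv))
    rw [← h.Yof_ee (v := (w, 0)) (Frm.inL hw (zero_mem _)) (polar Q y' (u - t • y')), he] at k3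
    have k4 := hRo _ (h.bet_mem_Ro hv k3)
    simp only [bet_apply, polar_add_right, polar_smul_right, smul_eq_mul, ← hc,
      polar_comm Q v.2 v.1, show polar Q v.1 v.2 = -d by rw [hd', neg_neg]] at k4
    field_simp at k4
    refine hd c (1 + d) (.inl hc0) (hO.an (add_mem (smul_mem _ _ hv.1) (smul_mem _ _ hv.2.1))
      (mul_left_cancel₀ h2 ?_))
    rw [← polar_self', mul_zero]
    simp only [polar_add_right, polar_add_left, polar_smul_right, polar_smul_left, smul_eq_mul,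
      ← hc, polar_comm Q v.2 v.1, show polar Q v.1 v.2 = -d by rw [hd', neg_neg]]
    linear_combination (-c) * k4

omit [Fintype V] in
theorem exists_frm (hS : Sm6 Q S) (hx : Q x = 0) (h0 : x ≠ 0) : ∃ y x' y', Frm Q x y x' y' := by
  obtain ⟨y, a, b, c⟩ := exists_sing_not_mem_of_finrank (Q := Q) (ort Q x) (span F {x}) (by
    have := finrank_le_inf_ort (Q := Q) ⊤ x
    rw [finrank_top, top_inf_eq, hS.six] at this
    rw [finrank_span_singleton h0]
    omega)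
  exact ⟨y, TSP.exists_frm hS.hQ ⟨hx, b, a, h0, fun t ht => c (mem_span_singleton.2 ⟨t, ht.symm⟩)⟩⟩

theorem main (hS : Sm6 Q S) (hne : S.Nonempty) (hM : ∀ ω ∈ S, ¬ EG Q ≤ stabilizer (O Q) ω) :
    #S = Fintype.card F ^ 4 + Fintype.card F ^ 3 + Fintype.card F := by
  by_contra hn
  obtain ⟨ω, hω⟩ := hne
  by_cases H : ∃ x, Q x = 0 ∧ x ≠ 0 ∧ ∃ ω ∈ S, Reg (stabilizer (O Q) ω) x
  swap
  · exact hM ω hω (big_case hS fun x y x' y' h => tri0 hS h hω fun h0 =>
      H ⟨x, h.hx.qe, h.hx.ne_zero, ω, hω, (reg_iff h.hx).1 h0⟩)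
  obtain ⟨x, hx, h0, ω0, hω0, hR⟩ := H
  have k : ∀ ω ∈ S, ∀ z, Q z = 0 → z ≠ 0 →
      Reg (stabilizer (O Q) ω) z ∨ Full (stabilizer (O Q) ω) z := fun o ho z hz hz0 => by
    obtain ⟨g, hg, rfl⟩ := exists_EOin_apply_eq hS.hQ (nondeg_top hS.hQ)
      (by rw [finrank_top, hS.six]; omega) mem_top mem_top h0 hz0 (hx.trans hz.symm)
    obtain ⟨y, x', y', h⟩ := exists_frm hS hz hz0
    rcases tri1 hS h (hS.cl g hg _ hω0) ((reg_iff h.hx).2 (hR.smul g)) ho with a | a | a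
    · exact .inl ((reg_iff h.hx).1 a)
    · exact .inr (Full.of fun w hw => (proj_mem h.hx hw).2 ▸ a _ (proj_mem h.hx hw).1)
    · exact absurd a hn
  obtain ⟨y, x', y', h⟩ := exists_frm hS hx h0
  refine reg_case hS h hω fun o ho z hz hz0 => (k o ho z hz hz0).resolve_right fun hF => ?_
  obtain ⟨u, z', u', h⟩ := exists_frm hS hz hz0
  have k2 : ∀ w, Q w = 0 → w ≠ 0 → polar Q z w = 0 → polar Q z' w = 0 →
      Full (stabilizer (O Q) o) w := fun w a b c d => (k o ho w a b).resolve_left fun hr => by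
    obtain ⟨t, ht⟩ := hr z (pc c) (by rw [eich_swap hz a c]; exact inv_mem (hF w))
    simpa [h.hx.fe, d] using congrArg (polar Q z') ht
  exact hM o ho (EOin_le_of_full hS.hQ (k2 u h.hy.qe h.hy.ne_zero h.xy h.x'y)
    (k2 u' h.hy.qf h.hy.symm.ne_zero h.xy' h.x'y') h.hy.qe h.hy.qf (by simp [h.hy.ef]))

end H20.U4
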