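import Cfsg.Agent.H20.U4E
import Cfsg.Agent.H26.MinCount
import Cfsg.Agent.H59.SU
import Cfsg.Agent.S0303

/-! The minimal index of a proper subgroup of `PSU₄(q)`. -/

set_option autoImplicit false

namespace H20.U4

open QuadraticMap H56 H60 H26 Module Submodule Finset MulAction
open scoped Classical

variable {F : Type*} [Field F] [Fintype F]

theorem le_relIndex {V : Type*} [AddCommGroup V] [Module F V] [FiniteDimensional F V]
    {Q : QuadraticForm F V} (hQ : Q.polarBilin.Nondegenerate) (h6 : finrank F V = 6)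
    (hm : ¬ H58.IsPlus Q) (M : Subgroup (O Q)) (hM : ¬ EG Q ≤ M) :
    Fintype.card F ^ 4 + Fintype.card F ^ 3 + Fintype.card F ≤ M.relIndex (EG Q) := by
  suffices H : ∀ (Ω : Type _) [MulAction (O Q) Ω] (ω0 : Ω), stabilizer (O Q) ω0 = M →
      Fintype.card F ^ 4 + Fintype.card F ^ 3 + Fintype.card F ≤ M.relIndex (EG Q) from
    H (O Q ⧸ M) _ (stabilizer_quotient M)
  intro Ω _ ω0 h0
  by_contra hlt
  push Not at hlt
  have : Finite V := Module.finite_of_finite F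
  let _ := Fintype.ofFinite V
  have hfin : (orbit (EG Q) ω0).Finite := Set.finite_range _
  have hc : #hfin.toFinset = M.relIndex (EG Q) := by
    rw [← Set.ncard_eq_toFinset_card _ hfin, ← relIndex_stab, h0]
  have hS : Sm6 Q hfin.toFinset := ⟨hQ, h6, hm, fun g hg ω hω => by
    rw [Set.Finite.mem_toFinset] at hω ⊢
    exact mem_orbit_of_mem_orbit (⟨g, hg⟩ : EG Q) hω, by omega⟩
  have := main hS ⟨ω0, hfin.mem_toFinset.2 (mem_orbit_self _)⟩ fun ω hω hle => by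
    obtain ⟨g, rfl⟩ := hfin.mem_toFinset.1 hω
    refine hM fun k hk => ?_
    rw [← h0, ← conj_mem_stab (ω := ω0) g.1]
    exact hle (mul_mem (mul_mem g.2 hk) (inv_mem g.2))
  omega

theorem idx_POmega {ι : Type} [Fintype ι] [DecidableEq ι] (Q : QuadraticForm F (ι → F))
    {q : (ι → F) → F} (h : ⇑Q = q) (hQ : Q.polarBilin.Nondegenerate)
    (h5 : 5 ≤ finrank F (ι → F)) {b : ℕ}
    (hmin : ∀ M : Subgroup (O Q), ¬ EG Q ≤ M → b ≤ M.relIndex (EG Q)) (z : ι → F) :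
    (∀ H : Subgroup (Cfsg.POmega F q), H ≠ ⊤ → b ≤ H.index) ∧
      ∃ H : Subgroup (Cfsg.POmega F q), H.index = (Pst Q z).relIndex (EG Q) := by
  have hE : commutator (O Q) = EG Q := commutator_eq_EOin hQ h5
  let φ : commutator (O Q) →* Cfsg.POmega F q :=
    (pOmegaEquiv Q h).symm.toMonoidHom.comp (QuotientGroup.mk' _)
  have hφ : Function.Surjective φ :=
    (pOmegaEquiv Q h).symm.surjective.comp (QuotientGroup.mk'_surjective _)
  have hz : (Pst Q z).relIndex (EG Q) = (Pst Q z).relIndex (commutator (O Q)) := by rw [hE]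
  rw [← hE] at hmin
  refine ⟨fun H hH => ?_, ((Pst Q z).subgroupOf (commutator (O Q))).map φ, ?_⟩
  · have := hmin ((H.comap φ).map (commutator (O Q)).subtype) fun hle => hH (by
      rw [eq_top_iff]
      intro k _
      obtain ⟨g, rfl⟩ := hφ k
      obtain ⟨g', hg', he⟩ := hle g.2
      rwa [← (Subtype.ext he : g' = g)])
    rwa [Subgroup.relIndex, Subgroup.subgroupOf,
      Subgroup.comap_map_eq_self_of_injective (Subgroup.subtype_injective _),
      Subgroup.index_comap_of_surjective _ hφ] at this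
  · rw [Subgroup.index_map_eq _ hφ, hz, Subgroup.relIndex]
    intro g hg
    have h1 : g ∈ Subgroup.center (commutator (O Q)) := by
      rw [← QuotientGroup.eq_one_iff]
      exact (pOmegaEquiv Q h).symm.injective (hg.trans (map_one _).symm)
    obtain ⟨e, -, he0, he⟩ := exists_sing (Q := Q) ⊤ (by rw [finrank_top]; omega)
    rcases (mem_center_iff_of_EG_le hQ (by omega) ⟨e, he0, he⟩ hE.ge g).1 h1 with h2 | h2
    · exact ⟨1, one_ne_zero, by simp [h2]⟩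
    · exact ⟨-1, by simp, by simp [h2]⟩

theorem omega6 {a b : F} (hab : ∀ z₁ z₂ : F, z₁ ^ 2 + a * z₁ * z₂ + b * z₂ ^ 2 = 0 → z₁ = 0 ∧ z₂ = 0) :
    (∀ H : Subgroup (Cfsg.POmega F (Cfsg.quadFormMinus 2 F a b)), H ≠ ⊤ →
      Fintype.card F ^ 4 + Fintype.card F ^ 3 + Fintype.card F ≤ H.index) ∧
    ∃ H : Subgroup (Cfsg.POmega F (Cfsg.quadFormMinus 2 F a b)),
      H.index = (Fintype.card F + 1) * (Fintype.card F ^ 3 + 1) := by
  have hQ := H58.qMinus_nondeg 2 hab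
  have hn : finrank F ((Fin 2 ⊕ Fin 2) ⊕ Fin 2 → F) = 6 := by simp
  obtain ⟨z, -, h0, hz⟩ := exists_sing (Q := H58.qMinus 2 F a b) ⊤ (by rw [finrank_top]; omega)
  have h1 := relIndex_Pst_sing hQ (by omega) h0 hz
  obtain ⟨h2, H, h3⟩ := idx_POmega _ (H58.coe_qMinus 2 F a b) hQ (by omega)
    (le_relIndex hQ hn (H58.not_isPlus_qMinus _ hab)) z
  refine ⟨h2, H, ?_⟩
  rw [H58.card_zero_qMinus _ hab, ← h3] at h1
  obtain ⟨r, hr⟩ : ∃ r, Fintype.card F = r + 2 := ⟨Fintype.card F - 2, by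
    have : 1 < Fintype.card F := Fintype.one_lt_card; omega⟩
  rw [hr] at h1 ⊢
  rw [show (r + 2) ^ 2 - 1 = r ^ 2 + 4 * r + 3 by
    rw [show (r + 2) ^ 2 = r ^ 2 + 4 * r + 3 + 1 by ring]; rfl] at h1
  refine Nat.eq_of_mul_eq_mul_left (Nat.succ_pos r) (Nat.add_right_cancel (h1.trans ?_))
  simp only [Nat.succ_eq_add_one]
  ring

theorem not_dvd (r : ℕ) : ¬ (r + 2) ^ 3 + (r + 2) ^ 2 + 1 ∣ H59.ordGU (r + 2) 4 := by
  intro h
  have e : H59.ordGU (r + 2) 4 = (r + 1) ^ 2 *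
      ((r + 2) ^ 6 * ((r + 3) ^ 4 * ((r ^ 2 + 3 * r + 3) * (r ^ 2 + 4 * r + 5)))) := by
    have e2 : (r + 2) ^ 2 - 1 = (r + 1) * (r + 3) := by
      rw [show (r + 2) ^ 2 = (r + 1) * (r + 3) + 1 by ring]; rfl
    have e4 : (r + 2) ^ 4 - 1 = (r + 1) * (r + 3) * (r ^ 2 + 4 * r + 5) := by
      rw [show (r + 2) ^ 4 = (r + 1) * (r + 3) * (r ^ 2 + 4 * r + 5) + 1 by ring]; rfl
    simp [H59.ordGU, Finset.prod_range_succ, Nat.even_iff, e2, e4]
    ring
  have k : ∀ a : ℕ, (∃ u v : ℤ, u * ((r + 2) ^ 3 + (r + 2) ^ 2 + 1) + v * a = 1) →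
      Nat.Coprime ((r + 2) ^ 3 + (r + 2) ^ 2 + 1) a := fun a ⟨u, v, h⟩ =>
    Nat.isCoprime_iff_coprime.1 ⟨u, v, by push_cast; exact h⟩
  have c1 := k (r + 2) ⟨1, -((r + 2) ^ 2 + (r + 2)), by push_cast; ring⟩
  have c2 := k (r + 3) ⟨1, -(r + 2) ^ 2, by push_cast; ring⟩
  have c3 := k (r ^ 2 + 3 * r + 3) ⟨-(r + 2), (r + 2) * (r + 4) + 1, by push_cast; ring⟩
  have c4 := k (r ^ 2 + 4 * r + 5) ⟨r + 2, 1 - (r + 2) * (r + 3), by push_cast; ring⟩
  rw [e] at h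
  have := Nat.le_of_dvd (by positivity) (Nat.Coprime.dvd_of_dvd_mul_right
    ((c1.pow_right 6).mul_right ((c2.pow_right 4).mul_right (c3.mul_right c4))) h)
  nlinarith [Nat.zero_le (r ^ 3), Nat.zero_le (r ^ 2)]

theorem psu4 (q : ℕ) (hF : Fintype.card F = q ^ 2) (hq : 2 ≤ q) :
    (∀ H : Subgroup (Cfsg.PSU 4 F q), H ≠ ⊤ → (q + 1) * (q ^ 3 + 1) ≤ H.index) ∧
      ∃ H : Subgroup (Cfsg.PSU 4 F q), H.index = (q + 1) * (q ^ 3 + 1) := by
  obtain ⟨p, hc⟩ := CharP.exists F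
  obtain ⟨n, hp, hn⟩ := FiniteField.card F p
  obtain ⟨m, -, hm⟩ := (Nat.dvd_prime_pow hp).1 (show q ∣ p ^ (n : ℕ) from hn ▸ hF ▸ dvd_pow_self q two_ne_zero)
  have := Fact.mk hp
  let _ := Fintype.ofFinite (GaloisField p m)
  have hK : Fintype.card (GaloisField p m) = q := by
    rw [← Nat.card_eq_fintype_card, GaloisField.card p m (by rintro rfl; simp at hm; omega), hm]
  obtain ⟨a, b, hab⟩ := H58.exists_aniso_pair (GaloisField p m)
  obtain ⟨e⟩ := Cfsg.Agent.S0303.result hK hF a b hab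
  obtain ⟨h1, H, h2⟩ := omega6 hab
  rw [hK] at h1 h2
  refine ⟨fun H hH => ?_, H.map e.toMonoidHom, by
    rw [Subgroup.index_map_of_bijective e.bijective, h2]⟩
  have h3 := h1 (H.comap e.toMonoidHom) fun h => hH (by
    rw [← Subgroup.map_comap_eq_self_of_surjective (f := e.toMonoidHom) e.surjective H]
    exact (congrArg _ h).trans (Subgroup.map_top_of_surjective _ e.surjective))
  rw [Subgroup.index_comap_of_surjective _ e.surjective] at h3
  rw [show (q + 1) * (q ^ 3 + 1) = q ^ 4 + q ^ 3 + q + 1 by ring]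
  refine lt_of_le_of_ne h3 fun h4 => ?_
  obtain ⟨r, rfl⟩ : ∃ r, q = r + 2 := ⟨q - 2, by omega⟩
  refine not_dvd r ?_
  rw [← H59.card_SU hF (by norm_num)]
  refine Dvd.dvd.mul_left (Dvd.dvd.trans (Dvd.dvd.trans ⟨r + 2, by rw [← h4]; ring⟩ H.index_dvd_card)
    (Subgroup.card_quotient_dvd_card _)) _

end H20.U4
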