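/- Tower U4, slot Rig: the automizer of the Sylow subgroup is standard. -/
import Cfsg.Agent.H28.U4Gen

set_option autoImplicit false
set_option linter.unusedSectionVars false

open Subgroup H90.RF H92 Cfsg H28.U4
open H90.U5 (BF DD)

namespace H20.U4R

universe v

variable {K : Type*} [Field K] [Finite K] {T : BF K} {p : ℕ}
  {Y0 Y1 Y2 : Subgroup (Equiv.Perm (Co T))} {y : Equiv.Perm (Co T)} {δ : DD K}

theorem A_split {u : Co T} (hu : u ∈ sA T) :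
    u = xb T u.b u.hb * xc T u.c * xd T u.d (A_d hu) := by
  rw [mem_sA] at hu
  ext <;> simp [xb, xc, xd, hu]

theorem exists_cj (h : Tri T p Y0 Y1 Y2) (hy : y ∈ Y0) (s : Co T) :
    ∃ y' ∈ Y0, ∀ u, y' u = s * y u * s⁻¹ := by
  obtain ⟨z, hz, e⟩ := h.inn s
  exact ⟨z * y, mul_mem hz hy, fun u => e _⟩

theorem gr_cj (as : AS T) (a : Au ⊤ y) (g : Gr T y δ) {s : Co T} {y' : Co T → Co T}
    (e : ∀ u, y' u = s * y u * s⁻¹) : Gr T y' δ := by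
  obtain ⟨pZ, pD, -, -⟩ := as.1 y a
  refine ⟨fun u => ?_, fun u hu => ?_, fun u hu => ?_⟩
  · rw [e, ← (g.1 u).1, ← (g.1 u).2]; simp
  · rw [e, (cj_A s (pD u hu).1).2.2.1, (pD u hu).2, g.2.1 u hu]; simp
  · rw [e, comm_Z s (pZ u hu), mul_inv_cancel_right, g.2.2 u hu]

theorem stepA (as : AS T) (h : Tri T p Y0 Y1 Y2) (h2 : St2 T Y2) (hy : y ∈ Y0) (g : Gr T y δ) :
    ∃ t, ∀ u ∈ sA T, xa T t * y u * (xa T t)⁻¹ = sd T δ u := by
  obtain ⟨α, hα, e⟩ := h.res2 y hy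
  obtain ⟨n, hn, en⟩ := h2.n2
  have a := h.l0.au y hy
  obtain ⟨pZ, pD, pA, -⟩ := as.1 y a
  rcases h2.om _ (mul_mem hα hn) with k | ⟨t, k1, k2⟩
  · have k1 := (k.1 (xd T 1 (map_one _)) ⟨rfl, rfl, rfl⟩).2.1
    rw [Equiv.Perm.mul_apply, en _ rfl, e _ rfl, (g.1 _).2, (sd_zero δ _).2.1] at k1
    simp [Co.nu2, xd] at k1
  obtain ⟨y', hy', e'⟩ := exists_cj h hy (xa T t)
  have g' := gr_cj as a g e'
  have a' := h.l0.au y' hy'
  obtain ⟨pZ', pD', -, -⟩ := as.1 y' a'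
  have k3 : ∀ u ∈ sA T, (ux T t * (α * n)) u.nu2 = y' u := fun u hu => by
    rw [Equiv.Perm.mul_apply, Equiv.Perm.mul_apply, en _ rfl, nu2_nu2 hu, e u hu,
      ux_apply t (pA u hu), e']
  refine ⟨t, fun u hu => ?_⟩
  rw [← e', A_split hu, a'.mul _ trivial _ trivial, a'.mul _ trivial _ trivial, H28.U4.sd_mul,
    H28.U4.sd_mul]
  congr 2
  · have k4 := k1 (xb T u.b u.hb).nu2 (by simp [mem_sZ, Co.nu2, xb])
    rw [k3 _ rfl] at k4
    exact Co.ext (g'.1 _).1 (g'.1 _).2 (by rw [k4.2.1, sd_c]; simp [xb])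
      (by rw [k4.2.2, sd_d]; simp [xb])
  · have k4 := k2 (xc T u.c).nu2 (by simp [H28.U4.mem_sD, Co.nu2, xc])
    rw [k3 _ rfl] at k4
    exact Co.ext (g'.1 _).1 (g'.1 _).2 (g'.2.1 _ ⟨rfl, rfl⟩) (by rw [k4.2, sd_d]; simp [xc])
  · exact Co.ext (g'.1 _).1 (g'.1 _).2 (g'.2.1 _ ⟨rfl, rfl⟩) (g'.2.2 _ ⟨rfl, rfl, rfl⟩)

theorem stepB (h : Tri T p Y0 Y1 Y2) (h1 : St1 T (gW T Y1)) (hy : y ∈ Y0) (g : Gr T y δ) :
    ∃ b, T.σ b = b ∧ ∀ a, (y (xa T a)).c = b * (y (xa T a)).a := by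
  obtain ⟨α, hα, e⟩ := h.res1 y hy
  obtain ⟨G, hG, eG⟩ := exists_gW h.l1 hα
  have k0 : ∀ a, (G * nb : Equiv.Perm (K × K)) (0, a) = (y (xa T a)).π := fun a => by
    rw [← e _ rfl, eG _ rfl, Equiv.Perm.mul_apply, nb_apply, neg_zero]; rfl
  rcases h1.om _ (mul_mem hG h1.n1) with k | ⟨b, hb, k⟩
  · have k1 := k (0, 1) rfl
    rw [k0, Co.π, (g.1 _).1, (sd_zero δ _).1] at k1
    simp [xa] at k1
  · refine ⟨b, hb, fun a => ?_⟩
    have k1 := k (0, a) rfl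
    rwa [k0] at k1

theorem stepC (as : AS T) (h : Tri T p Y0 Y1 Y2) (n1 : N1 T Y1) (h2 : St2 T Y2) (hy : y ∈ Y0)
    (k : ∀ a, (y (xa T a)).c = 0) :
    ∃ γ, ∀ a, (y (xa T a)).d = γ * T.σ (y (xa T a)).a + T.σ γ * (y (xa T a)).a := by
  obtain ⟨α, hα, e⟩ := h.res1 y hy
  obtain ⟨n, hn, en⟩ := n1
  have a := h.l0.au y hy
  obtain ⟨pZ, -, -, pQ⟩ := as.1 y a
  have hβ := mul_mem (mul_mem hn hα) (inv_mem hn)
  have k1 : ∀ u ∈ sQ T, (n * α * n⁻¹) u.nu1 = (y u).nu1 := fun u hu => by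
    rw [← en u hu, ← Equiv.Perm.mul_apply, inv_mul_cancel_right, Equiv.Perm.mul_apply, e u hu,
      en _ (pQ u hu)]
  obtain ⟨y', hy', e'⟩ := h.ext1 _ hβ fun w hw => by
    have k2 : w = (xa T (-w.c) * xd T w.d (A_d hw.1)).nu1 := by
      ext <;> simp [Co.nu1, xa, xd, hw.1, hw.2]
    have k3 := pZ (xd T w.d (A_d hw.1)) ⟨rfl, rfl, rfl⟩
    rw [k2, k1 _ (mul_mem rfl rfl), a.mul _ trivial _ trivial]
    exact ⟨by simp [Co.nu1, k, k3.2.1, k3.2.2], rfl⟩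
  obtain ⟨δ', g'⟩ := as.2 y' (h.l0.au y' hy')
  obtain ⟨t, ht⟩ := stepA as h h2 hy' g'
  refine ⟨t, fun c => ?_⟩
  have k2 := congrArg Co.d (ht (xa T c).nu1 rfl)
  rw [← e' _ rfl, k1 _ rfl, (cj_A _ (u := (y (xa T c)).nu1) (k c)).2.2.2, sd_d] at k2
  simp only [Co.nu1, xa, map_neg, map_zero, mul_zero, add_zero] at k2 ⊢
  linear_combination k2

theorem key (as : AS T) (h : Tri T p Y0 Y1 Y2) (h1 : St1 T (gW T Y1)) (n1 : N1 T Y1)
    (h2 : St2 T Y2) (hy : y ∈ Y0) (g : Gr T y δ) : ∃ s, ∀ u, s * y u * s⁻¹ = sd T δ u := by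
  obtain ⟨t, ht⟩ := stepA as h h2 hy g
  obtain ⟨y1, hy1, e1⟩ := exists_cj h hy (xa T t)
  have g1 := gr_cj as (h.l0.au y hy) g e1
  obtain ⟨b, hb, kb⟩ := stepB h h1 hy1 g1
  obtain ⟨y2, hy2, e2⟩ := exists_cj h hy1 (xb T b hb)
  have g2 := gr_cj as (h.l0.au y1 hy1) g1 e2
  have q : ∀ {z : Co T → Co T}, Gr T z δ → ∀ a, z (xa T a) ∈ sQ T := fun g a =>
    (g.1 _).2.trans ((sd_zero δ _).2.1.2 rfl)
  have k2 : ∀ a, (y2 (xa T a)).c = 0 := fun a => by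
    have := congrArg Prod.snd (cj_Q' (xb T b hb) (q g1 a))
    rw [← e2, ub_apply] at this
    simp only [Co.π, xb] at this
    rw [this, kb]; ring
  obtain ⟨γ, kγ⟩ := stepC as h n1 h2 hy2 k2
  obtain ⟨y3, hy3, e3⟩ := exists_cj h hy2 (xc T γ)
  have g3 := gr_cj as (h.l0.au y2 hy2) g2 e3
  have pA := pr_sd (T := T) δ (sA T) (by simp)
  have kA : ∀ u ∈ sA T, y3 u = sd T δ u := fun u hu => by
    rw [e3, e2, e1, ht u hu, comm_A (s := xb T b hb) rfl (pA u hu), mul_inv_cancel_right,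
      comm_A (s := xc T γ) rfl (pA u hu), mul_inv_cancel_right]
  have kx : ∀ a, y3 (xa T a) = sd T δ (xa T a) := fun a => by
    obtain ⟨c1, c2⟩ := cj_QQ (s := xc T γ) rfl (q g2 a)
    rw [← e3] at c1 c2
    refine Co.ext (g3.1 _).1 (g3.1 _).2 ?_ ?_
    · rw [show (y3 (xa T a)).c = _ from congrArg Prod.snd c1, sd_c]
      simpa [xa, Co.π] using k2 a
    · rw [c2, kγ, sd_d]
      simp only [bf, Co.π, k2, xc, show (xa T a).d = 0 from rfl, map_zero]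
      ring
  refine ⟨xc T γ * xb T b hb * xa T t, fun u => ?_⟩
  have k3 : (xa T u.a)⁻¹ * u ∈ sA T := by simp [mem_sA, xa]
  have k4 : y3 u = sd T δ u := by
    rw [← mul_inv_cancel_left (xa T u.a) u, (h.l0.au y3 hy3).mul _ trivial _ trivial,
      H28.U4.sd_mul, kx,
      kA _ k3]
  rw [← k4, e3, e2, e1]
  group

variable (T Y0) in
/-- the standard automorphisms in `Y₀` -/
noncomputable def Ga : Subgroup (DD K) := Y0.comap ((MulAut.toPerm (Co T)).comp (sdH T))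

theorem mem_Ga : δ ∈ Ga T Y0 ↔ ∃ y ∈ Y0, ∀ u, y u = sd T δ u :=
  ⟨fun h => ⟨_, h, fun _ => rfl⟩, fun ⟨y, hy, e⟩ => by
    have : y = ((MulAut.toPerm (Co T)).comp (sdH T)) δ := Equiv.ext e
    exact mem_comap.2 (this ▸ hy)⟩

theorem inl_mem (as : AS T) (h : Tri T p Y0 Y1 Y2) (h1 : St1 T (gW T Y1)) (n1 : N1 T Y1)
    (h2 : St2 T Y2) (hy : y ∈ Y0) (l : Kˣ × Kˣ)
    (kc : ∀ c, (y (xc T c)).c = l.1 * (l.2 * T.σ l.2) * c)
    (k : (y (xa T 1)).a = l.1 ∨ (y (xb T 1 (map_one _))).b = l.2 * T.σ l.2) :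
    SemidirectProduct.inl l ∈ Ga T Y0 := by
  obtain ⟨δ, g⟩ := as.2 y (h.l0.au y hy)
  obtain ⟨s, hs⟩ := key as h h1 n1 h2 hy g
  obtain ⟨y', hy', e⟩ := exists_cj h hy s
  refine mem_Ga.2 ⟨y', hy', fun u => ?_⟩
  have n0 : ∀ x : Kˣ, (x : K) * T.σ x ≠ 0 := fun x => by simp
  have k1 : ∀ c, δ.left.1 * (δ.left.2 * T.σ δ.left.2) * δ.right c = l.1 * (l.2 * T.σ l.2) * c :=
    fun c => by rw [← kc, g.2.1 _ ⟨rfl, rfl⟩, sd_c]; rfl
  have k2 := k1 1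
  rw [map_one, mul_one, mul_one] at k2
  have k3 : ∀ c, δ.right c = c := fun c =>
    mul_left_cancel₀ (mul_ne_zero l.1.ne_zero (n0 l.2)) (by rw [← k1 c, k2])
  have k4 : (δ.left.1 : K) = l.1 ∧ δ.left.2 * T.σ δ.left.2 = l.2 * T.σ l.2 := by
    rcases k with k | k
    · rw [(g.1 _).1, sd_a, k3, show (xa T 1).a = 1 from rfl, mul_one] at k
      exact ⟨k, mul_left_cancel₀ l.1.ne_zero (by rw [← k2, k])⟩
    · rw [(g.1 _).2, sd_b, k3, show (xb T 1 (map_one _)).b = 1 from rfl, mul_one] at k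
      exact ⟨mul_right_cancel₀ (n0 l.2) (by rw [← k2, k]), k⟩
  rw [e, hs, sd_inl]
  ext
  · rw [sd_a, k3, k4.1]; rfl
  · rw [sd_b, k3, k4.2]; rfl
  · rw [sd_c, k3, k4.1, k4.2]; rfl
  · rw [sd_d, k3, k4.1, k4.2]; rfl

theorem jobRig : JobRig.{v} := by
  intro p _ K _ _ _ T as Y0 Y1 Y2 h h1 n1 h2
  refine ⟨Ga T Y0, ?_, fun y => ⟨fun hy => ?_, ?_⟩, fun s hs => ?_, fun s => ?_⟩
  · refine ((Nat.Prime.coprime_iff_not_dvd Fact.out).2 fun hp => ?_).symm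
    have : Finite (RingAut K) := Finite.of_injective _ DFunLike.coe_injective
    have : Finite (DD K) := Finite.of_equiv _ SemidirectProduct.equivProd.symm
    obtain ⟨δ, hδ⟩ := exists_prime_orderOf_dvd_card' p hp
    have k1 : (δ : DD K) ^ p = 1 := by
      rw [← hδ, ← orderOf_coe, pow_orderOf_eq_one]
    obtain ⟨s, e⟩ := h.pel0 _ δ.2 ⟨1, by rw [pow_one, ← map_pow, k1, map_one]⟩
    have k2 : ∀ a, (δ : DD K).left.1 * (δ : DD K).right a = a := fun a => by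
      have := congrArg Co.a (e (xa T a))
      simp only [Co.mul_a, Co.inv_a, add_neg_cancel_comm] at this
      exact this
    have k3 : (δ : DD K).left.1 = 1 := Units.ext (by simpa using k2 1)
    have k4 : (δ : DD K).right = 1 := RingEquiv.ext fun a => by simpa [k3] using k2 a
    have k5 : (δ : DD K) = SemidirectProduct.inl (δ : DD K).left := by
      ext <;> simp [k4]
    rw [k5, ← map_pow, ← map_one SemidirectProduct.inl, SemidirectProduct.inl_inj] at k1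
    have k6 : (δ : DD K).left.2 = 1 := Units.ext (frobenius_inj K p (by
      rw [frobenius_def, Units.val_one, map_one, ← Units.val_pow_eq_pow_val]
      exact congrArg (fun x : Kˣ × Kˣ => (x.2 : K)) k1))
    have k7 : δ = 1 := Subtype.ext (by
      rw [k5, show (δ : DD K).left = 1 from Prod.ext k3 k6, map_one]; rfl)
    rw [k7, orderOf_one] at hδ
    exact (Fact.out : p.Prime).one_lt.ne hδ
  · obtain ⟨δ, g⟩ := as.2 y (h.l0.au y hy)
    obtain ⟨s, hs⟩ := key as h h1 n1 h2 hy g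
    obtain ⟨y', hy', e⟩ := exists_cj h hy s
    exact ⟨s⁻¹, δ, mem_Ga.2 ⟨y', hy', fun u => (e u).trans (hs u)⟩, fun u => by rw [← hs]; group⟩
  · rintro ⟨s, δ, hδ, e⟩
    obtain ⟨z, hz, ez⟩ := mem_Ga.1 hδ
    obtain ⟨y', hy', e'⟩ := exists_cj h hz s
    rwa [show y = y' from Equiv.ext fun u => by rw [e, e', ez]]
  · obtain ⟨α, hα, a, e⟩ := h1.tor s hs
    obtain ⟨y, hy, e'⟩ := h.ext1 α hα ((pl_iff a e).1 fun w hw => by simp [hs_apply, hw])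
    refine inl_mem as h h1 n1 h2 hy _ (fun c => ?_) (.inl ?_)
    · rw [← e' _ rfl, show (α (xc T c)).c = _ from congrArg Prod.snd (e _ rfl), hs_apply]
      simp [t1, hs, Co.π, xc]
    · rw [← e' _ rfl, show (α (xa T 1)).a = _ from congrArg Prod.fst (e _ rfl), hs_apply]
      simp [t1, Co.π, xa]
  · obtain ⟨α, hα, e⟩ := h2.tor s
    have pr := pr_sd (T := T) (SemidirectProduct.inl (t2 s))
    obtain ⟨y, hy, e'⟩ := h.ext2 α hα
      ⟨fun u hu => e u (Z_le_A hu) ▸ pr (sZ T) (by simp) u hu,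
        fun u hu => e u (D_le_A hu) ▸ pr (sD T) (by simp) u hu⟩
    refine inl_mem as h h1 n1 h2 hy _ (fun c => ?_) (.inr ?_)
    · rw [← e' _ rfl, e _ rfl]; rfl
    · rw [← e' _ rfl, e _ rfl]; exact mul_one _

end H20.U4R
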