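import Cfsg.Agent.H20.ZC2
import Cfsg.Agent.H86.Fusion

/-! Row S3759 from the solvable signalizer functor theorem for the prime `2`. -/

set_option autoImplicit false

namespace H20
open Cfsg Subgroup H98 H14 H85

universe u

variable {G : Type u} [Group G] [Finite G]

omit [Finite G] in
theorem SolC.subgroup (hC : SolC G) (H : Subgroup G) : SolC H := by
  intro t ht
  have := hC t (by rw [← ht]; exact Subgroup.orderOf_coe t)
  let f : cz t →* cz (t : G) := (H.subtype.comp (cz t).subtype).codRestrict _ fun x =>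
    mem_cz.2 (congrArg Subtype.val (mem_cz.1 x.2))
  exact Group.isSolvable_of_isSolvable_injective (f := f) fun x y e =>
    Subtype.ext (Subtype.ext (congrArg (fun a : cz (t : G) => (a : G)) e))

theorem SolC.charTwoType_self (hC : SolC G) (h : ∀ u : G, orderOf u = 2 → th u = ⊥)
    (he : Even (Nat.card G)) : IsCharacteristicTwoType G := by
  refine ⟨he, fun T hT h0 => ?_⟩
  obtain ⟨u, hu, ho⟩ := H88.exists_involution_of_isPGroup hT h0
  have c1 : CharP 2 (centralizer (zpowers u : Set G)) := by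
    rw [centralizer_zpowers]; exact charP_of_solvable (hC u ho) (h u ho)
  exact charP_iff.1 ((charP_normalizer_iff hT).2 (charP_centralizer_of_le hT (zpowers_le.2 hu) c1))

theorem sylow_inf_pResidual_ne_bot (heven : Even (Nat.card G)) (hO' : pPrimeCore 2 G = ⊥)
    (hO : pCore 2 G = ⊥) {S : Subgroup G} (hS : IsSyl 2 S ⊤) : S ⊓ pResidual 2 G ≠ ⊥ := by
  have hn : (pResidual 2 G).Normal := pResidual_normal'
  intro h
  have h1 := (hS.inf_of_le_normalizer (N := pResidual 2 G) le_top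
    (by rw [normalizer_eq_top]; exact le_top)).eq_bot_iff.1 h
  have h2 := H2.le_pPrimeCore_of_not_dvd h1
  rw [hO', ← res_top, le_bot_iff, res_eq_bot_iff, isPGroup_top_iff, ← H2.pCore_eq_top_iff, hO] at h2
  rw [← card_top, ← h2, card_bot] at heven
  exact absurd heven (by decide)

theorem s3759_of_sft (hSF : SFT2.{u}) (heven : Even (Nat.card G)) (hC : ∀ t : G, orderOf t = 2 → Group.IsSolvable ↥(Subgroup.centralizer ({t} : Set G))) (hZ : ∀ S : Sylow 2 G, Subgroup.centralizer (Cfsg.omegaOne 2 ((S : Subgroup G) ⊓ Subgroup.centralizer ((S : Subgroup G) : Set G)) : Set G) ≤ Subgroup.normalizer ((S : Subgroup G) : Set G)) (hO' : Cfsg.pPrimeCore 2 G = ⊥) (hO : Cfsg.pCore 2 G = ⊥) (S : Sylow 2 G) : (∃ M : Subgroup ↥(Cfsg.pResidual 2 G), Cfsg.IsStronglyEmbedded M) ∨ (Nat.card ↥(Cfsg.omegaOne 2 ((S : Subgroup G) ⊓ Subgroup.centralizer ((S : Subgroup G) : Set G)) ⊓ Cfsg.pResidual 2 G) = 2 ∧ ∀ h ∈ Cfsg.pResidual 2 G, ∀ z ∈ Cfsg.omegaOne 2 ((S : Subgroup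 G) ⊓ Subgroup.centralizer ((S : Subgroup G) : Set G)) ⊓ Cfsg.pResidual 2 G, h * z * h⁻¹ ∈ (S : Subgroup G) → h * z * h⁻¹ ∈ Cfsg.omegaOne 2 ((S : Subgroup G) ⊓ Subgroup.centralizer ((S : Subgroup G) : Set G))) ∨ (Nat.card ↥(Cfsg.omegaOne 2 ((S : Subgroup G) ⊓ Subgroup.centralizer ((S : Subgroup G) : Set G))) = 4 ∧ Cfsg.omegaOne 2 ((S : Subgroup G) ⊓ Cfsg.pResidual 2 G) = Cfsg.omegaOne 2 ((S : Subgroup G) ⊓ Subgroup.centralizer ((S : Subgroup G) : Set G))) ∨ Cfsg.IsCharacteristicTwoType ↥(Cfsg.pResidual 2 G ⊔ Cfsg.omegaOne 2 ((S : Subgroup G) ⊓ Subgroup.centralizer ((S : Subgroup G) : Set G))) := by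
  have hC : SolC G := hC
  have hS := isSyl_sylow S
  have hZS := hZ S
  set Z : Subgroup G :=
    omegaOne 2 ((S : Subgroup G) ⊓ centralizer ((S : Subgroup G) : Set G)) with hZdef
  set H : Subgroup G := pResidual 2 G with hH
  have hn : H.Normal := pResidual_normal'
  have hnH : ∀ A : Subgroup G, A ≤ normalizer (H : Set G) := fun A => by
    rw [normalizer_eq_top]; exact le_top
  have hZe : E2 Z := e2_iff.2 (ea_oz _)
  have hZH : Z ⊓ H ≠ ⊥ := by
    intro e
    refine inf_oz_ne_bot hS.isPGroup inf_le_left (le_normalizer_inf le_normalizer (hnH _))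
      (sylow_inf_pResidual_ne_bot heven hO' hO hS) (eq_bot_iff.2 ?_)
    rw [← e]
    exact le_inf inf_le_right (inf_le_left.trans inf_le_right)
  obtain ⟨z, hz, hzo⟩ := H88.exists_involution_of_isPGroup (hZe.isPGroup.to_le inf_le_left) hZH
  have hSH : (S : Subgroup G) ⊔ H = ⊤ := by rw [hH, ← res_top]; exact hS.sup_res
  have fin : ((∃ M : Subgroup G, (S : Subgroup G) ≤ M ∧ IsStronglyEmbedded M) ∨
      ∀ u : G, orderOf u = 2 → th u = ⊥) →
      (∃ M : Subgroup H, IsStronglyEmbedded M) ∨ IsCharacteristicTwoType ↥(H ⊔ Z) := by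
    rintro (⟨M, h1, h2⟩ | h)
    · refine Or.inl ⟨_, H88.se_subgroupOf h2 (fun k => h2.1 ?_) ⟨z, hz.2, h1 (oz_le _ hz.1), hzo⟩⟩
      rw [eq_top_iff, ← hSH]; exact sup_le h1 k
    · refine Or.inr (hC.charTwoType h (subN_of_res_le (p := 2) ?_ le_top) ?_)
      · rw [res_top]; exact le_sup_left
      · exact (H88.even_card_iff_exists_involution _).2 ⟨z, mem_sup_left hz.2, hzo⟩
  have fin' : ((∃ M : Subgroup H, IsStronglyEmbedded M) ∨ IsCharacteristicTwoType ↥(H ⊔ Z)) →
      ∀ {P Q : Prop}, (∃ M : Subgroup H, IsStronglyEmbedded M) ∨ P ∨ Q ∨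
        IsCharacteristicTwoType ↥(H ⊔ Z) := fun h _ _ => by tauto
  have hz2 : 2 ≤ Nat.card ↥(Z ⊓ H) := (one_lt_card_iff_ne_bot _).2 hZH
  have hle : Nat.card ↥(Z ⊓ H) ≤ Nat.card Z := card_le_of_le inf_le_left
  obtain ⟨n, hnZ⟩ := hZe.exists_card
  rcases n with _ | _ | n
  · omega
  · -- the centre has a unique involution
    have e : Z ⊓ H = Z := eq_of_le_of_card_ge inf_le_left (by omega)
    by_cases hw : ∀ h ∈ H, ∀ z ∈ Z ⊓ H, h * z * h⁻¹ ∈ (S : Subgroup G) → h * z * h⁻¹ ∈ Z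
    · exact Or.inr (Or.inl ⟨by omega, hw⟩)
    push Not at hw
    obtain ⟨h, hh, y, hy, h1, h2⟩ := hw
    have hy1 : y ≠ 1 := by rintro rfl; simp at h2
    have hyZ : zpowers y = Z := eq_of_le_of_card_ge (zpowers_le.2 hy.1) (by
      rw [Nat.card_zpowers, hZe.ord hy.1 hy1]; omega)
    have hS' : IsSyl 2 (((S : Subgroup G) ⊓ H).subgroupOf H) ⊤ :=
      (hS.inf_of_le_normalizer le_top (hnH _)).subgroupOf_top
    have hcl : ZCl (((S : Subgroup G) ⊓ H).subgroupOf H) ⟨y, hy.2⟩ := by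
      refine ⟨hS', ⟨oz_le _ hy.1, hy.2⟩, ?_, fun x hx => mem_cz.2 (Subtype.ext ?_),
        fun x hx => ?_⟩
      · rw [← hZe.ord hy.1 hy1]; exact (Subgroup.orderOf_coe _).symm
      · exact oz_le_centralizer _ hy.1 x hx.1
      · have a : (x : G) ∈ normalizer ((S : Subgroup G) : Set G) := by
          refine hZS ?_
          rw [← hyZ, centralizer_zpowers]
          exact mem_cz.2 (congrArg Subtype.val (mem_cz.1 hx))
        exact comap_le_normalizer_comap H.subtype
          (le_normalizer_inf (le_refl (normalizer ((S : Subgroup G) : Set G))) (hnH _)) a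
    have hOH : pPrimeCore 2 H = ⊥ := by rw [H2.pPrimeCore_eq_subgroupOf, hO', bot_subgroupOf]
    refine fin' ?_
    rcases hcl.caseA hSF (hC.subgroup H) hOH H86.index_ne_two_pResidual (g := ⟨h, hh⟩)
      ⟨h1, hn.conj_mem y hy.2 h⟩
      (fun k => h2 (by rw [show h * y * h⁻¹ = y from congrArg Subtype.val k]; exact hy.1)) with
      ⟨M, -, hM⟩ | k
    · exact Or.inl ⟨M, hM⟩
    · right
      rw [sup_eq_left.2 (inf_eq_left.1 e)]
      exact (hC.subgroup H).charTwoType_self k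
        ((H88.even_card_iff_exists_involution _).2 ⟨z, hz.2, hzo⟩)
  · by_cases h8 : ∃ A : Subgroup G, E2 A ∧ Z ≤ A ∧ 8 ≤ Nat.card A
    · obtain ⟨A, a, b, c⟩ := h8
      refine fin' (fin (hC.caseB hSF hO' hS (oz_le _) (oz_le_centralizer _) ?_ a b c))
      rw [hnZ, pow_succ, pow_succ]; have := Nat.one_le_two_pow (n := n); omega
    push Not at h8
    have h4 : Nat.card Z = 4 := by
      have := h8 Z hZe le_rfl
      rcases n with _ | n
      · exact hnZ
      · rw [hnZ, pow_succ, pow_succ, pow_succ] at this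
        have := Nat.one_le_two_pow (n := n); omega
    have hall : ∀ w ∈ (S : Subgroup G), w * w = 1 → w ∈ Z := by
      intro w hw h1
      by_contra h2
      have hc : ∀ a ∈ Z, a * w = w * a := fun a ha => (oz_le_centralizer _ ha w hw).symm
      have := h8 _ (hZe.sup_zpowers h1 hc) le_sup_left
      rw [card_sup_zpowers_two (by rw [h1]; exact one_mem _) (mem_normalizer_of_comm hc) h2] at this
      omega
    by_cases hZH' : Z ≤ H
    · refine Or.inr (Or.inr (Or.inl ⟨h4, le_antisymm ((closure_le _).2 fun x hx => ?_) ?_⟩))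
      · exact hall x hx.1.1 (by rw [← pow_two, hx.2])
      · exact H12.ea_le_omegaOne (ea_oz _) (le_inf (oz_le _) hZH')
    · refine Or.inr (Or.inl ⟨?_, fun h _ y hy k => hall _ k ?_⟩)
      · have a : Nat.card ↥(Z ⊓ H) ≠ 4 := fun e =>
          hZH' (inf_eq_left.1 (eq_of_le_of_card_ge inf_le_left (by omega)))
        have b : Nat.card ↥(Z ⊓ H) ∣ 4 := h4 ▸ card_dvd_of_le inf_le_left
        have c : Nat.card ↥(Z ⊓ H) ≠ 3 := fun e => by rw [e] at b; omega
        omega
      · calc h * y * h⁻¹ * (h * y * h⁻¹) = h * (y * y) * h⁻¹ := by group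
          _ = 1 := by rw [hZe y hy.1]; group

end H20
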