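import Cfsg.Agent.H20.ZC3
import Cfsg.Agent.H20.Prim
import Cfsg.Agent.S0518

/-! Row S3758 from the signalizer functor theorem. -/

set_option autoImplicit false

namespace H20
open Cfsg Subgroup H98 H14 H85

universe u

theorem isQuasiDihedral_of_mulEquiv {A B : Type*} [Group A] [Group B] (e : A ≃* B)
    (h : IsQuasiDihedral A) : IsQuasiDihedral B := by
  obtain ⟨n, h1, h2, x, y, h3, h4, h5⟩ := h
  refine ⟨n, h1, by rw [← h2, Nat.card_congr e.toEquiv], e x, e y, by rw [e.orderOf_eq, h3],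
    by rw [e.orderOf_eq, h4], ?_⟩
  rw [← map_inv, ← map_mul, ← map_mul, h5, map_pow]

theorem se_comap_mulEquiv {A B : Type*} [Group A] [Group B] [Finite A] [Finite B] (e : A ≃* B)
    {M : Subgroup B} (h : IsStronglyEmbedded M) : IsStronglyEmbedded (M.comap (e : A →* B)) := by
  obtain ⟨h1, ⟨t, ht, ho⟩, h3⟩ := (H88.isStronglyEmbedded_iff M).1 h
  refine (H88.isStronglyEmbedded_iff _).2 ⟨fun k => h1 ?_, ⟨e.symm t, by simpa using ht,
    by rw [e.symm.orderOf_eq, ho]⟩, fun s hs so g hg => h3 (e s) hs (by rw [e.orderOf_eq, so]) _ ?_⟩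
  · rw [← map_comap_eq_self_of_surjective (f := (e : A →* B)) e.surjective M, k,
      map_top_of_surjective _ e.surjective]
  · simpa using hg

variable {G : Type u} [Group G] [Finite G]

theorem exists_four_perm_four : ∃ V : Subgroup (Equiv.Perm (Fin 4)), V.Normal ∧ E2 V ∧
    Nat.card V = 4 ∧ centralizer (V : Set (Equiv.Perm (Fin 4))) ≤ V := by
  let a : Equiv.Perm (Fin 4) := Equiv.swap 0 1 * Equiv.swap 2 3
  let b : Equiv.Perm (Fin 4) := Equiv.swap 0 2 * Equiv.swap 1 3
  have ha : a * a = 1 := by decide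
  have hb : b * b = 1 := by decide
  have hc : a * b = b * a := by decide
  have hK := H86.isKleinFour_closure ha hb hc (by decide) (by decide) (by decide)
  have hm := H86.mem_closure_four ha hb hc
  refine ⟨closure {a, b}, ⟨fun n hn g => ?_⟩, E2.of_isKleinFour hK, hK.card_four, fun x hx => ?_⟩
  · rw [hm] at hn ⊢
    revert hn g n
    decide
  · have h1 := hx a (subset_closure (by simp))
    have h2 := hx b (subset_closure (by simp))
    rw [hm]
    revert h1 h2
    clear hx
    revert x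
    decide

/-- A maximal `2`-local subgroup isomorphic to `S₄` forces dihedral or semidihedral Sylow
`2`-subgroups. -/
theorem dihedral_or_quasi_of_local {M S : Subgroup G} (hM : IsMaximalTwoLocal M)
    (e : M ≃* Equiv.Perm (Fin 4)) (hS : IsSyl 2 S ⊤) :
    (∃ n : ℕ, 2 ≤ n ∧ Nonempty (S ≃* DihedralGroup n)) ∨ IsQuasiDihedral S := by
  obtain ⟨V₀, hn, hE, h4, hc⟩ := exists_four_perm_four
  let f : Equiv.Perm (Fin 4) →* G := M.subtype.comp e.symm.toMonoidHom
  have hf : Function.Injective f := M.subtype_injective.comp e.symm.injective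
  have hr : (⊤ : Subgroup (Equiv.Perm (Fin 4))).map f = M := by
    rw [← map_map, map_top_of_surjective _ e.symm.surjective, map_subtype_top]
  have hV4 : Nat.card (V₀.map f) = 4 := by rw [card_map_of_injective hf, h4]
  have hV0 : V₀.map f ≠ ⊥ := fun k => by rw [k, card_bot] at hV4; omega
  have hN : normalizer (V₀.map f : Set G) = M :=
    maxLoc_normalizer_eq (p := 2) hM (hE.map f).isPGroup hV0 (by
      rw [← hr]; exact map_le_normalizer_map f (by rw [normalizer_eq_top]))
  have hC : centralizer (V₀.map f : Set G) ≤ V₀.map f := by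
    have := map_inf_centralizer hf ⊤ V₀
    rw [hr, inf_eq_right.2 ((centralizer_le_normalizer _).trans hN.le), top_inf_eq] at this
    rw [← this]; exact map_mono hc
  obtain ⟨T, hT, hVT⟩ := exists_isSyl_le (hE.map f).isPGroup (le_normalizer.trans hN.le)
  have hT8 : Nat.card T = 8 := by
    rw [hT.card_eq, Nat.card_congr e.toEquiv, Nat.card_eq_fintype_card, Fintype.card_perm,
      Fintype.card_fin]
    decide +kernel
  obtain ⟨g, -, hg⟩ := hS.exists_cj_le hT.isPGroup le_top
  set V : Subgroup G := cj g (V₀.map f) with hV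
  have hVS : V ≤ S := (cj_mono g hVT).trans hg
  have hVE : E2 V := (hE.map f).map _
  have hV4' : Nat.card V = 4 := by rw [hV, card_cj, hV4]
  have hC' : centralizer (V : Set G) ≤ V := by rw [hV, ← cj_centralizer]; exact cj_mono g hC
  have hS0 : S ≠ ⊥ := fun k => by rw [k, le_bot_iff] at hVS; rw [hVS, card_bot] at hV4'; omega
  obtain ⟨z, hz, hzo⟩ := H88.exists_involution_of_isPGroup (isPGroup_oz (p := 2) S)
    (oz_ne_bot hS.isPGroup hS0)
  have hzV : z ∈ V := hC' (centralizer_anti hVS (oz_le_centralizer S hz))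
  have hK := hVE.isKleinFour hV4'
  obtain ⟨t, ht, ht1, htz⟩ := H86.four_exists_ne hK z
  have hP : S ⊓ cz t = V := by
    refine le_antisymm (fun x hx => hC' fun v hv => ?_)
      (le_inf hVS fun x hx => mem_cz.2 (hVE.comm hx ht))
    have a : z * x = x * z := (oz_le_centralizer S hz x hx.1).symm
    have b : t * x = x * t := (mem_cz.1 hx.2).symm
    rcases (H86.four_mem_iff hK hzV ht (ne_one_of_orderOf hzo) ht1 htz.symm v).1 hv with
      rfl | rfl | rfl | rfl
    · simp
    · exact a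
    · exact b
    · rw [mul_assoc, b, ← mul_assoc, a, mul_assoc]
  obtain ⟨m, a, b, hd⟩ := H3.exists_dsq_of_card_centralizer hS.isPGroup
    (fun k => by
      have a : S ≤ V := hP ▸ le_inf le_rfl fun x hx => mem_cz.2 (congrArg Subtype.val
        (k.is_comm.comm (⟨x, hx⟩ : S) ⟨t, hVS ht⟩))
      have b := card_le_of_le (hg.trans a)
      rw [card_cj] at b
      omega) (x := ⟨t, hVS ht⟩) (by
      rw [← hV4', ← hP, ← card_map_of_injective S.subtype_injective, ← centralizer_zpowers,
        map_subtype_centralizer, MonoidHom.map_zpowers, centralizer_zpowers]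
      rfl)
  rcases hd.three_cases' with h | ⟨⟨h⟩⟩ | h
  · refine Or.inl ⟨_, ?_, h⟩
    rw [pow_succ]; have := Nat.one_le_two_pow (n := m); omega
  · exfalso
    obtain ⟨a, b, hq⟩ := H86.exists_GQ h
    have h1 := (hq.eq_of_sq (by positivity) (hVS ht) (hVE t ht)).resolve_left ht1
    have h2 := (hq.eq_of_sq (by positivity) (hVS hzV) (hVE z hzV)).resolve_left
      (ne_one_of_orderOf hzo)
    exact htz (h1.trans h2.symm)
  · exact Or.inr h

theorem s3758_of (hSF : SFT2.{u}) (heven : Even (Nat.card G)) (hN : ∀ L : Subgroup G, Cfsg.IsTwoLocal L → Group.IsSolvable L) (hZ : ∀ S : Sylow 2 G, Subgroup.centralizer (Cfsg.omegaOne 2 ((S : Subgroup G) ⊓ Subgroup.centralizer ((S : Subgroup G) : Set G)) : Set G) ≤ Subgroup.normalizer ((S : Subgroup G) : Set G)) (hO' : Cfsg.pPrimeCore 2 G = ⊥) (hO : Cfsg.pCore 2 G = ⊥) (S : Sylow 2 G) : (∃ M : Subgroup ↥(Cfsg.pResidual 2 G), Cfsg.IsStronglyEmbedded M) ∨ ((∃ n : ℕ, 2 ≤ n ∧ Nonempty (↥((S : Subgroup G) ⊓ Cfsg.pResidual 2 G) ≃* DihedralGroup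 n)) ∨ Cfsg.IsQuasiDihedral ↥((S : Subgroup G) ⊓ Cfsg.pResidual 2 G)) ∨ (Nat.card ↥(Cfsg.omegaOne 2 ((S : Subgroup G) ⊓ Subgroup.centralizer ((S : Subgroup G) : Set G)) ⊓ Cfsg.pResidual 2 G) = 2 ∧ ∀ h ∈ Cfsg.pResidual 2 G, ∀ z ∈ Cfsg.omegaOne 2 ((S : Subgroup G) ⊓ Subgroup.centralizer ((S : Subgroup G) : Set G)) ⊓ Cfsg.pResidual 2 G, h * z * h⁻¹ ∈ (S : Subgroup G) → h * z * h⁻¹ ∈ Cfsg.omegaOne 2 ((S : Subgroup G) ⊓ Subgroup.centralizer ((S : Subgroup G) : Set G))) ∨ (Nat.card ↥(Cfsg.omegaOne 2 ((S : Subgroup G) ⊓ Subgroup.centralizer ((S : Subgroup G) : Set G))) = 4 ∧ Cfsg.omegaOne 2 ((S : Subgroup G) ⊓ Cfsg.pResidual 2 G) = Cfsg.omegaOne 2 ((S : Subgroup G) ⊓ Subgroup.centralizer ((S : Subgroup G) : Set G))) := by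
  have hC : SolC G := fun t ht => by
    have := hN _ ⟨zpowers t, isPGroup_zpowers_two (mul_self_of_orderOf ht),
      by rw [Ne, zpowers_eq_bot]; exact ne_one_of_orderOf ht, rfl⟩
    refine Group.isSolvable_of_isSolvable_injective (inclusion_injective
      (show cz t ≤ normalizer (zpowers t : Set G) from ?_))
    rw [cz, ← centralizer_zpowers]; exact centralizer_le_normalizer _
  rcases s3759_of_sft hSF heven hC hZ hO' hO S with h | h | h | h
  · exact Or.inl h
  · exact Or.inr (Or.inr (Or.inl h))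
  · exact Or.inr (Or.inr (Or.inr h))
  have hS := isSyl_sylow S
  have hZS := hZ S
  set Z : Subgroup G :=
    omegaOne 2 ((S : Subgroup G) ⊓ centralizer ((S : Subgroup G) : Set G)) with hZdef
  set H : Subgroup G := pResidual 2 G with hH
  have hn : H.Normal := pResidual_normal'
  have hnH : ∀ A : Subgroup G, A ≤ normalizer (H : Set G) := fun A => by
    rw [normalizer_eq_top]; exact le_top
  set K : Subgroup G := H ⊔ Z with hK
  have hHK : H ≤ K := le_sup_left
  have hsub : SubN K ⊤ := subN_of_res_le (p := 2) (by rw [res_top]; exact hHK) le_top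
  have hSK : IsSyl 2 ((S : Subgroup G) ⊓ K) K := hS.inf_subN hsub
  have hSH : IsSyl 2 ((S : Subgroup G) ⊓ H) H := hS.inf_of_le_normalizer le_top (hnH _)
  have hres : res 2 K = H := by
    rw [hH, ← res_top]; exact res_eq_of_le (by rw [res_top]; exact hHK) le_top
  have hi := K.subtype_injective
  have h1 : pCore 2 K = ⊥ := by
    have := hsub.pCoreOf_le (p := 2)
    rwa [pCoreOf_top, hO, le_bot_iff, pCoreOf_eq_bot_iff] at this
  have h2 : ∀ N : Subgroup K, IsTwoLocal N → Group.IsSolvable N := by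
    rintro _ ⟨T, hT, h0, rfl⟩
    have := hN _ ⟨T.map K.subtype, hT.map _, by rwa [Ne, map_eq_bot_iff_of_injective _ hi], rfl⟩
    have h1 : Group.IsSolvable ((normalizer (T : Set K)).map K.subtype) :=
      Group.isSolvable_of_isSolvable_injective
        (inclusion_injective (map_le_normalizer_map K.subtype le_rfl))
    exact Group.isSolvable_of_isSolvable_injective
      (f := ((normalizer (T : Set K)).equivMapOfInjective _ hi).toMonoidHom)
      ((normalizer (T : Set K)).equivMapOfInjective _ hi).injective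
  have h3 : ∀ T : Sylow 2 K, centralizer {z : K | z ∈ (T : Subgroup K) ∧ z ^ 2 = 1 ∧
      ∀ s ∈ (T : Subgroup K), s * z = z * s} ≤ normalizer ((T : Subgroup K) : Set K) := by
    intro T x hx
    obtain ⟨g, hg, e⟩ := hSK.exists_cj_eq (isSyl_map_subtype T)
    have a : (x : G) ∈ cj g (centralizer (Z : Set G)) := by
      rw [cj_centralizer]
      intro y hy
      have hy' : y ∈ oz 2 (cj g (S : Subgroup G)) := by rw [← cj_oz]; exact hy
      have hyK : y ∈ K := cj_le_of_le_of_mem le_sup_right hg hy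
      have hyT : y ∈ (T : Subgroup K).map K.subtype :=
        e ▸ cj_mono g (le_inf (oz_le _) le_sup_right) hy
      rw [mem_oz] at hy'
      have := hx ⟨y, hyK⟩ ⟨(mem_map_iff_mem hi).1 hyT, Subtype.ext hy'.2.2,
        fun s hs => Subtype.ext (hy'.2.1 s (cj_mono g inf_le_left (e ▸ mem_map_of_mem _ hs)))⟩
      exact congrArg Subtype.val this
    have b : (x : G) ∈ normalizer ((T : Subgroup K).map K.subtype : Set G) := by
      rw [← e, cj_inf, cj_eq_self_of_mem hg, ← cj_eq_self_iff, cj_inf, cj_eq_self_of_mem x.2,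
        cj_eq_self (by rw [← cj_normalizer]; exact cj_mono g hZS a)]
    have c : (x : G) ∈ (normalizer ((T : Subgroup K) : Set K)).map K.subtype := by
      rw [map_subtype_normalizer]; exact ⟨x.2, b⟩
    exact (mem_map_iff_mem hi).1 c
  have h4 : H.subgroupOf K = closure {g : K | Odd (orderOf g)} := by
    rw [← hres, res_subgroupOf]
    unfold pResidual
    congr 1
    ext x
    exact Nat.coprime_two_right
  have e₀ : H.subgroupOf K ≃* H := subgroupOfEquivOfLe hHK
  rcases Cfsg.Agent.S0518.result h h1 h2 h3 _ h4 with ⟨M, hM⟩ | ⟨M, -, -, hM, -, ⟨e⟩, -⟩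
  · left
    obtain ⟨t, ht, ho⟩ := H88.exists_involution_of_isPGroup hSH.isPGroup
      (sylow_inf_pResidual_ne_bot heven hO' hO hS)
    obtain ⟨s, hs, so⟩ := H88.se_exists_involution hM
    obtain ⟨g, hg⟩ := isConj_iff.1 (H88.se_isConj hM (a := ⟨t, hHK ht.2⟩)
      ((Subgroup.orderOf_coe _).symm.trans ho) so)
    refine ⟨_, se_comap_mulEquiv e₀.symm (H88.se_subgroupOf hM (fun k => hM.1 ?_)
      ⟨s, hg ▸ hn.conj_mem t ht.2 g, hs, so⟩)⟩
    obtain ⟨T, hT, hsT⟩ := exists_isSyl_le (isPGroup_zpowers_two (mul_self_of_orderOf so))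
      (le_top (a := zpowers s))
    rw [eq_top_iff, ← hT.sup_res, res_top, ← res_subgroupOf, hres]
    refine sup_le (H88.se_le_of_isPGroup hM hT.isPGroup fun k' => ne_one_of_orderOf so ?_) k
    exact mem_bot.1 (k' ▸ (⟨hsT (mem_zpowers s), hs⟩ : s ∈ T ⊓ M))
  · right; left
    have hT := (hSH.subgroupOf hHK).subgroupOf_top
    have e₁ := (subgroupOfEquivOfLe (hSH.subgroupOf hHK).le).trans
      (subgroupOfEquivOfLe (inf_le_right.trans hHK : (S : Subgroup G) ⊓ H ≤ K))
    rcases dihedral_or_quasi_of_local hM e hT with ⟨n, a, ⟨b⟩⟩ | a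
    · exact Or.inl ⟨n, a, ⟨e₁.symm.trans b⟩⟩
    · exact Or.inr (isQuasiDihedral_of_mulEquiv e₁ a)

end H20
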